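import Cfsg.Agent.COV.Two

/-! A base case in dimension 4. -/

set_option autoImplicit false

namespace Cfsg.Agent.COV

open Module LinearMap H67

universe u

variable {F : Type u} [Field F] {V W : Type u} [AddCommGroup V] [Module F V] [AddCommGroup W]
  [Module F W] [FiniteDimensional F V] [FiniteDimensional F W]

theorem b4_sim {n : ℕ} (P : Matrix (Fin n) (Fin n) F) {M N : Matrix (Fin n) (Fin n) F}
    (h : P.det ≠ 0) (e : P * M = N * P) : Sim (Matrix.toLin' M) (Matrix.toLin' N) := by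
  obtain ⟨Q, -, h2⟩ := conj_toLin (Pi.basisFun F (Fin n)) h e
  rw [Matrix.toLin_eq_toLin'] at h2
  exact h2 ▸ sim_conj Q _

theorem big_aff (hq : 4 ≤ Nat.card F) {a₁ a₂ a₃ : F} (h₁ : a₁ ≠ 0) (h₂ : a₂ ≠ 0) (h₃ : a₃ ≠ 0)
    (b₁ b₂ b₃ : F) : ∃ y, a₁ * y ≠ b₁ ∧ a₂ * y ≠ b₂ ∧ a₃ * y ≠ b₃ := by
  obtain ⟨y, k₁, k₂, k₃⟩ := big hq (b₁ / a₁) (b₂ / a₂) (b₃ / a₃)
  exact ⟨y, fun h => k₁ (by rw [← h]; field_simp), fun h => k₂ (by rw [← h]; field_simp),
    fun h => k₃ (by rw [← h]; field_simp)⟩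

theorem b4_det (M : Matrix (Fin 4) (Fin 4) F) : M.det =
    M 0 0 * (M 1 1 * (M 2 2 * M 3 3 - M 2 3 * M 3 2) - M 1 2 * (M 2 1 * M 3 3 - M 2 3 * M 3 1) +
      M 1 3 * (M 2 1 * M 3 2 - M 2 2 * M 3 1)) -
    M 0 1 * (M 1 0 * (M 2 2 * M 3 3 - M 2 3 * M 3 2) - M 1 2 * (M 2 0 * M 3 3 - M 2 3 * M 3 0) +
      M 1 3 * (M 2 0 * M 3 2 - M 2 2 * M 3 0)) +
    M 0 2 * (M 1 0 * (M 2 1 * M 3 3 - M 2 3 * M 3 1) - M 1 1 * (M 2 0 * M 3 3 - M 2 3 * M 3 0) +
      M 1 3 * (M 2 0 * M 3 1 - M 2 1 * M 3 0)) -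
    M 0 3 * (M 1 0 * (M 2 1 * M 3 2 - M 2 2 * M 3 1) - M 1 1 * (M 2 0 * M 3 2 - M 2 2 * M 3 0) +
      M 1 2 * (M 2 0 * M 3 1 - M 2 1 * M 3 0)) := by
  rw [Matrix.det_succ_row_zero]
  simp [Fin.sum_univ_succ, Matrix.det_fin_three, Fin.succAbove]
  ring

theorem b4_form {C : End F V} (h3 : finrank F V = 3) (hC : Cyc C)
    (hd : LinearMap.det C ≠ 0) {c : F} (hc : ¬ Av C c) : ∃ t d : F, c ≠ 0 ∧ d ≠ 0 ∧
      Sim (Matrix.toLin' !![0, -d, 1, 0; 1, t, 0, 0; 0, 0, c, 0; 0, 0, 0, c])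
        (C.prodMap (c • 1 : End F F)) := by
  obtain ⟨b, v, hb⟩ := hC.krylov h3
  obtain ⟨p, q, r, h1⟩ : ∃ p q r, C = Matrix.toLin b b !![0, 0, p; 1, 0, q; 0, 1, r] := by
    refine ⟨b.repr (C (b 2)) 0, b.repr (C (b 2)) 1, b.repr (C (b 2)) 2, b.ext fun i => ?_⟩
    have h0 : C (b 0) = b 1 := by simp [hb]
    have h1 : C (b 1) = b 2 := by simp [hb, pow_two]
    have := (b.sum_repr (C (b 2))).symm
    rw [Fin.sum_univ_three] at this
    fin_cases i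
    · simp [h0, Fin.sum_univ_three]
    · simp [h1, Fin.sum_univ_three]
    · simpa [Fin.sum_univ_three] using this
  clear hb hC
  subst h1
  rw [av_iff_det, two_det, Matrix.det_fin_three, not_not] at hc
  rw [det_toLin, Matrix.det_fin_three] at hd
  simp at hc hd
  obtain ⟨t, rfl⟩ : ∃ t, r = t + c := ⟨r - c, by ring⟩
  obtain ⟨d, rfl⟩ : ∃ d, q = -d - c * t := ⟨-q - c * t, by ring⟩
  obtain rfl : p = c * d := by linear_combination hc
  refine ⟨t, d, left_ne_zero_of_mul hd, right_ne_zero_of_mul hd, (b4_sim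
    !![-c, 0, 1, 0; 1, -c, 0, 0; 0, 1, 0, 0; 0, 0, 0, 1] (N := !![0, 0, c * d, 0;
      1, 0, -d - c * t, 0; 0, 1, t + c, 0; 0, 0, 0, c]) (by simp [b4_det]) (by
      ext i j; fin_cases i <;> fin_cases j <;> simp [Matrix.mul_apply, Fin.sum_univ_four] <;>
        ring)).trans (Sim.symm ?_)⟩
  refine ⟨LinearEquiv.ofLinearMap (LinearMap.pi ![b.coord 0 ∘ₗ fst F V F, b.coord 1 ∘ₗ fst F V F,
    b.coord 2 ∘ₗ fst F V F, snd F V F]) (LinearMap.prod ((proj 0).smulRight (b 0) +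
      (proj 1).smulRight (b 1) + (proj 2).smulRight (b 2)) (proj 3)) ?_ ?_, fun w => ?_⟩
  · refine LinearMap.ext fun w => funext fun i => ?_
    fin_cases i <;> simp
  · refine LinearMap.ext fun w => Prod.ext ?_ (by simp)
    have := b.sum_repr w.1
    rw [Fin.sum_univ_three] at this
    simpa using this
  · funext i
    fin_cases i <;>
      simp [Matrix.repr_toLin, Matrix.mulVec, dotProduct, Fin.sum_univ_three, Fin.sum_univ_four]

theorem b4a (hq : 4 ≤ Nat.card F) {C : End F V} (h3 : finrank F V = 3) (hC : Cyc C)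
    (hd : LinearMap.det C ≠ 0) {c : F} (hc : ¬ Av C c) :
    ∃ b, In False (C.prodMap (c • 1 : End F F)) 2 b ∧ Nice b ∧ Av b (c ^ 2) := by
  obtain ⟨t, d, c0, d0, hs⟩ := b4_form h3 hC hd hc
  obtain ⟨β, β0, β1, -⟩ := big hq 0 c c
  have β2 : c - β ≠ 0 := sub_ne_zero.2 β1.symm
  obtain ⟨h, hh⟩ : ∃ h, h = β ^ 2 - t * β + d := ⟨_, rfl⟩
  obtain ⟨y, y1, y2, y3⟩ := big_aff hq (mul_ne_zero β0 β2) (mul_ne_zero c0 (mul_ne_zero β0 β2))
    (pow_ne_zero 2 β0) (-h ^ 2) (β * (c ^ 2 - t * c + d) ^ 2 - c * h ^ 2)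
    (h * (3 * β ^ 2 - t * β - d))
  obtain ⟨x, hx⟩ : ∃ x, β * (x + β * y) = h ^ 2 := ⟨h ^ 2 / β - β * y, by field_simp; ring⟩
  have a0 : x + c * y ≠ 0 := fun e => y1 (by linear_combination β * e - hx)
  have s1 := b4_sim !![1, 0, 0, y; 0, 1, 0, 0; 0, 0, 0, x + c * y; 0, 0, 1, 0]
    (M := !![0, -d, 0, x; 1, t, 0, y; 0, 0, c, 0; 0, 0, 0, c])
    (N := !![0, -d, 1, 0; 1, t, 0, 0; 0, 0, c, 0; 0, 0, 0, c]) (by
      rw [b4_det]; simp; exact fun e => a0 (by linear_combination -e)) (by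
      ext i j; fin_cases i <;> fin_cases j <;> simp [Matrix.mul_apply, Fin.sum_univ_four] <;> ring)
  have s2 := b4_sim !![0, 0, 1, 0; 0, 0, 0, 1; 0, c, 0, 0; 1, 0, 0, 0]
    (M := !![c, 0, 0, 0; 0, c, 0, 0; 0, c, 0, -d; 0, 0, 1, t])
    (N := !![0, -d, 1, 0; 1, t, 0, 0; 0, 0, c, 0; 0, 0, 0, c]) (by simpa [b4_det] using c0) (by
      ext i j; fin_cases i <;> fin_cases j <;> simp [Matrix.mul_apply, Fin.sum_univ_four])
  obtain ⟨g, g1, g2⟩ := ((In.one (sc_false.2 s1.symm)).cons (sc_false.2 s2.symm)).sim hs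
  have hZ : ∀ v : Fin 4 → F, (Matrix.toLin' !![c, 0, 0, 0; 0, c, 0, 0; 0, c, 0, -d; 0, 0, 1, t] *
      Matrix.toLin' !![0, -d, 0, x; 1, t, 0, y; 0, 0, c, 0; 0, 0, 0, c]) v =
      ![c * (-d * v 1 + x * v 3), c * (v 0 + t * v 1 + y * v 3),
        c * (v 0 + t * v 1 + (y - d) * v 3), c * (v 2 + t * v 3)] := fun v => by
    funext i
    fin_cases i <;> simp [Matrix.mulVec, dotProduct, Fin.sum_univ_four] <;> ring
  generalize Matrix.toLin' !![c, 0, 0, 0; 0, c, 0, 0; 0, c, 0, -d; 0, 0, 1, t] *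
      Matrix.toLin' !![0, -d, 0, x; 1, t, 0, y; 0, 0, c, 0; 0, 0, 0, c] = Z at g2 hZ
  refine ⟨g, g1, Nice.sim ⟨⟨proj 3, fun X h1 h2 => eq_bot_iff.2 fun v hv => ?_⟩, c * β,
    (h * (3 * β ^ 2 - t * β - d) - β ^ 2 * y)⁻¹ • ![(β - t) * h - y * β, h, (β - t) * β, β],
    β • proj 0 + (t * β - d) • proj 1 + h • proj 2 + (β * h) • proj 3, ?_, fun v => ?_, ?_⟩ g2,
    Av.sim (fun v hv => ?_) g2⟩
  · have k3 : ∀ v ∈ X, v 3 = 0 := fun v hv => h1 hv
    have k2 : ∀ v ∈ X, v 2 = 0 := fun v hv => by simpa [hZ, k3 v hv, c0] using k3 _ (h2 v hv)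
    have k1 : ∀ v ∈ X, v 0 + t * v 1 = 0 := fun v hv => by
      simpa [hZ, k3 v hv, c0] using k2 _ (h2 v hv)
    have k0 : v 1 = 0 := by simpa [hZ, k3 v hv, k1 v hv, c0, d0] using k1 _ (h2 v hv)
    funext i
    fin_cases i
    · simpa [k0] using k1 v hv
    · exact k0
    · exact k2 v hv
    · exact k3 v hv
  · rw [map_smul, smul_comm, hZ]
    congr 1
    funext i
    fin_cases i <;> simp
    · linear_combination c * hx + c * h * hh
    · ring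
    · linear_combination c * β * hh
    · ring
  · simp [hZ]
    linear_combination c * (v 0 + v 1 * t) * hh + c * v 3 * hx + c * v 3 * (y + h) * hh
  · rw [map_smul, smul_eq_mul, inv_mul_eq_one₀ (sub_ne_zero.2 y3.symm)]
    simp
    ring
  · rw [hZ] at hv
    have e0 := congrFun hv 0
    have e1 := congrFun hv 1
    have e2 := congrFun hv 2
    have e3 := congrFun hv 3
    simp [pow_two, mul_assoc, c0] at e0 e1 e2 e3
    have k2 : v 2 = (c - t) * v 3 := by linear_combination e3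
    have k1 : c * v 1 = (c ^ 2 - t * c + d) * v 3 := by linear_combination e2 - e1 + c * k2
    have k0 : (x + c * y) * v 3 = (c ^ 2 - t * c + d) * v 1 := by linear_combination e0 + c * e1
    have k3 : v 3 = 0 := mul_left_cancel₀ (sub_ne_zero.2 y2) (by
      linear_combination β * c * k0 + β * (c ^ 2 - t * c + d) * k1 - c * v 3 * hx)
    have k4 : v 1 = 0 := by simpa [k3, c0] using k1
    funext i
    fin_cases i
    · simpa [k3, k4] using e1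
    · exact k4
    · simpa [k3] using k2
    · exact k3

end Cfsg.Agent.COV
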