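import Cfsg.Agent.COV.Kry

/-! Coordinate systems, flags and triangular maps. -/

set_option autoImplicit false

namespace Cfsg.Agent.COV

open Module LinearMap H67

universe u

variable {F : Type u} [Field F] {V W : Type u} [AddCommGroup V] [Module F V] [AddCommGroup W]
  [Module F W]

variable (F V) in
/-- a coordinate system -/
structure Co (n : ℕ) where
  /-- coordinates -/
  ε : ℕ → Dual F V
  /-- basis vectors -/
  e : ℕ → V
  inj : ∀ v, (∀ j < n, ε j v = 0) → v = 0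
  dual : ∀ i < n, ∀ j < n, ε j (e i) = if j = i then 1 else 0

variable {n k i : ℕ} {c : Co F V n} {d : Co F W n} {P : V →ₗ[F] W} {δ : ℕ → F} {v : V}

/-- the flag -/
def Co.fl (c : Co F V n) (i : ℕ) : Submodule F V := ⨅ (j : ℕ) (_ : i ≤ j) (_ : j < n), ker (c.ε j)

theorem Co.mem_fl : v ∈ c.fl i ↔ ∀ j, i ≤ j → j < n → c.ε j v = 0 := by simp [Co.fl]

theorem Co.eps (h : v ∈ c.fl i) {j : ℕ} (h1 : i ≤ j) (h2 : j < n) : c.ε j v = 0 :=
  Co.mem_fl.1 h j h1 h2

theorem Co.fl_mono {j : ℕ} (h : v ∈ c.fl i) (h1 : i ≤ j) : v ∈ c.fl j :=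
  Co.mem_fl.2 fun _ h2 h3 => Co.eps h (h1.trans h2) h3

theorem Co.fl_top (h : n ≤ i) : v ∈ c.fl i := Co.mem_fl.2 fun _ _ _ => by omega

theorem Co.fl_zero (h : v ∈ c.fl 0) : v = 0 := c.inj v fun _ hj => Co.eps h (Nat.zero_le _) hj

theorem Co.fl_of_succ (h : v ∈ c.fl (i + 1)) (h1 : c.ε i v = 0) : v ∈ c.fl i :=
  Co.mem_fl.2 fun j h2 h3 => h2.eq_or_lt.elim (fun e => e ▸ h1) fun h4 => Co.eps h h4 h3

theorem Co.eps_e (c : Co F V n) (h : i < n) : c.ε i (c.e i) = 1 := by simp [c.dual i h i h]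

theorem Co.e_mem (c : Co F V n) (h : i < n) : c.e i ∈ c.fl (i + 1) :=
  Co.mem_fl.2 fun j h1 h2 => by rw [c.dual i h j h2, if_neg (by omega)]

theorem Co.sub_mem (h : v ∈ c.fl (i + 1)) {u : V} (hu : u ∈ c.fl (i + 1)) (h1 : c.ε i u ≠ 0) :
    v - (c.ε i v / c.ε i u) • u ∈ c.fl i :=
  Co.fl_of_succ (Submodule.sub_mem _ h (Submodule.smul_mem _ _ hu)) (by simp [h1])

theorem Co.finrank_fl [FiniteDimensional F V] (c : Co F V n) (h : i ≤ n) :
    finrank F (c.fl i) = i := by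
  induction i with
  | zero => rw [show c.fl 0 = ⊥ from eq_bot_iff.2 fun _ => Co.fl_zero, finrank_bot]
  | succ i ih =>
    have h0 := Submodule.finrank_sup_span_singleton (p := c.fl i) (v := c.e i)
      fun h1 => one_ne_zero ((c.eps_e h).symm.trans (Co.eps h1 le_rfl h))
    rw [ih (by omega)] at h0
    refine (congrArg (fun U : Submodule F V => finrank F U) ?_).trans h0
    refine le_antisymm (fun v hv => ?_) (sup_le (fun _ h => Co.fl_mono h i.le_succ)
      ((Submodule.span_singleton_le_iff_mem _ _).2 (c.e_mem h)))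
    exact Submodule.mem_sup.2 ⟨_, Co.sub_mem hv (c.e_mem h) (by simp [c.eps_e h]), _,
      Submodule.smul_mem _ _ (Submodule.mem_span_singleton_self _), sub_add_cancel _ _⟩

theorem exists_co [FiniteDimensional F V] (hn : finrank F V = n) (ε : ℕ → Dual F V)
    (h : ∀ v, (∀ j < n, ε j v = 0) → v = 0) : ∃ c : Co F V n, c.ε = ε := by
  choose e he using fun i => exists_dual hn ε h fun j => if j = i then 1 else 0
  exact ⟨⟨ε, e, h, fun i _ => he i⟩, rfl⟩

/-- Hessenberg form -/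
def Hess (c : Co F V n) (f : End F V) : Prop := ∀ i, ∀ v ∈ c.fl i, f v ∈ c.fl (i + 1)

/-- the subdiagonal entries -/
def lk (c : Co F V n) (f : End F V) (i : ℕ) : F := c.ε (i + 1) (f (c.e i))

theorem Hess.eps {f : End F V} (h : Hess c f) (hi : i + 1 < n) (hv : v ∈ c.fl (i + 1)) :
    c.ε (i + 1) (f v) = lk c f i * c.ε i v := by
  have h1 := Co.eps (h _ _ (Co.sub_mem hv (c.e_mem (by omega)) (by simp [c.eps_e (i := i) (by omega)])))
    le_rfl hi
  rw [c.eps_e (by omega), map_sub, map_sub, map_smul, map_smul, div_one, sub_eq_zero] at h1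
  rw [h1, lk, smul_eq_mul, mul_comm]

/-- triangular up to stage `k` with diagonal `δ` -/
def Tri (c : Co F V n) (d : Co F W n) (k : ℕ) (P : V →ₗ[F] W) (δ : ℕ → F) : Prop :=
  ∀ i < k, ∀ v ∈ c.fl (i + 1), P v ∈ d.fl (i + 1) ∧ d.ε i (P v) = δ i * c.ε i v

theorem Tri.mem (h : Tri c d k P δ) (hi : i ≤ k) (hv : v ∈ c.fl i) : P v ∈ d.fl i := by
  cases i with
  | zero => simp [Co.fl_zero hv]
  | succ i => exact (h i hi v hv).1

theorem Tri.step (h : Tri c d k P δ) (hk : k < n) {u : V} (hu : u ∈ c.fl (k + 1)) (h1 : c.ε k u ≠ 0)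
    {w : W} (hw : w ∈ d.fl (k + 1)) (h2 : d.ε k w = δ k * c.ε k u) :
    ∃ P' : V →ₗ[F] W, Tri c d (k + 1) P' δ ∧ P' u = w ∧ ∀ v ∈ c.fl k, P' v = P v := by
  have h3 : ∀ v ∈ c.fl k, (P + (c.ε k).smulRight ((c.ε k u)⁻¹ • (w - P u))) v = P v := fun v hv => by
    simp [Co.eps hv le_rfl hk]
  have h4 : (P + (c.ε k).smulRight ((c.ε k u)⁻¹ • (w - P u))) u = w := by
    simp only [LinearMap.add_apply, smulRight_apply, smul_inv_smul₀ h1, add_sub_cancel]
  refine ⟨_, fun i hi v hv => ?_, h4, h3⟩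
  rcases (Nat.le_of_lt_succ hi).lt_or_eq with h5 | rfl
  · rw [h3 v (Co.fl_mono hv h5)]
    exact h i h5 v hv
  generalize P + (c.ε i).smulRight ((c.ε i u)⁻¹ • (w - P u)) = Q at h3 h4
  have h6 := Co.sub_mem hv hu h1
  have h7 := h.mem le_rfl h6
  rw [← h3 _ h6, map_sub, map_smul, h4] at h7
  refine ⟨by simpa using add_mem (Co.fl_mono h7 i.le_succ) (Submodule.smul_mem _ (c.ε i v / c.ε i u) hw), ?_⟩
  have h8 := Co.eps h7 le_rfl hk
  rw [map_sub, map_smul, h2, sub_eq_zero] at h8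
  rw [h8, smul_eq_mul]
  field_simp

theorem Tri.mem_inv (h : Tri c d k P δ) (hδ : ∀ i, δ i ≠ 0) (hk : k ≤ n) (hv : v ∈ c.fl k)
    (h1 : P v ∈ d.fl i) : v ∈ c.fl i := by
  induction k with
  | zero => exact Co.fl_mono hv (Nat.zero_le _)
  | succ k ih =>
    rcases le_or_gt (k + 1) i with h2 | h2
    · exact Co.fl_mono hv h2
    refine ih (fun j hj => h j (by omega)) (by omega) (Co.fl_of_succ hv ?_)
    exact (mul_eq_zero.1 ((h k k.lt_succ_self v hv).2.symm.trans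
      (Co.eps h1 (by omega) hk))).resolve_left (hδ k)

theorem Tri.equiv [FiniteDimensional F V] [FiniteDimensional F W] (h : Tri c d n P δ)
    (hδ : ∀ i, δ i ≠ 0) (hn : finrank F V = finrank F W) : ∃ Q : V ≃ₗ[F] W, (Q : V →ₗ[F] W) = P := by
  have h1 : Function.Injective P := (injective_iff_map_eq_zero _).2 fun v hv =>
    Co.fl_zero (h.mem_inv hδ le_rfl (Co.fl_top le_rfl) (hv ▸ zero_mem _))
  exact ⟨LinearEquiv.ofBijective P ⟨h1, (injective_iff_surjective_of_finrank_eq_finrank hn).1 h1⟩, rfl⟩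

/-- the basis of a coordinate system -/
theorem Co.exists_basis (c : Co F V n) :
    ∃ b : Basis (Fin n) F V, (∀ i, b i = c.e i) ∧ ∀ v i, b.repr v i = c.ε i v := by
  have h1 : ∀ (a : Fin n → F) (j : Fin n), c.ε j (∑ i, a i • c.e i) = a j := fun a j => by
    simp [c.dual _ (Fin.is_lt _) _ j.2, Fin.val_inj]
  let E : V ≃ₗ[F] (Fin n → F) := LinearEquiv.ofBijective (LinearMap.pi fun j : Fin n => c.ε j)
    ⟨(injective_iff_map_eq_zero _).2 fun v hv => c.inj v fun j hj => congrFun hv ⟨j, hj⟩,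
      fun a => ⟨_, funext (h1 a)⟩⟩
  refine ⟨Basis.ofEquivFun E, fun i => E.injective (funext fun j => ?_), fun v i => rfl⟩
  rw [Basis.coe_ofEquivFun, E.apply_symm_apply]
  change _ = c.ε j (c.e i)
  simp [c.dual _ (Fin.is_lt _) _ j.2, Fin.val_inj, Pi.single_apply]

theorem exists_det (c d : Co F V n) : ∃ C : F, C ≠ 0 ∧ ∀ (P : End F V) (δ : ℕ → F), Tri c d n P δ →
    LinearMap.det P = C * ∏ i ∈ Finset.range n, δ i := by
  obtain ⟨b, b1, b2⟩ := c.exists_basis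
  obtain ⟨b', -, b3⟩ := d.exists_basis
  refine ⟨b.det b', (b.isUnit_det b').ne_zero, fun P δ h => ?_⟩
  rw [← det_toMatrix b, ← basis_toMatrix_mul_linearMap_toMatrix b b b', Matrix.det_mul,
    ← Basis.det_apply, Matrix.det_of_isUpperTriangular, Finset.prod_range]
  · congr 2
    ext i
    rw [toMatrix_apply, b1, b3, (h i i.2 _ (c.e_mem i.2)).2, c.eps_e i.2, mul_one]
  · intro i j hij
    rw [toMatrix_apply, b1, b3]
    exact Co.eps (h j j.2 _ (c.e_mem j.2)).1 hij i.2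

/-- The triangular conjugation lemma. -/
theorem splus [FiniteDimensional F V] [FiniteDimensional F W] {a : End F V} {g : End F W}
    (ha : Hess c a) (hg : Hess d g) (ha0 : ∀ v, a v = 0 → v = 0) (hδ : ∀ i, δ i ≠ 0) (hk : k < n)
    (hl : ∀ i < k, lk c a i ≠ 0 ∨ lk d g i ≠ 0) : ∃ P : V →ₗ[F] W, Tri c d (k + 1) P δ ∧
      ∀ Y ≤ c.fl k, (∀ y ∈ Y, ∃ y' ∈ Y, P (a y) = g (P y')) → Y = ⊥ := by
  induction k with
  | zero =>
    obtain ⟨P, h, -⟩ := Tri.step (c := c) (d := d) (P := 0) (δ := δ) (fun i hi => by omega) hk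
      (c.e_mem hk) (by simp [c.eps_e hk]) (Submodule.smul_mem _ (δ 0) (d.e_mem hk))
      (by simp [c.eps_e hk, d.eps_e hk])
    exact ⟨P, h, fun Y hY _ => eq_bot_iff.2 fun v hv => Co.fl_zero (hY hv)⟩
  | succ k ih =>
    obtain ⟨P, h1, h2⟩ := ih (by omega) fun i hi => hl i (by omega)
    have hk' : k < n := by omega
    obtain ⟨z, hz, h3⟩ : ∃ z ∈ d.fl (k + 1), z ∉ (c.fl k).map
        ((δ (k + 1) * lk c a k / (lk d g k * δ k)) • g ∘ₗ P - P ∘ₗ a) := by
      by_contra! h3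
      have := (Submodule.finrank_mono h3).trans (Submodule.finrank_map_le _ _)
      rw [c.finrank_fl hk'.le, d.finrank_fl hk.le] at this
      omega
    obtain ⟨Q, h4, h5, h6⟩ : ∃ Q : V →ₗ[F] W, Tri c d (k + 2) Q δ ∧ (lk c a k ≠ 0 → lk d g k ≠ 0 →
        Q (a (c.e k)) = (δ (k + 1) * lk c a k / (lk d g k * δ k)) • g (P (c.e k)) + z) ∧
        ∀ v ∈ c.fl (k + 1), Q v = P v := by
      by_cases h7 : lk c a k ≠ 0 ∧ lk d g k ≠ 0
      · have h8 := h1 k k.lt_succ_self _ (c.e_mem hk')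
        obtain ⟨Q, h4, h5, h6⟩ := h1.step hk (ha _ _ (c.e_mem hk')) h7.1 (add_mem (Submodule.smul_mem _
          (δ (k + 1) * lk c a k / (lk d g k * δ k)) (hg _ _ h8.1)) (Co.fl_mono hz (by omega))) (by
            rw [map_add, map_smul, Co.eps hz le_rfl hk, hg.eps hk h8.1, h8.2, c.eps_e hk', ← lk]
            have := h7.2
            have := hδ k
            simp only [smul_eq_mul]
            field_simp
            ring)
        exact ⟨Q, h4, fun _ _ => h5, h6⟩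
      · obtain ⟨Q, h4, -, h6⟩ := h1.step hk (c.e_mem hk) (by simp [c.eps_e hk])
          (Submodule.smul_mem _ (δ (k + 1)) (d.e_mem hk)) (by simp [c.eps_e hk, d.eps_e hk])
        exact ⟨Q, h4, fun h h' => (h7 ⟨h, h'⟩).elim, h6⟩
    refine ⟨Q, h4, fun Y hY h7 => ?_⟩
    have h8 : ∀ y ∈ Y, ∀ y' ∈ Y, Q (a y) = g (Q y') →
        δ (k + 1) * lk c a k * c.ε k y = lk d g k * δ k * c.ε k y' := fun y hy y' hy' e => by
      rw [mul_assoc, mul_assoc, ← ha.eps hk (hY hy), ← (h4 _ (by omega) _ (ha _ _ (hY hy))).2, e,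
        hg.eps hk (h4.mem (by omega) (hY hy')), (h4 k (by omega) _ (hY hy')).2]
    have h9 : (∀ y ∈ Y, ∀ y' ∈ Y, Q (a y) = g (Q y') → c.ε k y = 0 → c.ε k y' = 0) →
        ∀ y ∈ Y, c.ε k y = 0 → y = 0 := fun h y hy h0 =>
      (h2 (Y ⊓ c.fl k) inf_le_right fun y hy => by
        obtain ⟨y', h10, h11⟩ := h7 y hy.1
        exact ⟨y', ⟨h10, Co.fl_of_succ (hY h10) (h y hy.1 y' h10 h11 (Co.eps hy.2 le_rfl hk'))⟩,
          by rw [← h6 _ (ha _ _ hy.2), ← h6 _ (hY h10), h11]⟩).le ⟨hy, Co.fl_of_succ (hY hy) h0⟩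
    by_cases h10 : lk d g k = 0
    · have h11 : ∀ y ∈ Y, c.ε k y = 0 := fun y hy => by
        obtain ⟨y', h12, h13⟩ := h7 y hy
        have := h8 y hy y' h12 h13
        simpa [h10, hδ, (hl k k.lt_succ_self).resolve_right (not_not.2 h10)] using this
      exact eq_bot_iff.2 fun y hy => h9 (fun _ _ y' h _ _ => h11 y' h) y hy (h11 y hy)
    replace h9 := h9 fun y hy y' hy' e h0 => by simpa [h0, h10, hδ] using h8 y hy y' hy' e
    refine eq_bot_iff.2 fun y0 hy0 => h9 y0 hy0 (by_contra fun h0 => ?_)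
    obtain ⟨y, hy, h11⟩ : ∃ y ∈ Y, c.ε k y = 1 := ⟨(c.ε k y0)⁻¹ • y0, Y.smul_mem _ hy0, by simp [h0]⟩
    obtain ⟨y', hy', h12⟩ := h7 y hy
    have h13 := h8 y hy y' hy' h12
    have h14 : y' = c.ε k y' • y :=
      sub_eq_zero.1 (h9 _ (Y.sub_mem hy' (Y.smul_mem _ hy)) (by simp [h11]))
    by_cases h15 : lk c a k = 0
    · have h16 : c.ε k y' = 0 := by simpa [h15, h10, hδ] using h13
      rw [h14, h16, zero_smul, map_zero, map_zero] at h12
      rw [ha0 y (Co.fl_zero (h4.mem_inv hδ hk (ha _ _ (hY hy)) (h12 ▸ zero_mem _)))] at h11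
      simp at h11
    have h16 := Co.fl_of_succ (sub_mem (hY hy) (c.e_mem hk')) (by simp [h11, c.eps_e hk'])
    refine h3 ⟨_, h16, ?_⟩
    have h17 : δ (k + 1) * lk c a k / (lk d g k * δ k) = c.ε k y' := by
      rw [div_eq_iff (mul_ne_zero h10 (hδ k)), mul_comm (c.ε k y'), ← h13, h11, mul_one]
    have h18 := h6 _ (ha _ _ h16)
    rw [map_sub, map_sub, h12, h5 h15 h10, h6 _ (hY hy'), h14, h17] at h18
    simp only [LinearMap.sub_apply, LinearMap.smul_apply, comp_apply, h17, map_sub, map_smul] at h18 ⊢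
    linear_combination (norm := module) h18

end Cfsg.Agent.COV
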