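import Cfsg.Agent.COV.Defs

/-! Companion maps (see notes/COV.md). -/

set_option autoImplicit false

namespace Cfsg.Agent.COV

open Module LinearMap H67 Polynomial

universe u

variable {F : Type u} [Field F] {V W : Type u} [AddCommGroup V] [Module F V] [AddCommGroup W]
  [Module F W] [FiniteDimensional F V] [FiniteDimensional F W]

theorem cyc_root {P : F[X]} (hP : P.Monic) : Cyc (mulLeft F (AdjoinRoot.root P)) := by
  refine ⟨lcoeff F (P.natDegree - 1) ∘ₗ AdjoinRoot.modByMonicHom hP, fun X h1 h2 =>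
    eq_bot_iff.2 fun v hv => ?_⟩
  have h3 : ∀ k, AdjoinRoot.root P ^ k * v ∈ X := fun k => by
    induction k with
    | zero => simpa using hv
    | succ k ih => rw [pow_succ', mul_assoc]; exact h2 _ ih
  obtain ⟨r, rfl⟩ := AdjoinRoot.mk_surjective v
  rw [← AdjoinRoot.mk_leftInverse hP (AdjoinRoot.mk P r), AdjoinRoot.modByMonicHom_mk] at h3 ⊢
  have h4 := degree_modByMonic_lt r hP
  generalize r %ₘ P = r at h3 h4
  by_cases h0 : r = 0
  · simp [h0]
  have h5 := natDegree_lt_natDegree h0 h4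
  have h6 : (Polynomial.X ^ (P.natDegree - 1 - r.natDegree) * r).natDegree = P.natDegree - 1 := by
    rw [natDegree_X_pow_mul _ h0]; omega
  have := h1 (h3 (P.natDegree - 1 - r.natDegree))
  rw [← AdjoinRoot.mk_X, ← map_pow, ← map_mul, mem_ker, comp_apply, AdjoinRoot.modByMonicHom_mk,
    (modByMonic_eq_self_iff hP).2 (degree_lt_degree (by omega)), lcoeff_apply] at this
  conv_lhs at this => enter [2]; rw [← h6]
  rw [coeff_natDegree, leadingCoeff_eq_zero, mul_eq_zero] at this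
  exact absurd (this.resolve_left (pow_ne_zero _ X_ne_zero)) h0

theorem exists_comp (P : Polynomial F) (hP : P.Monic) (hn : P.natDegree = finrank F V) :
    ∃ f : End F V, Cyc f ∧ Polynomial.aeval f P = 0 ∧
      LinearMap.det f = (-1) ^ finrank F V * P.coeff 0 := by
  have := finite_adjoinRoot hP.ne_zero
  have S := sim_conj (LinearEquiv.ofFinrankEq _ V ((finrank_adjoinRoot P).trans hn))
    (mulLeft F (AdjoinRoot.root P))
  refine ⟨_, (cyc_root hP).sim S, (S.aeval P).eq_zero_iff.1 ?_, ?_⟩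
  · rw [aeval_mulLeft, AdjoinRoot.aeval_eq, AdjoinRoot.mk_self, mulLeft_zero_eq_zero]
  · have h := Algebra.PowerBasis.norm_gen_eq_coeff_zero_minpoly (AdjoinRoot.powerBasis hP.ne_zero)
    rw [AdjoinRoot.minpoly_powerBasis_gen_of_monic hP, AdjoinRoot.powerBasis_dim, hn] at h
    exact S.det_eq.symm.trans h

omit [FiniteDimensional F V] in
theorem av_of_aeval {f : End F V} {P : F[X]} (h : aeval f P = 0) {μ : F} (hμ : P.eval μ ≠ 0) : Av f μ :=
  fun v hv => by
    by_contra h0
    have := End.aeval_apply_of_hasEigenvector (p := P) (show f.HasEigenvector μ v from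
      ⟨End.mem_eigenspace_iff.2 hv, h0⟩)
    rw [h, LinearMap.zero_apply, eq_comm, smul_eq_zero] at this
    exact this.elim hμ h0

theorem monic_tri {n : ℕ} (hn : 2 ≤ n) (s c : F) :
    (X ^ n + (C s * X + C c) : F[X]).Monic ∧ (X ^ n + (C s * X + C c) : F[X]).natDegree = n ∧
      (X ^ n + (C s * X + C c) : F[X]).coeff 0 = c := by
  have h : (C s * X + C c : F[X]).degree < n := degree_linear_le.trans_lt (by exact_mod_cast hn)
  refine ⟨monic_X_pow_add h, ?_, by simp [show 0 ≠ n by omega]⟩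
  rw [natDegree_add_eq_left_of_degree_lt (by rwa [degree_X_pow]), natDegree_X_pow]

theorem exists_av2 (hq : 4 ≤ Nat.card F) (hn : 2 ≤ finrank F V) {δ μ ν : F} (hμ : μ ≠ 0)
    (hν : ν ≠ 0) : ∃ f : End F V, Cyc f ∧ LinearMap.det f = δ ∧ Av f μ ∧ Av f ν := by
  obtain ⟨c, hc⟩ : ∃ c, c = (-1) ^ finrank F V * δ := ⟨_, rfl⟩
  obtain ⟨s, h1, h2, -⟩ := big hq (-(μ ^ finrank F V + c) / μ) (-(ν ^ finrank F V + c) / ν) 0
  obtain ⟨m1, m2, m3⟩ := monic_tri hn s c
  obtain ⟨f, f1, f2, f3⟩ := exists_comp _ m1 m2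
  have k : ∀ {μ : F}, μ ≠ 0 → s ≠ -(μ ^ finrank F V + c) / μ → Av f μ := fun h h' =>
    av_of_aeval f2 fun e => h' (by
      simp only [eval_add, eval_pow, eval_X, eval_mul, eval_C] at e
      rw [eq_div_iff h]; linear_combination e)
  exact ⟨f, f1, by rw [f3, m3, hc, ← mul_assoc, ← mul_pow]; simp, k hμ h1, k hν h2⟩

end Cfsg.Agent.COV
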