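import Cfsg.Agent.COV.Kry

/-! Dimension 2. -/

set_option autoImplicit false

namespace Cfsg.Agent.COV

open Module LinearMap H67

universe u

variable {F : Type u} [Field F] {V W : Type u} [AddCommGroup V] [Module F V] [AddCommGroup W]
  [Module F W] [FiniteDimensional F V] [FiniteDimensional F W]

theorem av_iff_det {f : End F V} {β : F} : Av f β ↔ LinearMap.det (f - β • 1) ≠ 0 := by
  rw [← isUnit_iff_ne_zero, ← isUnit_iff_isUnit_det, isUnit_iff_ker_eq_bot, ker_eq_bot']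
  simp [Av, sub_eq_zero]

theorem two_det {n : ℕ} (b : Basis (Fin n) F V) (M : Matrix (Fin n) (Fin n) F) (β : F) :
    LinearMap.det (Matrix.toLin b b M - β • (1 : End F V)) = (M - β • 1).det := by
  rw [← det_toLin b, map_sub (Matrix.toLin b b), map_smul (Matrix.toLin b b), Matrix.toLin_one]; rfl

omit [FiniteDimensional F V] in
theorem two_kry {B : End F V} (b : Basis (Fin 2) F V) (h : B (b 0) = b 1) :
    ∃ t, B = Matrix.toLin b b !![0, -LinearMap.det B; 1, t] := by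
  have h1 : B = Matrix.toLin b b !![0, b.repr (B (b 1)) 0; 1, b.repr (B (b 1)) 1] := by
    refine b.ext fun i => ?_
    fin_cases i
    · simp [h]
    · have := (b.sum_repr (B (b 1))).symm
      rw [Fin.sum_univ_two] at this
      simpa using this
  refine ⟨b.repr (B (b 1)) 1, ?_⟩
  have h2 := congrArg LinearMap.det h1
  rw [det_toLin, Matrix.det_fin_two_of] at h2
  rw [h2]; simpa using h1

theorem Cyc.two {B : End F V} (hB : Cyc B) (h2 : finrank F V = 2) :
    ∃ (b : Basis (Fin 2) F V) (t : F), B = Matrix.toLin b b !![0, -LinearMap.det B; 1, t] := by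
  obtain ⟨b, v, hb⟩ := hB.krylov h2
  exact ⟨b, two_kry b (by simp [hb])⟩

omit [FiniteDimensional F V] in
theorem two_cyc (b : Basis (Fin 2) F V) {M : Matrix (Fin 2) (Fin 2) F} (h : M 1 0 ≠ 0) :
    Cyc (Matrix.toLin b b M) := by
  refine ⟨b.coord 1, fun X h1 h2 => eq_bot_iff.2 fun v hv => ?_⟩
  have h3 : b.repr v 1 = 0 := h1 hv
  have h4 : b.repr (Matrix.toLin b b M v) 1 = 0 := h1 (h2 v hv)
  rw [Matrix.repr_toLin] at h4
  simp [Matrix.mulVec, dotProduct, h3, h] at h4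
  refine b.repr.injective (Finsupp.ext fun i => ?_)
  fin_cases i <;> simp [h3, h4]

theorem big_quad (hq : 4 ≤ Nat.card F) {a : F} (ha : a ≠ 0) (b c d : F) :
    ∃ u, u ≠ d ∧ a * u ^ 2 + b * u + c ≠ 0 := by
  by_cases h : ∃ r, a * r ^ 2 + b * r + c = 0
  · obtain ⟨r, hr⟩ := h
    obtain ⟨u, h1, h2, h3⟩ := big hq d r (-b / a - r)
    refine ⟨u, h1, fun h4 => mul_ne_zero ha (mul_ne_zero (sub_ne_zero.2 h2) (sub_ne_zero.2 h3)) ?_⟩
    field_simp
    linear_combination h4 - hr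
  · obtain ⟨u, h1, -⟩ := big hq d d d
    exact ⟨u, h1, fun h2 => h ⟨u, h2⟩⟩

theorem conj_toLin {n : ℕ} (b : Basis (Fin n) F V) {P M N : Matrix (Fin n) (Fin n) F}
    (h : P.det ≠ 0) (e : P * M = N * P) : ∃ Q : V ≃ₗ[F] V,
      LinearMap.det (Q : End F V) = P.det ∧ Q.conj (Matrix.toLin b b M) = Matrix.toLin b b N := by
  obtain ⟨Q, hQ⟩ := exists_equiv (x := Matrix.toLin b b P) (by rwa [det_toLin])
  refine ⟨Q, by rw [hQ, det_toLin], (Sim.eq_conj Q fun v => ?_).symm⟩
  rw [← LinearEquiv.coe_coe, hQ, ← Matrix.toLin_mul_apply b b b, e,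
    Matrix.toLin_mul_apply b b b]

theorem f2 (hq : 4 ≤ Nat.card F) {B : End F V} (h2 : finrank F V = 2) (hB : Cyc B)
    (hd : LinearMap.det B ≠ 0) {ρ β : F} (hρ : ρ ≠ 0) (hβ : β ≠ 0) : ∃ P : V ≃ₗ[F] V,
      LinearMap.det (P : End F V) = ρ ∧ Cyc (P.conj B * B) ∧ Av (P.conj B * B) β := by
  obtain ⟨b, t, hb⟩ := hB.two h2
  generalize LinearMap.det B = d at hb hd
  subst hb
  obtain ⟨u, h1, h3⟩ := big_quad hq hβ (β * t * (ρ - 1))
    (ρ * (β ^ 2 + d ^ 2) + β * (d + ρ ^ 2 * d - ρ * t ^ 2)) t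
  obtain ⟨Q, q1, q2⟩ := conj_toLin b (P := !![1, u; 0, ρ]) (M := !![0, -d; 1, t])
    (N := !![u, (u * (t - u) - d) / ρ; ρ, t - u]) (by simpa using hρ) (by
      ext i j; fin_cases i <;> fin_cases j <;> simp [Matrix.mul_apply] <;> field_simp <;> ring)
  refine ⟨Q, by simpa using q1, ?_⟩
  rw [q2, End.mul_eq_comp, ← Matrix.toLin_mul]
  refine ⟨two_cyc b (by simpa [Matrix.mul_apply, sub_eq_zero] using h1.symm), av_iff_det.2 ?_⟩
  rw [two_det, Matrix.det_fin_two]
  intro h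
  apply h3
  simp [Matrix.mul_apply] at h
  field_simp at h
  linear_combination h

theorem id22 {B : End F V} (h2 : finrank F V = 2) (hB : Cyc B) :
    In True (B.prodMap B) 2 (LinearMap.det B • 1) := by
  obtain ⟨b, t, hb⟩ := hB.two h2
  generalize LinearMap.det B = d at hb
  subst hb
  obtain ⟨Q, q1, q2⟩ := conj_toLin b (P := !![1, t; 0, -1]) (M := !![0, -d; 1, t])
    (N := !![t, d; -1, 0]) (by simp) (by
      ext i j; fin_cases i <;> fin_cases j <;> simp [Matrix.mul_apply] <;> ring)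
  have h3 : Matrix.toLin b b !![0, -d; 1, t] * Matrix.toLin b b !![t, d; -1, 0] = d • 1 := by
    rw [End.mul_eq_comp, ← Matrix.toLin_mul, End.one_eq_id, ← Matrix.toLin_one b, ← map_smul]
    congr 1
    ext i j; fin_cases i <;> fin_cases j <;> simp [Matrix.mul_apply] <;> ring
  refine ⟨_, _, SC.refl _, In.one (x' := (Matrix.toLin b b !![t, d; -1, 0]).prodMap
    (Matrix.toLin b b !![t, d; -1, 0])) ⟨Q.prodCongr Q, fun _ => ?_, fun v => by simp [← q2]⟩, ?_⟩
  · rw [show ((Q.prodCongr Q : (V × V) ≃ₗ[F] V × V) : End F (V × V)) =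
      (Q : End F V).prodMap (Q : End F V) from rfl, det_prodMap, q1]
    simp
  · rw [prodMap_mul, h3]
    ext <;> simp

theorem av_other {f : End F V} (h2 : finrank F V = 2) {β γ : F} (h : Av f β)
    (hd : β * γ = LinearMap.det f) (hγ : γ ≠ 0) : Av f γ := by
  let b := Module.finBasisOfFinrankEq F V h2
  obtain ⟨M, rfl⟩ := (Matrix.toLin b b).surjective f
  rw [av_iff_det, two_det, Matrix.det_fin_two] at h ⊢
  rw [det_toLin, Matrix.det_fin_two] at hd
  simp at h ⊢
  intro h1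
  apply h
  have : β + γ - M 0 0 - M 1 1 = 0 := mul_left_cancel₀ hγ (by linear_combination h1 + hd)
  linear_combination β * this - hd

end Cfsg.Agent.COV
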