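import Cfsg.Agent.COV.Step
import Cfsg.Agent.COV.Two

/-! Direct sums of cyclic maps on spaces of dimension at least 2. -/

set_option autoImplicit false

namespace Cfsg.Agent.COV

open Module LinearMap H67

universe u

variable {F : Type u} [Field F] {V W U T : Type u} [AddCommGroup V] [Module F V] [AddCommGroup W]
  [Module F W] [AddCommGroup U] [Module F U] [AddCommGroup T] [Module F T] {s : Prop} {x : End F V}

/-- `z` is similar to the product of `x` with a conjugate by an element of determinant `t` -/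
def Sq (x : End F V) (t : F) (z : End F W) : Prop :=
  ∃ P : V ≃ₗ[F] V, LinearMap.det (P : End F V) = t ∧ Sim z (P.conj x * x)

theorem Sq.ne {t : F} {z : End F W} (h : Sq x t z) : t ≠ 0 := by
  obtain ⟨P, rfl, -⟩ := h
  exact P.isUnit_det'.ne_zero

theorem Sq.right {t : F} {z : End F W} {z' : End F U} (h : Sq x t z) (h' : Sim z' z) : Sq x t z' :=
  h.imp fun _ h => ⟨h.1, h'.trans h.2⟩

theorem Sq.left {t : F} {z : End F W} {x' : End F U} (h : Sq x t z) (h' : Sim x x') : Sq x' t z := by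
  obtain ⟨P, h1, h2⟩ := h
  obtain ⟨e, he⟩ := h'
  exact ⟨(e.symm.trans P).trans e, (det_conj (P : End F V) e).trans h1,
    h2.trans ⟨e, fun v => by simp [← he]⟩⟩

theorem Sq.exists {z : End F W} (h : Sq x 1 z) : ∃ y, In s x 2 y ∧ Sim z y := by
  obtain ⟨P, h1, h2⟩ := h
  exact ⟨_, In.cons (SC.conj P (fun _ => h1) x) (In.one (SC.refl x)), h2⟩

theorem sim_low {S : Type u} [AddCommGroup S] [Module F S] (y : End F V) (b : End F W) (p : End F U)
    (q : End F S) : Sim ((y.prodMap (b.prodMap p)).prodMap q) ((y.prodMap p).prodMap (b.prodMap q)) :=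
  ((sim_prod (sim_assoc y b p).symm (Sim.refl q)).trans (sim_assoc (y.prodMap b) p q)).trans
    (sim_ppp y b p q)

theorem sim_rot (a : End F V) (p : End F W) (q : End F U) :
    Sim ((a.prodMap p).prodMap q) ((p.prodMap q).prodMap a) :=
  (sim_assoc a p q).trans (sim_swap a (p.prodMap q))

theorem pick (hq : 4 ≤ Nat.card F) (a b : F) : ∃ β, β ≠ 0 ∧ β ≠ a ∧ β ≠ -a ∧ β ≠ b := by
  classical
  by_cases h2 : (2 : F) = 0
  · obtain ⟨β, h3, h4, h5⟩ := big hq 0 a b
    exact ⟨β, h3, h4, fun h => h4 (by linear_combination h - a * h2), h5⟩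
  haveI : Finite F := Nat.finite_of_card_ne_zero (by omega)
  haveI := Fintype.ofFinite F
  have h3 := FiniteField.odd_card_of_char_ne_two (F := F) fun h => h2 (by
    simpa [h] using ringChar.Nat.cast_ringChar (R := F))
  obtain ⟨t, -, ht⟩ := Finset.exists_mem_notMem_of_card_lt_card (s := {0, a, -a, b})
    (t := Finset.univ) (by
      have := Finset.card_le_four (a := 0) (b := a) (c := -a) (d := b)
      rw [Nat.card_eq_fintype_card] at hq
      rw [Finset.card_univ]; omega)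
  exact ⟨t, by simpa [not_or] using ht⟩

variable [FiniteDimensional F V] [FiniteDimensional F W]

theorem Sq.prod {t t' : F} {z : End F U} {y : End F W} {z' : End F T} (h : Sq x t z)
    (h' : Sq y t' z') : Sq (x.prodMap y) (t * t') (z.prodMap z') := by
  obtain ⟨P, rfl, h2⟩ := h
  obtain ⟨Q, rfl, h4⟩ := h'
  exact ⟨P.prodCongr Q, det_prod (P : End F V) (Q : End F W), sim_prod h2 h4⟩

theorem Cyc.not_sc (h : Cyc x) (hn : 2 ≤ finrank F V) : ¬ Sc x := by
  rintro ⟨c, rfl⟩
  obtain ⟨φ, hφ⟩ := h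
  have h1 := φ.finrank_range_add_finrank_ker
  have h2 := (Submodule.finrank_le (range φ)).trans_eq (finrank_self F)
  rw [hφ _ le_rfl fun v hv => Submodule.smul_mem _ c hv, finrank_bot] at h1
  omega

theorem blk (hq : 4 ≤ Nat.card F) (h : Cyc x) (hn : 2 ≤ finrank F V) (h0 : LinearMap.det x ≠ 0)
    {γ : F} (hγ : γ ≠ 0) : ∃ (U : Type u) (_ : AddCommGroup U) (_ : Module F U)
      (_ : FiniteDimensional F U) (b : End F U) (β t : F), β ≠ 0 ∧ β * β ≠ LinearMap.det x ^ 2 ∧
        Cyc b ∧ Av b γ ∧ LinearMap.det b * β = LinearMap.det x ^ 2 ∧ finrank F U + 1 = finrank F V ∧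
          Sq x t (b.prodMap (β • 1 : End F F)) := by
  obtain ⟨β, h1, h2, h3, h4⟩ := pick hq (LinearMap.det x) (LinearMap.det x ^ 2 / γ)
  have h5 : β * β ≠ LinearMap.det x ^ 2 := by rw [sq, Ne, mul_self_eq_mul_self_iff]; tauto
  obtain ⟨U, _, _, _, b, h6, h7, h8, h9, h10⟩ : ∃ (U : Type u) (_ : AddCommGroup U) (_ : Module F U)
      (_ : FiniteDimensional F U) (b : End F U), Cyc b ∧ Av b γ ∧ Av b β ∧
        LinearMap.det b = LinearMap.det x ^ 2 / β ∧ finrank F U + 1 = finrank F V := by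
    rcases hn.eq_or_lt with h6 | h6
    · exact ⟨F, _, _, inferInstance, _, cyc_one (LinearMap.det x ^ 2 / β),
        av_one fun e => h4 (by rw [← e]; field_simp), av_one fun e => h5 (by
          rw [div_eq_iff h1] at e; exact e.symm), by simp, by simp [← h6]⟩
    · obtain ⟨f, h7, h8, h9, h10⟩ := exists_av2 (V := Fin (finrank F V - 1) → F) hq (by simp; omega)
        (δ := LinearMap.det x ^ 2 / β) hγ h1
      exact ⟨_, _, _, inferInstance, f, h7, h9, h10, h8, by simp; omega⟩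
  obtain ⟨P, -, h11⟩ := l2 h h0 (h.not_sc hn) h0 (h6.nice h8) (by simp [← h10])
    (by rw [det_prod, h9]; simp [h1, sq]) one_ne_zero
  exact ⟨U, _, _, inferInstance, b, β, _, h1, h5, h6, h7, by rw [h9, div_mul_cancel₀ _ h1], h10,
    P, rfl, h11⟩

theorem top (hq : 4 ≤ Nat.card F) (h : Cyc x) (hn : 2 ≤ finrank F V) (h0 : LinearMap.det x ≠ 0)
    {ρ β : F} (hρ : ρ ≠ 0) (hβ : β ≠ 0) : ∃ b : End F V, Sq x ρ b ∧ Cyc b ∧ Av b β := by
  rcases hn.eq_or_lt with h1 | h1
  · obtain ⟨P, h2, h3⟩ := f2 hq h1.symm h h0 hρ hβ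
    exact ⟨_, ⟨P, h2, Sim.refl _⟩, h3⟩
  · obtain ⟨b, h2, h3, h4⟩ := exists_nice hq h1 (δ := LinearMap.det x * LinearMap.det x) hβ
    obtain ⟨P, h5, h6⟩ := l2 h h0 (h.not_sc hn) h0 h2 rfl h3 hρ
    exact ⟨b, ⟨P, h5 h1, h6⟩, h2.1, h4⟩

omit [FiniteDimensional F V] in
theorem low (hq : 4 ≤ Nat.card F) (h : TI V x) : LinearMap.det x ≠ 0 → ∃ (U : Type u)
    (_ : AddCommGroup U) (_ : Module F U) (_ : FiniteDimensional F U) (y : End F U) (β t : F)
    (B B' : ℕ → Prop), β ≠ 0 ∧ finrank F U + 1 = finrank F V ∧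
      Sq x t (y.prodMap (β • 1 : End F F)) ∧ HF x (finrank F V) B ∧ HI y (finrank F U) B' ∧
        (∀ i, B i → ¬ B' i) ∧ (∀ i, B i → i + 2 ≤ finrank F V) ∧ ∀ i, B' i → i + 2 ≤ finrank F V := by
  induction h with
  | base V x h h2 =>
    intro h0
    haveI := Module.finite_of_finrank_pos (R := F) (M := V) (by omega)
    obtain ⟨U, _, _, _, b, β, t, h3, -, h4, -, h5, h6, h7⟩ := blk hq h h2 h0 one_ne_zero
    exact ⟨U, _, _, inferInstance, b, β, t, _, _, h3, h6, h7, h.hf rfl,
      h4.hi (left_ne_zero_of_mul (h5 ▸ pow_ne_zero 2 h0)) rfl, fun _ => False.elim,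
      fun _ => False.elim, fun _ => False.elim⟩
  | step V x W x₁ Q x₂ h h₁ h₂ h2 ih =>
    intro h0
    haveI := h₁.fd
    haveI := Module.finite_of_finrank_pos (R := F) (M := Q) (by omega)
    rw [h.det_eq, det_prod] at h0
    obtain ⟨U, _, _, _, y, β, t, B, B', h3, h4, h5, h6, h7, h8, h9, h10⟩ := ih (left_ne_zero_of_mul h0)
    obtain ⟨U', _, _, _, b, β', t', k1, -, k2, k3, k4, k5, k6⟩ :=
      blk hq h₂ h2 (right_ne_zero_of_mul h0) h3
    have k7 : finrank F (U' × F) = finrank F Q := by simp [← k5]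
    rw [h.finrank_eq, finrank_prod]
    refine ⟨U × (U' × F), _, _, inferInstance, y.prodMap (b.prodMap (β • 1)), β', t * t', _, _, k1,
      by rw [finrank_prod]; omega, ((h5.prod k6).left h.symm).right
        (sim_low y b (β • 1 : End F F) (β' • 1 : End F F)), (h6.prod (h₂.hf rfl)).sim h.symm,
      finrank_prod (R := F) (M := U) (M' := U' × F) ▸ h7.prod ((k2.prod_one k3).hi (by
        rw [det_prod]
        exact mul_ne_zero (left_ne_zero_of_mul (k4 ▸ pow_ne_zero 2 (right_ne_zero_of_mul h0)))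
          (by simpa using h3)) rfl), fun i => ?_, fun i => ?_, fun i => ?_⟩
    all_goals
      have := h8 i
      have := h9 i
      have := h10 i
      simp only [and_false, or_false]
      grind

theorem all_three (hq : 4 ≤ Nat.card F) {x₁ : End F W} {x₂ : End F U} (h : Sim x (x₁.prodMap x₂))
    (h₁ : TI W x₁) (h₂ : Cyc x₂) (h2 : 2 ≤ finrank F U) (hx : LinearMap.det x ≠ 0) : All s x 3 := by
  haveI := Module.finite_of_finrank_pos (R := F) (M := U) (by omega)
  have h0 := hx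
  rw [h.det_eq, det_prod] at h0
  obtain ⟨U', _, _, _, y, β, t, B, B', h3, h4, h5, h6, h7, h8, h9, h10⟩ :=
    low hq h₁ (left_ne_zero_of_mul h0)
  obtain ⟨b, k1, k2, k3⟩ := top hq h₂ h2 (right_ne_zero_of_mul h0) (inv_ne_zero h5.ne) h3
  have k4 := (h5.prod k1).left h.symm
  rw [mul_inv_cancel₀ h5.ne] at k4
  obtain ⟨z, k5, k6⟩ := (k4.right ((sim_prod (Sim.refl _) (sim_swap _ _)).trans
    (sim_assoc _ _ _).symm)).exists (s := s)
  have k7 := k6.det_eq.trans_ne (k5.det ▸ pow_ne_zero 2 hx)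
  rw [det_prod] at k7
  have k8 := (h7.prod ((k2.prod_one k3).hi (right_ne_zero_of_mul k7) rfl)).sim k6
  have k9 := (h6.prod (h₂.hf rfl)).sim h.symm
  have k10 : finrank F W + finrank F U = finrank F V := by rw [h.finrank_eq, finrank_prod]
  have := h₁.two
  rw [show finrank F U' + finrank F (U × F) = finrank F V by simp; omega] at k8
  rw [k10] at k9
  refine step_all k5 k9 k8 hx (fun i _ _ => ?_) ?_ ?_ (by omega)
  · have := h8 i
    have := h9 i
    have := h10 i
    simp only [and_false, or_false]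
    grind
  · have := h9 (finrank F V - 1)
    simp only [and_false, or_false]
    grind
  · have := h10 (finrank F V - 1)
    simp only [and_false, or_false]
    grind

theorem Cyc.all (h : Cyc x) (hx : LinearMap.det x ≠ 0) (hn : 3 ≤ finrank F V) : All s x 2 :=
  (In.one (SC.refl x)).all h (h.not_sc (by omega)) hx hn

theorem all_two {x₁ : End F W} {x₂ : End F U} (h : Sim x (x₁.prodMap x₂)) (h₁ : Cyc x₁) (h₂ : Cyc x₂)
    (h1 : 2 ≤ finrank F W) (h2 : 2 ≤ finrank F U) (h3 : finrank F W ≠ finrank F U)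
    (hx : LinearMap.det x ≠ 0) : All s x 2 := by
  haveI := Module.finite_of_finrank_pos (R := F) (M := U) (by omega)
  have h0 := hx
  rw [h.det_eq, det_prod] at h0
  have k1 := ((h₁.hf rfl).prod (h₂.hf rfl)).sim h.symm
  have k2 := ((h₂.hi (right_ne_zero_of_mul h0) rfl).prod
    (h₁.hi (left_ne_zero_of_mul h0) rfl)).sim (h.trans (sim_swap _ _)).symm
  have k3 : finrank F W + finrank F U = finrank F V := by rw [h.finrank_eq, finrank_prod]
  rw [add_comm, k3] at k2
  rw [k3] at k1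
  refine step_all (In.one (SC.refl x)) k1 k2 hx (fun i _ _ => ?_) ?_ ?_ (by omega)
  all_goals
    simp only [and_false, or_false, false_or]
    omega

theorem cov22 (hq : 4 ≤ Nat.card F) (h2 : finrank F V = 2) (h : Cyc x) (h0 : LinearMap.det x ≠ 0) :
    Cov True (x.prodMap x) := by
  obtain ⟨U, _, _, _, b, β, t, h3, h4, h5, -, h6, h7, h8⟩ := blk hq h h2.ge h0 one_ne_zero
  obtain ⟨a, k1, k2, k3⟩ := top hq h h2.ge h0 (inv_ne_zero h8.ne) h3
  have k4 := h8.prod k1
  rw [mul_inv_cancel₀ h8.ne] at k4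
  obtain ⟨z, k5, k6⟩ := k4.exists (s := True)
  obtain ⟨γ, rfl⟩ : Sc b := by_contra fun h => by have := two_le_of_not_sc h; omega
  have k7 : finrank F U = 1 := by omega
  rw [det_smul, map_one, k7, pow_one, mul_one] at h6
  have k8 : γ ≠ 0 := left_ne_zero_of_mul (h6 ▸ pow_ne_zero 2 h0)
  have k9 : LinearMap.det a = LinearMap.det x ^ 2 := by
    obtain ⟨P, -, hP⟩ := k1
    rw [hP.det_eq, map_mul, ← (sim_conj P x).det_eq, sq]
  have k10 : Sim (γ • 1 : End F F) (γ • 1 : End F U) :=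
    ⟨LinearEquiv.ofFinrankEq _ _ (by simp [k7]), fun v => map_smul _ γ v⟩
  have k11 : Nice z := ((k2.prod_one (av_other h2 k3 (by rw [k9, ← h6, mul_comm]) k8)).nice
    (k3.prod (av_one fun e => h4 (by rw [← h6, e])))).sim (((sim_rot a (γ • 1 : End F F)
      (β • 1 : End F F)).trans (sim_prod (sim_prod k10 (Sim.refl _)) (Sim.refl _))).trans k6)
  have k12 : finrank F (V × V) = 2 + 2 := by simp [h2]
  exact ⟨cov_ns k5 k11.1 k5 k11 (by rw [det_prod]; exact mul_ne_zero h0 h0) (by omega) k12.symm,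
    LinearMap.det x * LinearMap.det x, by
      simpa [k12, smul_smul] using (id22 h2 h).mul (id22 h2 h)⟩

end Cfsg.Agent.COV
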