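import Cfsg.Agent.COV.Kry
import Cfsg.Agent.COV.Comp

/-! Cyclic decompositions (see notes/COV.md). -/

set_option autoImplicit false

namespace Cfsg.Agent.COV

open Module LinearMap H67

universe u

variable {F : Type u} [Field F] {V W : Type u} [AddCommGroup V] [Module F V] [AddCommGroup W]
  [Module F W] [FiniteDimensional F V] [FiniteDimensional F W]

namespace Dec

theorem sim_sc (c : F) (h : finrank F V = finrank F W) : Sim (c • 1 : End F V) (c • 1 : End F W) :=
  ⟨LinearEquiv.ofFinrankEq V W h, fun v => by simp⟩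

omit [FiniteDimensional F V] [FiniteDimensional F W] in
theorem prod_sc (c : F) : (c • 1 : End F V).prodMap (c • 1 : End F W) = c • 1 :=
  LinearMap.ext fun _ => rfl

/-- scalar, or a sum of cyclic blocks and a scalar map -/
def D (x : End F V) : Prop := Sc x ∨ ∃ (U : Type u) (_ : AddCommGroup U) (_ : Module F U)
  (_ : FiniteDimensional F U) (x₀ : End F U) (t : ℕ) (c : F),
    TI U x₀ ∧ Sim x (x₀.prodMap (c • 1 : End F (Fin t → F)))

omit [FiniteDimensional F V] [FiniteDimensional F W] in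
theorem D.sim {x : End F V} {y : End F W} (h : D x) (s : Sim x y) : D y :=
  h.imp (fun h => h.sim s) fun ⟨U, a, b, c, x₀, t, d, h1, h2⟩ => ⟨U, a, b, c, x₀, t, d, h1, s.symm.trans h2⟩

theorem merge (c d : F) (h : finrank F W ≤ 1) : Sc ((c • 1 : End F V).prodMap (d • 1 : End F W)) ∨
    ∃ (z : End F (F × F)) (t : ℕ), Cyc z ∧
      Sim ((c • 1 : End F V).prodMap (d • 1 : End F W)) (z.prodMap (c • 1 : End F (Fin t → F))) := by
  by_cases h1 : finrank F W = 0
  · have := finrank_zero_iff.1 h1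
    exact Or.inl ⟨c, LinearMap.ext fun v => Prod.ext rfl (Subsingleton.elim _ _)⟩
  by_cases h2 : finrank F V = 0
  · have := finrank_zero_iff.1 h2
    exact Or.inl ⟨d, LinearMap.ext fun v => Prod.ext (Subsingleton.elim _ _) rfl⟩
  by_cases h3 : c = d
  · exact Or.inl ⟨c, h3 ▸ prod_sc c⟩
  refine Or.inr ⟨_, finrank F V - 1, (cyc_one c).prod_one (av_one h3), ?_⟩
  have s1 : Sim (c • 1 : End F V) ((c • 1 : End F (Fin (finrank F V - 1) → F)).prodMap (c • 1 : End F F)) := by
    rw [prod_sc]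
    exact sim_sc c (by rw [finrank_prod, finrank_fin_fun, finrank_self]; omega)
  exact ((sim_prod s1 (sim_sc (W := F) d (by rw [finrank_self]; omega))).trans (sim_assoc _ _ _)).trans (sim_swap _ _)

theorem D.step {x : End F V} {y : End F W} (h : D x) (hy : Cyc y) : D (x.prodMap y) := by
  have f2 : 2 ≤ finrank F (F × F) := by rw [finrank_prod, finrank_self]
  by_cases n : 2 ≤ finrank F W
  · rcases h with ⟨c, rfl⟩ | ⟨U, _, _, _, x₀, t, c, h1, h2⟩
    · exact Or.inr ⟨W, _, _, inferInstance, y, finrank F V, c, TI.base W y hy n, (sim_swap _ _).trans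
        (sim_prod (Sim.refl y) (sim_sc c (finrank_fin_fun F).symm))⟩
    · exact Or.inr ⟨U × W, _, _, inferInstance, _, t, c, TI.step _ _ U x₀ W y (Sim.refl _) h1 hy n,
        (((sim_prod h2 (Sim.refl y)).trans (sim_assoc _ _ _)).trans
          (sim_prod (Sim.refl _) (sim_swap _ _))).trans (sim_assoc _ _ _).symm⟩
  have n' : finrank F W ≤ 1 := by omega
  obtain ⟨d, rfl⟩ : Sc y := by
    obtain ⟨v, hv⟩ := finrank_le_one_iff.1 n'
    obtain ⟨d, hd⟩ := hv (y v)
    refine ⟨d, LinearMap.ext fun w => ?_⟩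
    obtain ⟨a, rfl⟩ := hv w
    rw [map_smul, ← hd, smul_comm]; rfl
  rcases h with ⟨c, rfl⟩ | ⟨U, _, _, _, x₀, t, c, h1, h2⟩
  · exact (merge c d n').imp id fun ⟨z, t, h1, h2⟩ =>
      ⟨F × F, _, _, inferInstance, z, t, c, TI.base _ z h1 f2, h2⟩
  · have s := (sim_prod h2 (Sim.refl (d • 1 : End F W))).trans (sim_assoc _ _ _)
    rcases merge (V := Fin t → F) c d n' with ⟨e, h3⟩ | ⟨z, t', h3, h4⟩
    · rw [h3] at s
      exact Or.inr ⟨U, _, _, inferInstance, x₀, _, e, h1,
        s.trans (sim_prod (Sim.refl _) (sim_sc e (finrank_fin_fun F).symm))⟩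
    · exact Or.inr ⟨U × (F × F), _, _, inferInstance, _, t', c, TI.step _ _ U x₀ _ z (Sim.refl _) h1 h3 f2,
        (s.trans (sim_prod (Sim.refl _) h4)).trans (sim_assoc _ _ _).symm⟩

theorem D_modT (t : ℕ) (f : Fin t → Polynomial F) (hf : ∀ i, (f i).Monic) : D (modT f) := by
  induction t with
  | zero => exact Or.inl ⟨0, Subsingleton.elim _ _⟩
  | succ t ih =>
    have := finite_model (f := fun i => f (Fin.succ i)) fun i => (hf _).ne_zero
    have := finite_adjoinRoot (hf 0).ne_zero
    refine ((ih _ fun i => hf i.succ).step (cyc_root (hf 0))).sim ((sim_swap _ _).trans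
      ⟨Fin.consLinearEquiv F fun i => AdjoinRoot (f i), fun v => funext fun i => ?_⟩)
    refine Fin.cases ?_ (fun i => ?_) i <;> rfl

omit [FiniteDimensional F V] in
theorem kry2 {x : End F V} [FiniteDimensional F V] (hV : finrank F V = 2) (hx : Cyc x) :
    ∃ (b : Basis (Fin 2) F V) (p q : F), x (b 0) = b 1 ∧ x (b 1) = p • b 0 + q • b 1 ∧
      ∀ v, x (x v) = p • v + q • x v := by
  obtain ⟨b, v, h⟩ := hx.krylov hV
  have h1 : x (b 0) = b 1 := by rw [h, h]; simp
  have h2 := (b.sum_repr (x (b 1))).symm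
  rw [Fin.sum_univ_two] at h2
  generalize b.repr (x (b 1)) 0 = p, b.repr (x (b 1)) 1 = q at h2
  refine ⟨b, p, q, h1, h2, fun v => LinearMap.congr_fun (show x * x = p • 1 + q • x from
    b.ext (Fin.forall_fin_two.2 ⟨?_, ?_⟩)) v⟩
  · simp [h1, h2]
  · simp only [End.mul_apply, LinearMap.add_apply, LinearMap.smul_apply, End.one_apply]
    conv_lhs => rw [h2, map_add, map_smul, map_smul, h1]

theorem aux {x : End F V} {y : End F W} (hV : finrank F V = 2) (hW : finrank F W = 2) (hx : Cyc x)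
    {b : Basis (Fin 2) F V} {b' : Basis (Fin 2) F W} {p q p' q' c : F} (h1 : x (b 0) = b 1)
    (h2 : ∀ v, x (x v) = p • v + q • x v) (h3 : y (b' 0) = b' 1) (h4 : y (b' 1) = p' • b' 0 + q' • b' 1)
    (r : c * c = p + q * c) (r' : c * c = p' + q' * c) (n : q ≠ q') (n' : q' - c ≠ c) :
    ∃ (U : Type u) (_ : AddCommGroup U) (_ : Module F U) (C : End F U) (c : F), finrank F U = 3 ∧ Cyc C ∧
      ¬ Av C c ∧ Sim (x.prodMap y) (C.prodMap (c • 1 : End F F)) := by
  refine ⟨V × F, _, _, x.prodMap ((q' - c) • 1), c, by rw [finrank_prod, finrank_self, hV],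
    hx.prod_one fun v hv => ?_, fun h => ?_, (sim_prod (Sim.refl x) (Sim.symm ?_)).trans (sim_assoc _ _ _).symm⟩
  · have := h2 v
    rw [hv, map_smul, hv, smul_smul, smul_smul, ← add_smul, ← sub_eq_zero, ← sub_smul, smul_eq_zero] at this
    refine this.resolve_left fun e => mul_ne_zero (sub_ne_zero.2 n') (sub_ne_zero.2 n.symm) ?_
    linear_combination e - r
  · have := congrArg (fun v : V × F => b.repr v.1 1) (h (b 1 - (q - c) • b 0, 0) (Prod.ext (by
      show x (b 1 - (q - c) • b 0) = c • (b 1 - (q - c) • b 0)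
      rw [map_sub, map_smul, h1, ← h1, h2, show p = -(c * (q - c)) by linear_combination -r]
      module) (by simp)))
    simp at this
  · refine ⟨linearEquivOfInjective ((toSpanSingleton F W (b' 1 - c • b' 0)).coprod
      (toSpanSingleton F W (b' 1 - (q' - c) • b' 0))) ((injective_iff_map_eq_zero _).2 fun v hv => ?_)
      (by rw [finrank_prod, finrank_self, hW]), fun v => ?_⟩
    · have e0 := congrArg (fun w => b'.repr w 0) hv
      have e1 := congrArg (fun w => b'.repr w 1) hv
      simp at e0 e1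
      have : v.1 = 0 := (mul_eq_zero.1 (show (q' - c - c) * v.1 = 0 by
        linear_combination e0 + (q' - c) * e1)).resolve_left (sub_ne_zero.2 n')
      exact Prod.ext this (by simpa [this] using e1)
    · simp only [linearEquivOfInjective_apply, coprod_apply, toSpanSingleton_apply, prodMap_apply,
        LinearMap.smul_apply, End.one_apply, map_add, map_smul, map_sub, h3, h4, smul_eq_mul]
      rw [show p' = -(c * (q' - c)) by linear_combination -r']
      module

end Dec

open Dec

theorem dec (x : End F V) (hx : ¬ Sc x) : ∃ (U : Type u) (_ : AddCommGroup U) (_ : Module F U)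
    (_ : FiniteDimensional F U) (x₀ : End F U) (t : ℕ) (c : F),
      TI U x₀ ∧ Sim x (x₀.prodMap (c • 1 : End F (Fin t → F))) := by
  obtain ⟨t, p, e, -, hm, -, s⟩ := exists_sim_modT x
  exact ((D_modT t _ fun i => (hm i).pow (e i)).sim s.symm).resolve_left hx

theorem r22 {x : End F V} {y : End F W} (hV : finrank F V = 2) (hW : finrank F W = 2) (hx : Cyc x)
    (hy : Cyc y) : Sim x y ∨ Cyc (x.prodMap y) ∨ ∃ (U : Type u) (_ : AddCommGroup U)
      (_ : Module F U) (C : End F U) (c : F), finrank F U = 3 ∧ Cyc C ∧ ¬ Av C c ∧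
        Sim (x.prodMap y) (C.prodMap (c • 1 : End F F)) := by
  obtain ⟨b, p, q, h1, h2, h3⟩ := kry2 hV hx
  obtain ⟨b', p', q', h4, h5, h6⟩ := kry2 hW hy
  by_cases e : p = p' ∧ q = q'
  · refine Or.inl ⟨b.equiv b' (Equiv.refl _), fun v => LinearMap.congr_fun
      (show (b.equiv b' (Equiv.refl _)).toLinearMap ∘ₗ x = y ∘ₗ (b.equiv b' (Equiv.refl _)).toLinearMap from
        b.ext (Fin.forall_fin_two.2 ⟨?_, ?_⟩)) v⟩
    · simp [h1, h4]
    · simp [h2, h5, e.1, e.2]
  right
  by_cases i : ∀ w, (q' - q) • y w = (p - p') • w → w = 0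
  · refine Or.inl (hx.prod hy (x.prodMap y * x.prodMap y - (p • 1 + q • x.prodMap y))
      (fun X h v hv => X.sub_mem (h _ (h v hv)) (X.add_mem (X.smul_mem p hv) (X.smul_mem q (h v hv))))
      (fun v => sub_eq_zero.2 (h3 v.1)) fun v hv => i _ ?_)
    have : y (y v.2) - (p • v.2 + q • y v.2) = 0 := congrArg Prod.snd hv
    rw [h6] at this
    linear_combination (norm := module) this
  right
  push Not at i
  obtain ⟨w, hw, w0⟩ := i
  have n : q ≠ q' := fun h => by
    rw [h, sub_self, zero_smul, eq_comm, smul_eq_zero, sub_eq_zero] at hw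
    exact e ⟨hw.resolve_right w0, h⟩
  have n0 := sub_ne_zero.2 n.symm
  obtain ⟨c, hc⟩ : ∃ c, c = (q' - q)⁻¹ * (p - p') := ⟨_, rfl⟩
  have hw' : y w = c • w := by rw [hc, mul_smul, ← hw, inv_smul_smul₀ n0]
  have r' : c * c = p' + q' * c := by
    have := h6 w
    rw [hw', map_smul, hw', smul_smul, smul_smul, ← add_smul, ← sub_eq_zero, ← sub_smul, smul_eq_zero] at this
    exact sub_eq_zero.1 (this.resolve_right w0)
  have r : c * c = p + q * c := by
    have : (q' - q) * c = p - p' := by rw [hc, mul_inv_cancel_left₀ n0]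
    linear_combination r' + this
  by_cases m : q' - c = c
  · obtain ⟨U, a1, a2, C, c, a3, a4, a5, a6⟩ := aux hW hV hy h4 h6 h1 h2 r' r n.symm
      fun h => n (sub_left_injective (h.trans m.symm))
    exact ⟨U, a1, a2, C, c, a3, a4, a5, (sim_swap _ _).trans a6⟩
  · exact aux hV hW hx h1 h3 h4 h5 r r' n m

end Cfsg.Agent.COV
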