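import Cfsg.Agent.H67.Sim

/-! Products of conjugates in linear groups: definitions and basic properties. -/

set_option autoImplicit false

namespace Cfsg.Agent.COV

open Module LinearMap H67

universe u

variable {F : Type u} [Field F] {V W : Type u} [AddCommGroup V] [Module F V] [AddCommGroup W]
  [Module F W]

/-- cyclic: some hyperplane contains no non-zero invariant subspace -/
def Cyc (f : End F V) : Prop :=
  ∃ φ : Dual F V, ∀ X : Submodule F V, X ≤ ker φ → (∀ v ∈ X, f v ∈ X) → X = ⊥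

/-- cyclic with a simple eigenvalue -/
def Nice (f : End F V) : Prop :=
  Cyc f ∧ ∃ (β : F) (e : V) (φ : Dual F V), f e = β • e ∧ (∀ v, φ (f v) = β * φ v) ∧ φ e = 1

/-- `ν` is not an eigenvalue -/
def Av (f : End F V) (ν : F) : Prop := ∀ v, f v = ν • v → v = 0

/-- scalar -/
def Sc (f : End F V) : Prop := ∃ c : F, f = c • 1

/-- conjugate, by an element of determinant 1 if `s` holds -/
def SC (s : Prop) (x x' : End F V) : Prop :=
  ∃ P : V ≃ₗ[F] V, (s → LinearMap.det (P : End F V) = 1) ∧ ∀ v, P (x v) = x' (P v)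

/-- a product of `k` conjugates of `x` -/
def In (s : Prop) (x : End F V) : ℕ → End F V → Prop
  | 0, g => g = 1
  | k + 1, g => ∃ x' g', SC s x x' ∧ In s x k g' ∧ g = x' * g'

/-- the centraliser maps onto `Fˣ` under the determinant -/
def NS (x : End F V) : Prop :=
  ∀ t : F, t ≠ 0 → ∃ c : V ≃ₗ[F] V, LinearMap.det (c : End F V) = t ∧ ∀ v, c (x v) = x (c v)

/-- all nice elements of the right determinant are products of `m` conjugates -/
def All (s : Prop) (x : End F V) (m : ℕ) : Prop :=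
  ∀ b : End F V, Nice b → LinearMap.det b = LinearMap.det x ^ m → In s x m b

/-- the covering property -/
def Cov (s : Prop) (x : End F V) : Prop :=
  (∀ g : End F V, ¬ Sc g → LinearMap.det g = LinearMap.det x ^ finrank F V →
    In s x (finrank F V) g) ∧ ∃ c : F, In s x (finrank F V) (c • 1)

/-- direct sums of cyclic maps on spaces of dimension at least 2 -/
inductive TI : ∀ (V : Type u) [AddCommGroup V] [Module F V], End F V → Prop
  | base (V : Type u) [AddCommGroup V] [Module F V] (x : End F V) (h : Cyc x)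
      (h2 : 2 ≤ finrank F V) : TI V x
  | step (V : Type u) [AddCommGroup V] [Module F V] (x : End F V) (W : Type u) [AddCommGroup W]
      [Module F W] (x₁ : End F W) (Q : Type u) [AddCommGroup Q] [Module F Q] (x₂ : End F Q)
      (h : Sim x (x₁.prodMap x₂)) (h₁ : TI W x₁) (h₂ : Cyc x₂) (h2 : 2 ≤ finrank F Q) : TI V x

variable {s : Prop} {x x' g g' : End F V} {y h : End F W} {k l : ℕ}

theorem big (hq : 4 ≤ Nat.card F) (a b c : F) : ∃ t, t ≠ a ∧ t ≠ b ∧ t ≠ c := by
  classical
  haveI : Finite F := Nat.finite_of_card_ne_zero (by omega)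
  haveI := Fintype.ofFinite F
  obtain ⟨t, -, ht⟩ := Finset.exists_mem_notMem_of_card_lt_card (s := {a, b, c}) (t := Finset.univ)
    (by have := Finset.card_le_three (a := a) (b := b) (c := c)
        rw [Finset.card_univ, ← Nat.card_eq_fintype_card]; omega)
  exact ⟨t, by simpa [not_or] using ht⟩

theorem SC.refl (x : End F V) : SC s x x := ⟨LinearEquiv.refl F V, fun _ => det_id, fun _ => rfl⟩

theorem SC.sim (h : SC s x x') : Sim x x' := h.imp fun _ h => h.2

theorem SC.trans {x'' : End F V} (h : SC s x x') (h' : SC s x' x'') : SC s x x'' := by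
  obtain ⟨P, h1, h2⟩ := h
  obtain ⟨Q, h3, h4⟩ := h'
  exact ⟨P.trans Q, fun h => by rw [LinearEquiv.coe_trans, det_comp, h1 h, h3 h, one_mul],
    fun v => by simp [h2, h4]⟩

theorem SC.conj (P : V ≃ₗ[F] V) (hP : s → LinearMap.det (P : End F V) = 1) (x : End F V) :
    SC s x (P.conj x) := ⟨P, hP, fun v => by simp⟩

theorem sc_false : SC False x x' ↔ Sim x x' := ⟨SC.sim, fun h => h.imp fun _ h => ⟨False.elim, h⟩⟩

theorem NS.sc (h : NS x) (h' : Sim x x') : SC s x x' := by
  obtain ⟨P, hP⟩ := h'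
  obtain ⟨c, h1, h2⟩ := h _ (inv_ne_zero P.isUnit_det'.ne_zero)
  exact ⟨c.trans P, fun _ => by
    rw [LinearEquiv.coe_trans, det_comp, h1, mul_inv_cancel₀ P.isUnit_det'.ne_zero],
    fun v => by simp [h2, hP]⟩

theorem In.one (h : SC s x x') : In s x 1 x' := ⟨x', 1, h, rfl, (mul_one _).symm⟩

theorem In.cons (h : SC s x x') (h' : In s x k g) : In s x (k + 1) (x' * g) := ⟨x', g, h, h', rfl⟩

theorem In.mul (h : In s x k g) (h' : In s x l g') : In s x (l + k) (g * g') := by
  induction k generalizing g with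
  | zero => rwa [show g = 1 from h, one_mul]
  | succ k ih =>
    obtain ⟨a, b, h1, h2, rfl⟩ := h
    exact ⟨a, b * g', h1, ih h2, mul_assoc _ _ _⟩

theorem In.det (h : In s x k g) : LinearMap.det g = LinearMap.det x ^ k := by
  induction k generalizing g with
  | zero => rw [show g = 1 from h, map_one, pow_zero]
  | succ k ih =>
    obtain ⟨a, b, h1, h2, rfl⟩ := h
    rw [map_mul, ih h2, ← h1.sim.det_eq, pow_succ']

theorem In.mono {s' : Prop} (h : In s x k g) (hs : ∀ x', SC s x x' → SC s' x x') : In s' x k g := by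
  induction k generalizing g with
  | zero => exact h
  | succ k ih =>
    obtain ⟨a, b, h1, h2, rfl⟩ := h
    exact ⟨a, b, hs a h1, ih h2, rfl⟩

theorem In.weak (h : In s x k g) : In False x k g := h.mono fun _ h => sc_false.2 h.sim

theorem In.of_ns (h : In False x k g) (hx : NS x) : In s x k g := h.mono fun _ h => hx.sc h.sim

theorem In.of_sc (h : In s x k g) (hx : SC s x' x) : In s x' k g := by
  induction k generalizing g with
  | zero => exact h
  | succ k ih =>
    obtain ⟨a, b, h1, h2, rfl⟩ := h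
    exact ⟨a, b, hx.trans h1, ih h2, rfl⟩

theorem SC.map (h : SC s x x') (e : V ≃ₗ[F] W) : SC s (e.conj x) (e.conj x') := by
  obtain ⟨P, h1, h2⟩ := h
  exact ⟨(e.symm.trans P).trans e, fun h => (det_conj (P : End F V) e).trans (h1 h),
    fun v => by simp [h2]⟩

theorem In.map (h : In s x k g) (e : V ≃ₗ[F] W) : In s (e.conj x) k (e.conj g) := by
  induction k generalizing g with
  | zero => rw [show g = 1 from h]; exact e.conj_id
  | succ k ih =>
    obtain ⟨a, b, h1, h2, rfl⟩ := h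
    exact ⟨_, _, h1.map e, ih h2, e.conj_comp b a⟩

theorem In.sc (h : In s x k g) (hg : SC s g g') : In s x k g' := by
  obtain ⟨P, h1, h2⟩ := hg
  rw [Sim.eq_conj P h2]
  exact (h.map P).of_sc (SC.conj P h1 x)

theorem In.sim (h : In s x k g) (hx : Sim x y) : ∃ g' : End F W, In s y k g' ∧ Sim g g' := by
  obtain ⟨e, he⟩ := hx
  exact ⟨_, Sim.eq_conj e he ▸ h.map e, sim_conj e g⟩

theorem In.prod (h1 : In False x k g) (h2 : In False y k h) :
    In False (x.prodMap y) k (g.prodMap h) := by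
  induction k generalizing g h with
  | zero => rw [show g = 1 from h1, show h = 1 from h2]; rfl
  | succ k ih =>
    obtain ⟨a, b, ⟨P, -, h3⟩, h4, rfl⟩ := h1
    obtain ⟨c, d, ⟨Q, -, h5⟩, h6, rfl⟩ := h2
    exact ⟨a.prodMap c, _, ⟨P.prodCongr Q, False.elim, fun v => by simp [h3, h5]⟩, ih h4 h6, rfl⟩

theorem In.scalar (c : F) (k : ℕ) : In s (c • 1 : End F V) k (c ^ k • 1) := by
  induction k with
  | zero => exact (by simp : (c ^ 0 • 1 : End F V) = 1)
  | succ k ih => exact ⟨_, _, SC.refl _, ih, by rw [smul_mul_assoc, one_mul, smul_smul, pow_succ']⟩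

theorem In.smul (h : In s x k g) (c : F) : In s (c • x) k (c ^ k • g) := by
  induction k generalizing g with
  | zero => rw [pow_zero, one_smul]; exact h
  | succ k ih =>
    obtain ⟨a, b, ⟨P, h1, h3⟩, h2, rfl⟩ := h
    exact ⟨c • a, _, ⟨P, h1, fun v => by simp [h3]⟩, ih h2,
      by rw [smul_mul_smul_comm, pow_succ']⟩

theorem Sc.sim (h : Sc x) (hx : Sim x y) : Sc y := by
  obtain ⟨c, rfl⟩ := h
  obtain ⟨e, he⟩ := hx
  exact ⟨c, LinearMap.ext fun v => by simpa using (he (e.symm v)).symm⟩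

theorem Cov.sim (h : Cov s x) (hx : Sim x y) : Cov s y := by
  have h0 := hx.finrank_eq
  have h1 := hx.det_eq
  obtain ⟨e, he⟩ := hx
  rw [Sim.eq_conj e he] at h1 ⊢
  refine ⟨fun g hg hd => ?_, h.2.imp fun c hc => ?_⟩
  · have := (h.1 (e.symm.conj g) (fun h => hg (h.sim (sim_conj _ _).symm))
      (by rw [← (sim_conj _ g).det_eq, hd, h0, h1])).map e
    rwa [e.conj_conj_symm, h0] at this
  · have := hc.map e
    rwa [map_smul, End.one_eq_id, e.conj_id, h0] at this

theorem Cov.of_ns (h : Cov False x) (hx : NS x) : Cov s x :=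
  ⟨fun g h1 h2 => (h.1 g h1 h2).of_ns hx, h.2.imp fun _ h => h.of_ns hx⟩

theorem Cyc.sim (h : Cyc x) (hx : Sim x y) : Cyc y := by
  obtain ⟨φ, hφ⟩ := h
  obtain ⟨e, he⟩ := hx
  refine ⟨φ ∘ₗ e.symm.toLinearMap, fun X h1 h2 => eq_bot_iff.2 fun v hv => ?_⟩
  have := hφ (X.comap e.toLinearMap) (fun w hw => by simpa using h1 hw) fun w hw => by
    simpa [he] using h2 _ hw
  simpa using this.le (show e.symm v ∈ X.comap e.toLinearMap by simpa using hv)

theorem Av.sim {ν : F} (h : Av x ν) (hx : Sim x y) : Av y ν := by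
  obtain ⟨e, he⟩ := hx
  exact fun v hv => by simpa using h (e.symm v) (e.injective (by simp [he, hv]))

theorem Nice.sim (h : Nice x) (hx : Sim x y) : Nice y := by
  obtain ⟨h0, β, e, φ, h1, h2, h3⟩ := h
  refine ⟨h0.sim hx, ?_⟩
  obtain ⟨c, hc⟩ := hx
  exact ⟨β, c e, φ ∘ₗ c.symm.toLinearMap, by rw [← hc, h1, map_smul], fun v => by
    obtain ⟨v, rfl⟩ := c.surjective v
    simp [← hc, h2], by simpa using h3⟩

theorem sim_prod {V' W' : Type u} [AddCommGroup V'] [Module F V'] [AddCommGroup W'] [Module F W']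
    {x' : End F V'} {y' : End F W'} (h1 : Sim x x') (h2 : Sim y y') :
    Sim (x.prodMap y) (x'.prodMap y') := by
  obtain ⟨e, he⟩ := h1
  obtain ⟨f, hf⟩ := h2
  exact ⟨e.prodCongr f, fun v => by simp [he, hf]⟩

theorem sim_swap (x : End F V) (y : End F W) : Sim (x.prodMap y) (y.prodMap x) :=
  ⟨LinearEquiv.prodComm F V W, fun _ => rfl⟩

theorem sim_assoc {U : Type u} [AddCommGroup U] [Module F U] (x : End F V) (y : End F W)
    (z : End F U) : Sim ((x.prodMap y).prodMap z) (x.prodMap (y.prodMap z)) :=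
  ⟨LinearEquiv.prodAssoc F V W U, fun _ => rfl⟩

/-- coprimality criterion: `N` preserves invariant subspaces, kills `V` and is injective on `W` -/
theorem Cyc.prod (h1 : Cyc x) (h2 : Cyc y) (N : End F (V × W))
    (hN : ∀ X : Submodule F (V × W), (∀ v ∈ X, x.prodMap y v ∈ X) → ∀ v ∈ X, N v ∈ X)
    (h3 : ∀ v, (N v).1 = 0) (h4 : ∀ v, N v = 0 → v.2 = 0) : Cyc (x.prodMap y) := by
  obtain ⟨φ, hφ⟩ := h1
  obtain ⟨ψ, hψ⟩ := h2
  refine ⟨φ.coprod ψ, fun X h5 h6 => eq_bot_iff.2 fun v hv => ?_⟩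
  have h7 := hψ (X.comap (inr F V W)) (fun w hw => by simpa using h5 hw) fun w hw => by
    simpa using h6 _ hw
  have h8 := hφ (X.comap (inl F V W)) (fun w hw => by simpa using h5 hw) fun w hw => by
    simpa using h6 _ hw
  have h9 : v.2 = 0 := h4 v (Prod.ext (h3 v) (h7.le (show ((0 : V), (N v).2) ∈ X by
    rw [← h3 v]; exact hN X h6 v hv)))
  exact Prod.ext (h8.le (show (v.1, (0 : W)) ∈ X by rw [← h9]; exact hv)) h9

theorem cyc_one (c : F) : Cyc (c • 1 : End F F) :=
  ⟨LinearMap.id, fun X h _ => eq_bot_iff.2 fun _ hv => h hv⟩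

theorem Cyc.prod_one {ν : F} (h1 : Cyc x) (h2 : Av x ν) : Cyc (x.prodMap (ν • 1 : End F F)) :=
  ((cyc_one ν).prod h1 ((ν • 1 : End F F).prodMap x - ν • 1)
    (fun X h v hv => X.sub_mem (h v hv) (X.smul_mem ν hv)) (fun v => by simp)
    fun v hv => h2 _ (sub_eq_zero.1 (congrArg Prod.snd hv))).sim (sim_swap _ _)

theorem Cyc.nice {ν : F} (h1 : Cyc x) (h2 : Av x ν) : Nice (x.prodMap (ν • 1 : End F F)) :=
  ⟨h1.prod_one h2, ν, (0, 1), snd F V F, by simp, fun v => by simp, rfl⟩

theorem Av.prod {ν : F} (h1 : Av x ν) (h2 : Av y ν) : Av (x.prodMap y) ν :=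
  fun _ hv => Prod.ext (h1 _ (congrArg Prod.fst hv)) (h2 _ (congrArg Prod.snd hv))

theorem av_one {c ν : F} (h : c ≠ ν) : Av (c • 1 : End F V) ν := fun v hv =>
  (smul_eq_zero.1 (show (c - ν) • v = 0 by rw [sub_smul, ← hv]; simp)).resolve_left (sub_ne_zero.2 h)

theorem exists_equiv [FiniteDimensional F V] (h : LinearMap.det x ≠ 0) :
    ∃ P : V ≃ₗ[F] V, (P : End F V) = x := by
  have h1 := ker_eq_bot.1 ((isUnit_iff_ker_eq_bot x).1 ((isUnit_iff_isUnit_det x).2 h.isUnit))
  exact ⟨LinearEquiv.ofBijective x ⟨h1, injective_iff_surjective.1 h1⟩, rfl⟩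

theorem ns_of_eig [FiniteDimensional F V] {β : F} {e : V} {φ : Dual F V} (h1 : x e = β • e)
    (h2 : ∀ v, φ (x v) = β * φ v) (h3 : φ e = 1) : NS x := fun t ht => by
  have h4 : LinearMap.det (LinearMap.transvection φ ((t - 1) • e)) = t := by simp [h3]
  obtain ⟨P, hP⟩ := exists_equiv (h4.trans_ne ht)
  refine ⟨P, hP ▸ h4, fun v => ?_⟩
  rw [← LinearEquiv.coe_coe, hP]
  simp [LinearMap.transvection.apply, h1, h2, smul_smul, mul_comm, mul_left_comm]

theorem Nice.ns [FiniteDimensional F V] (h : Nice x) : NS x := by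
  obtain ⟨-, β, e, φ, h1, h2, h3⟩ := h
  exact ns_of_eig h1 h2 h3

end Cfsg.Agent.COV
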