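import Cfsg.Agent.COV.Comp

/-! Transfer to the projective special linear group (see notes/COV.md). -/

set_option autoImplicit false

namespace Cfsg.Agent.COV

open Module LinearMap H67

universe u

variable {F : Type u} [Field F] {V W : Type u} [AddCommGroup V] [Module F V] [AddCommGroup W]
  [Module F W] [FiniteDimensional F V] [FiniteDimensional F W]

namespace Final

variable {n : ℕ}

/-- the linear map of a matrix -/
def T : Matrix.SpecialLinearGroup (Fin n) F →* End F (Fin n → F) where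
  toFun A := Matrix.toLin' A.1
  map_one' := Matrix.toLin'_one
  map_mul' A B := Matrix.toLin'_mul A.1 B.1

theorem T_inj : Function.Injective (T (F := F) (n := n)) := fun _ _ h =>
  Subtype.ext (Matrix.toLin'.injective h)

theorem T_det (A : Matrix.SpecialLinearGroup (Fin n) F) : LinearMap.det (T A) = 1 :=
  (det_toLin' A.1).trans A.2

theorem T_surj {f : End F (Fin n → F)} (h : LinearMap.det f = 1) : ∃ A, T A = f :=
  ⟨⟨toMatrix' f, (det_toMatrix' f).trans h⟩, Matrix.toLin'_toMatrix' f⟩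

theorem of_sc {A : Matrix.SpecialLinearGroup (Fin n) F} (h : Sc (T A)) : A ∈ Subgroup.center _ := by
  obtain ⟨c, h⟩ := h
  exact Subgroup.mem_center_iff.2 fun B => T_inj (by simp [h])

theorem of_center {A : Matrix.SpecialLinearGroup (Fin n) F} (h : A ∈ Subgroup.center _) :
    ∃ r : F, r ^ n = 1 ∧ T A = r • 1 := by
  obtain ⟨r, h1, h2⟩ := Matrix.SpecialLinearGroup.mem_center_iff.1 h
  refine ⟨r, by simpa using h1, ?_⟩
  show Matrix.toLin' A.1 = _
  rw [← h2, Matrix.scalar_apply, ← Matrix.smul_one_eq_diagonal, map_smul, Matrix.toLin'_one]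
  rfl

theorem of_in {x : Matrix.SpecialLinearGroup (Fin n) F} {k : ℕ} {g : End F (Fin n → F)}
    (h : In True (T x) k g) : ∃ f : Fin k → Matrix.SpecialLinearGroup (Fin n) F,
      T (List.ofFn fun i => f i * x * (f i)⁻¹).prod = g := by
  induction k generalizing g with
  | zero => exact ⟨Fin.elim0, by rw [show g = 1 from h]; simp⟩
  | succ k ih =>
    obtain ⟨a, b, ⟨P, h1, h2⟩, h3, rfl⟩ := h
    obtain ⟨f, rfl⟩ := ih h3
    obtain ⟨A, hA⟩ := T_surj (h1 trivial)
    have e : T A * T x = a * T A := LinearMap.ext fun v => by rw [hA]; exact h2 v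
    refine ⟨Fin.cons A f, ?_⟩
    rw [List.ofFn_succ, List.prod_cons, map_mul]
    simp only [Fin.cons_zero, Fin.cons_succ]
    rw [map_mul, map_mul, e, mul_assoc a, ← map_mul, mul_inv_cancel, map_one, mul_one]

theorem mk_prod {k : ℕ} (x : Matrix.SpecialLinearGroup (Fin n) F)
    (f : Fin k → Matrix.SpecialLinearGroup (Fin n) F) :
    (((List.ofFn fun i => f i * x * (f i)⁻¹).prod : Matrix.SpecialLinearGroup (Fin n) F) :
      Matrix.ProjectiveSpecialLinearGroup (Fin n) F) =
      (List.ofFn fun i => (f i : Matrix.ProjectiveSpecialLinearGroup (Fin n) F) * x * (↑(f i))⁻¹).prod := by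
  have := map_list_prod (QuotientGroup.mk' (Subgroup.center _)) (List.ofFn fun i => f i * x * (f i)⁻¹)
  rwa [List.map_ofFn] at this

end Final

open Final

theorem upper (n : ℕ) (h : ∀ x : End F (Fin n → F), ¬ Sc x → LinearMap.det x = 1 → Cov True x)
    (x : Matrix.ProjectiveSpecialLinearGroup (Fin n) F) (hx : x ≠ 1)
    (g : Matrix.ProjectiveSpecialLinearGroup (Fin n) F) :
    ∃ f : Fin n → Matrix.ProjectiveSpecialLinearGroup (Fin n) F,
      g = (List.ofFn fun i => f i * x * (f i)⁻¹).prod := by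
  obtain ⟨x, rfl⟩ := QuotientGroup.mk_surjective x
  obtain ⟨g, rfl⟩ := QuotientGroup.mk_surjective g
  obtain ⟨h1, c, h2⟩ := h (T x) (fun s => hx ((QuotientGroup.eq_one_iff x).2 (of_sc s))) (T_det x)
  rw [finrank_fin_fun] at h1 h2
  by_cases s : Sc (T g)
  · obtain ⟨f, e⟩ := of_in h2
    exact ⟨fun i => f i, by rw [← mk_prod, (QuotientGroup.eq_one_iff g).2 (of_sc s),
      (QuotientGroup.eq_one_iff _).2 (of_sc ⟨c, e⟩)]⟩
  · obtain ⟨f, e⟩ := of_in (h1 _ s (by rw [T_det, T_det, one_pow]))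
    exact ⟨fun i => f i, by rw [← mk_prod, T_inj e]⟩

theorem lower (n : ℕ) (hn : 3 ≤ n) : ∃ x : Matrix.ProjectiveSpecialLinearGroup (Fin n) F, x ≠ 1 ∧
    ∃ g : Matrix.ProjectiveSpecialLinearGroup (Fin n) F,
      ∀ f : Fin (n - 1) → Matrix.ProjectiveSpecialLinearGroup (Fin n) F,
        g ≠ (List.ofFn fun i => f i * x * (f i)⁻¹).prod := by
  obtain ⟨i, j, hij⟩ : ∃ i j : Fin n, j ≠ i := ⟨⟨0, by omega⟩, ⟨1, by omega⟩, by simp⟩
  obtain ⟨x, hx⟩ := T_surj (f := LinearMap.transvection (proj j) (Pi.single i (1 : F))) (by simp [hij])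
  obtain ⟨s, hs⟩ : ∃ s : F, ∀ z : F, z ^ n = 1 → z ^ n + (s * z + (-1) ^ n) ≠ 0 := by
    by_cases c : (1 : F) + (-1) ^ n = 0
    · refine ⟨1, fun z hz e => ?_⟩
      have : z = 0 := by linear_combination e - c - hz
      rw [this, zero_pow (by omega)] at hz
      exact zero_ne_one hz
    · exact ⟨0, fun z hz => by simpa [hz] using c⟩
  obtain ⟨m1, m2, m3⟩ := monic_tri (show 2 ≤ n by omega) s ((-1 : F) ^ n)
  obtain ⟨y, -, y1, y2⟩ := exists_comp (V := Fin n → F) _ m1 (m2.trans (finrank_fin_fun F).symm)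
  obtain ⟨g, rfl⟩ := T_surj (f := y) (by rw [y2, m3, finrank_fin_fun, ← mul_pow]; simp)
  refine ⟨x, fun e => ?_, g, fun f e => ?_⟩
  · obtain ⟨r, -, h⟩ := of_center ((QuotientGroup.eq_one_iff x).1 e)
    have := congrFun (LinearMap.congr_fun (hx.symm.trans h) (Pi.single j 1)) i
    simp [LinearMap.transvection.apply, hij.symm] at this
  choose a ha using fun i => QuotientGroup.mk_surjective (f i)
  rw [← funext ha, ← mk_prod, QuotientGroup.eq] at e
  obtain ⟨r, h1, h2⟩ := of_center e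
  obtain ⟨v, v1, v0⟩ := Submodule.exists_mem_ne_zero_of_ne_bot (ker_ne_bot_of_finrank_lt
    (f := LinearMap.pi fun k => (proj j : Dual F (Fin n → F)) ∘ₗ T (a k)⁻¹)
    (by rw [finrank_fin_fun, finrank_fin_fun]; omega))
  have h3 : T (List.ofFn fun i => a i * x * (a i)⁻¹).prod v = v :=
    List.prod_induction (fun b => T b v = v) (fun b c hb hc => by rw [map_mul, End.mul_apply, hc, hb])
      (by simp) fun b hb => by
        obtain ⟨k, rfl⟩ := List.mem_ofFn.1 hb
        have : (proj j : Dual F (Fin n → F)) (T (a k)⁻¹ v) = 0 := congrFun v1 k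
        rw [map_mul, map_mul, End.mul_apply, End.mul_apply, hx, LinearMap.transvection.apply, this,
          zero_smul, add_zero, ← End.mul_apply, ← map_mul, mul_inv_cancel, map_one, End.one_apply]
  have r0 : r ≠ 0 := fun h => by
    rw [h, zero_pow (by omega)] at h1
    exact zero_ne_one h1
  rw [← mul_inv_cancel_left g (List.prod _), map_mul, h2, End.mul_apply, LinearMap.smul_apply,
    End.one_apply, map_smul] at h3
  refine v0 (av_of_aeval y1 (μ := r⁻¹) ?_ v ((eq_inv_smul_iff₀ r0).2 h3))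
  simpa using hs r⁻¹ (by rw [inv_pow, h1, inv_one])

end Cfsg.Agent.COV
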