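import Cfsg.Agent.COV.L2p

/-! Hessenberg flags with prescribed breaks. -/

set_option autoImplicit false

namespace Cfsg.Agent.COV

open Module LinearMap H67

universe u

variable {F : Type u} [Field F] {V W : Type u} [AddCommGroup V] [Module F V] [AddCommGroup W]
  [Module F W]

/-- Hessenberg form with breaks only in `B` -/
def HF (f : End F V) (n : ℕ) (B : ℕ → Prop) : Prop :=
  ∃ c : Co F V n, Hess c f ∧ ∀ i, i + 1 < n → ¬ B (i + 1) → lk c f i ≠ 0

/-- Hessenberg form of the inverse -/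
def HI (y : End F V) (n : ℕ) (B : ℕ → Prop) : Prop := ∃ g, y * g = 1 ∧ HF g n B

variable {f : End F V} {g : End F W} {n k : ℕ} {B B' : ℕ → Prop}

theorem HF.mono (h : HF f n B) (hB : ∀ i, 0 < i → i < n → B i → B' i) : HF f n B' :=
  h.imp fun _ h => ⟨h.1, fun i h1 h2 => h.2 i h1 fun h3 => h2 (hB _ i.succ_pos h1 h3)⟩

theorem HF.sim (h : HF f n B) (hs : Sim f g) : HF g n B := by
  obtain ⟨c, h1, h2⟩ := h
  obtain ⟨e, he⟩ := hs
  have h3 : ∀ v, e.symm (g v) = f (e.symm v) := fun v => e.injective (by simp [he])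
  refine ⟨⟨fun j => c.ε j ∘ₗ e.symm.toLinearMap, fun i => e (c.e i),
    fun v hv => by simpa using c.inj (e.symm v) hv, fun i hi j hj => by simpa using c.dual i hi j hj⟩,
    fun i v hv => Co.mem_fl.2 fun j h4 h5 => ?_, fun i h4 h5 => by simpa [lk, h3] using h2 i h4 h5⟩
  simpa [h3] using Co.eps (h1 i (e.symm v) (Co.mem_fl.2 fun j h6 h7 => Co.eps hv h6 h7)) h4 h5

theorem HF.prod (h : HF f n B) (h' : HF g k B') : HF (f.prodMap g) (n + k)
    fun i => (i < n ∧ B i) ∨ i = n ∨ (n < i ∧ B' (i - n)) := by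
  obtain ⟨c, h1, h2⟩ := h
  obtain ⟨d, h3, h4⟩ := h'
  refine ⟨⟨fun j => if j < n then c.ε j ∘ₗ fst F V W else d.ε (j - n) ∘ₗ snd F V W,
    fun i => if i < n then (c.e i, 0) else (0, d.e (i - n)), fun v hv => Prod.ext
      (c.inj _ fun j hj => by simpa [hj] using hv j (by omega))
      (d.inj _ fun j hj => by simpa using hv (n + j) (by omega)), fun i hi j hj => ?_⟩,
    fun i v hv => Co.mem_fl.2 fun j h5 h6 => ?_, fun i h5 h6 => ?_⟩
  · by_cases h5 : i < n <;> by_cases h6 : j < n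
    · simpa [h5, h6] using c.dual i h5 j h6
    · simp [h5, h6, show j ≠ i by omega]
    · simp [h5, h6, show j ≠ i by omega]
    · simp only [h5, h6, if_false, comp_apply, snd_apply, d.dual (i - n) (by omega) (j - n) (by omega)]
      exact if_congr (by omega) rfl rfl
  · replace hv := Co.mem_fl.1 hv
    by_cases h7 : j < n
    · simpa [h7] using Co.eps (h1 i v.1 (Co.mem_fl.2 fun j h8 h9 => by
        simpa [h9] using hv j h8 (by omega))) h5 h7
    have h8 : v.2 ∈ d.fl (i - n) := Co.mem_fl.2 fun j h8 h9 => by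
      simpa using hv (n + j) (by omega) (by omega)
    by_cases h9 : i < n
    · simp [h7, Co.fl_zero (show v.2 ∈ d.fl 0 by rwa [show i - n = 0 by omega] at h8)]
    · simpa [h7] using Co.eps (h3 _ _ h8) (j := j - n) (by omega) (by omega)
  · simp only [not_or, not_and] at h6
    by_cases h7 : i + 1 < n
    · simpa [lk, h7, show i < n by omega] using h2 i h7 (h6.1 h7)
    · have h8 : i + 1 - n = i - n + 1 := by omega
      simpa [lk, h7, show ¬ i < n by omega, h8] using h4 (i - n) (by omega) (h8 ▸ h6.2.2 (by omega))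

theorem HI.mono (h : HI f n B) (hB : ∀ i, 0 < i → i < n → B i → B' i) : HI f n B' :=
  h.imp fun _ h => ⟨h.1, h.2.mono hB⟩

theorem HI.sim (h : HI f n B) (hs : Sim f g) : HI g n B := by
  obtain ⟨a, h1, h2⟩ := h
  obtain ⟨e, he⟩ := hs
  exact ⟨e.conj a, LinearMap.ext fun v => by
    simp [← he, show f (a (e.symm v)) = e.symm v from LinearMap.congr_fun h1 _], h2.sim (sim_conj e a)⟩

theorem HI.prod (h : HI f n B) (h' : HI g k B') : HI (f.prodMap g) (n + k)
    fun i => (i < n ∧ B i) ∨ i = n ∨ (n < i ∧ B' (i - n)) := by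
  obtain ⟨a, h1, h2⟩ := h
  obtain ⟨b, h3, h4⟩ := h'
  exact ⟨a.prodMap b, by rw [prodMap_mul, h1, h3, prodMap_one], h2.prod h4⟩

variable [FiniteDimensional F V] [FiniteDimensional F W]

theorem HF.finrank (h : HF f n B) : finrank F V = n := by
  obtain ⟨c, -⟩ := h
  rw [← c.finrank_fl le_rfl, show c.fl n = ⊤ from eq_top_iff.2 fun _ _ => Co.fl_top le_rfl, finrank_top]

theorem Cyc.hf (h : Cyc f) (hn : finrank F V = n) : HF f n fun _ => False := by
  obtain ⟨φ, hφ⟩ := h
  obtain ⟨c, h1, h2, -⟩ := Obs.exists_co hφ hn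
  exact ⟨c, h1, fun i hi _ => by simp [h2 i hi]⟩

theorem hf_scalar (a : F) (hn : finrank F V = n) : HF (a • 1 : End F V) n fun _ => True := by
  let b := finBasisOfFinrankEq F V hn
  obtain ⟨c, -⟩ := exists_co hn (fun j => if h : j < n then b.coord ⟨j, h⟩ else 0) fun v hv =>
    b.repr.map_eq_zero_iff.1 (Finsupp.ext fun i => by simpa using hv i i.2)
  exact ⟨c, fun i v hv => Co.fl_mono (Submodule.smul_mem _ a hv) i.le_succ, fun _ _ h => (h trivial).elim⟩

theorem Cyc.inv {a : End F V} (h : Cyc f) (h1 : f * a = 1) : Cyc a := by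
  refine h.imp fun φ hφ X h2 h3 => hφ X h2 fun v hv => ?_
  have h4 : Function.Injective (a.restrict h3) := fun w w' e => Subtype.ext (by
    simpa [← End.mul_apply, h1] using congrArg (fun z => f z.1) e)
  obtain ⟨w, hw⟩ := injective_iff_surjective.1 h4 ⟨v, hv⟩
  rw [← show a w = v from congrArg Subtype.val hw, ← End.mul_apply, h1]
  exact w.2

theorem exists_inv (h : LinearMap.det f ≠ 0) : ∃ a, f * a = 1 := by
  obtain ⟨P, rfl⟩ := exists_equiv h
  exact ⟨P.symm, LinearMap.ext fun v => by simp⟩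

theorem Cyc.hi (h : Cyc f) (h0 : LinearMap.det f ≠ 0) (hn : finrank F V = n) :
    HI f n fun _ => False := (exists_inv h0).imp fun _ ha => ⟨ha, (h.inv ha).hf hn⟩

theorem hi_scalar {a : F} (ha : a ≠ 0) (hn : finrank F V = n) :
    HI (a • 1 : End F V) n fun _ => True :=
  ⟨a⁻¹ • 1, by simp [smul_smul, ha], hf_scalar _ hn⟩

theorem l2plus {a y : End F V} (ha : HF a n B) (hy : HI y n B') (ha0 : LinearMap.det a ≠ 0)
    (hB : ∀ i, 0 < i → i + 1 < n → B i → ¬ B' i) (h1 : ¬ B (n - 1)) (h2 : ¬ B' (n - 1)) (hn : 2 ≤ n)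
    {b : End F W} (hb : Nice b) (hW : finrank F W = n)
    (hd : LinearMap.det b = LinearMap.det a * LinearMap.det y) {t : F} (ht : t ≠ 0) :
    ∃ P : V ≃ₗ[F] V, (3 ≤ n → LinearMap.det (P : End F V) = t) ∧ Sim b (P.conj a * y) := by
  obtain ⟨m, rfl⟩ : ∃ m, n = m + 2 := ⟨n - 2, by omega⟩
  have hV := ha.finrank
  obtain ⟨c, c1, c2⟩ := ha
  obtain ⟨g, hg, d, d1, d2⟩ := hy
  obtain ⟨⟨χ, b0⟩, β, e, φ, b1, b2, b3⟩ := hb
  obtain ⟨C, hC, h3⟩ := exists_det c d
  have h4 := c2 m (by omega) h1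
  have h5 := d2 m (by omega) h2
  have hβ : β ≠ 0 := fun h => by
    simp [inj_of_det (hd ▸ mul_ne_zero ha0 (left_ne_zero_of_mul_eq_one
      (by rw [← map_mul, hg, map_one]))) e (by rw [b1, h, zero_smul])] at b3
  obtain ⟨P, r, h6, h7, h8⟩ := l2core hV c1 d1 ha0 hg (fun i hi => (em (B (i + 1))).elim
    (fun h => .inr (d2 i (by omega) (hB _ i.succ_pos (by omega) h))) fun h => .inl (c2 i (by omega) h))
    h4 h5 b0 b1 b2 b3 hW hd (δ := fun i => if i = 0 then t * lk c a m / (C * β * lk d g m) else 1)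
    fun i => by split_ifs <;> simp [*]
  refine ⟨P, fun h9 => ?_, h8⟩
  rw [h3 _ _ h6, Finset.prod_range_succ, Function.update_self, Finset.prod_eq_single 0
    (fun i hi h => by rw [Function.update_of_ne (Finset.mem_range.1 hi).ne, if_neg h]) (by simp),
    Function.update_of_ne (by omega), if_pos rfl]
  rw [if_neg (by omega), mul_one] at h7
  field_simp
  linear_combination h7

theorem cyc_mul {a y : End F V} (ha : HF a n B) (hy : HI y n B') (ha0 : LinearMap.det a ≠ 0)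
    (hB : ∀ i, 0 < i → i < n → B i → ¬ B' i) (hn : 1 ≤ n) : ∃ P : V ≃ₗ[F] V, Cyc (y * P.conj a) := by
  obtain ⟨m, rfl⟩ : ∃ m, n = m + 1 := ⟨n - 1, by omega⟩
  obtain ⟨c, c1, c2⟩ := ha
  obtain ⟨g, hg, d, d1, d2⟩ := hy
  obtain ⟨P, h1, h2⟩ := splus c1 d1 (inj_of_det ha0) (δ := fun _ => 1) (fun _ => one_ne_zero)
    m.lt_succ_self fun i hi => (em (B (i + 1))).elim
      (fun h => .inr (d2 i (by omega) (hB _ i.succ_pos (by omega) h))) fun h => .inl (c2 i (by omega) h)
  obtain ⟨P, rfl⟩ := h1.equiv (fun _ => one_ne_zero) rfl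
  refine ⟨P, d.ε m, fun X h3 h4 => eq_bot_iff.2 fun v hv => ?_⟩
  have h5 := h2 (X.comap P.toLinearMap) (fun w hw => h1.mem_inv (fun _ => one_ne_zero) le_rfl
    (Co.fl_top le_rfl) (Co.fl_of_succ (Co.fl_top le_rfl) (h3 hw))) fun w hw =>
      ⟨P.symm (y (P (a w))), by simpa using h4 _ hw, by
        simpa using (LinearMap.congr_fun (mul_eq_one_comm.1 hg) _).symm⟩
  simpa using h5.le (show P.symm v ∈ X.comap P.toLinearMap by simpa using hv)

end Cfsg.Agent.COV
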