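import Cfsg.Agent.COV.L2
import Cfsg.Agent.COV.Comp
import Cfsg.Agent.H3.Lev5

/-! The identity as a product of conjugates in dimension 3, 4, 5. -/

set_option autoImplicit false

namespace Cfsg.Agent.COV

open Module LinearMap H67

universe u

variable {F : Type u} [Field F] {V W : Type u} [AddCommGroup V] [Module F V] [AddCommGroup W]
  [Module F W] [FiniteDimensional F V] [FiniteDimensional F W]

theorem idt_in {s : Prop} {x a : End F V} {n : ℕ} (ha : LinearMap.det a ≠ 0)
    (hs : s → LinearMap.det a = 1) (h1 : a ^ n = 1) (h2 : (a * x) ^ n = 1) : In s x n 1 := by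
  obtain ⟨P, rfl⟩ := exists_equiv ha
  have : ∀ k, ∃ g, In s x k g ∧ g * (P : End F V) ^ k = ((P : End F V) * x) ^ k := fun k => by
    induction k with
    | zero => exact ⟨1, rfl, by simp⟩
    | succ k ih =>
      obtain ⟨g, h3, h4⟩ := ih
      refine ⟨P.conj x * P.conj g, .cons (SC.conj P hs x) (h3.sc (SC.conj P hs g)), ?_⟩
      rw [pow_succ', pow_succ', ← h4]
      ext v
      simp
  obtain ⟨g, h3, h4⟩ := this n
  rw [h1, h2, mul_one] at h4
  exact h4 ▸ h3

theorem idt_uni {j : End F V} (h : H3.Lev.RU j) (h0 : ((finrank F V : ℕ) : F) = 0)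
    (hn : finrank F V = 3 ∨ finrank F V = 4 ∨ finrank F V = 5) : j ^ finrank F V = 1 := by
  obtain ⟨⟨-, k, hk⟩, -⟩ := h
  have h1 : IsNilpotent (j - 1) := ⟨k, LinearMap.ext fun v => hk v trivial⟩
  have h2 : (j - 1) ^ finrank F V = 0 := by
    have := (j - 1).aeval_self_charpoly
    rwa [h1.charpoly_eq_X_pow_finrank, map_pow, Polynomial.aeval_X] at this
  obtain ⟨N, rfl⟩ : ∃ N, j = N + 1 := ⟨j - 1, by simp⟩
  rw [add_sub_cancel_right] at h2
  have h3 : ∀ m : ℕ, (m : F) = 0 → (m : End F V) = 0 := fun m hm => by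
    rw [← map_natCast (algebraMap F (End F V)), hm, map_zero]
  rcases hn with hn | hn | hn <;> rw [hn] at h0 h2 ⊢
  · have := h3 3 h0
    rw [show (N + 1) ^ 3 = N ^ 3 + 1 + ((3 : ℕ) : End F V) * (N + N ^ 2) by
      push_cast; noncomm_ring, h2, this]; simp
  · have := h3 2 (by
      have : ((2 : ℕ) : F) ^ 2 = 0 := by rw [← h0]; norm_num
      exact pow_eq_zero_iff two_ne_zero |>.1 this)
    rw [show (N + 1) ^ 4 = N ^ 4 + 1 + ((2 : ℕ) : End F V) * (N + N + N ^ 2 + N ^ 2 + N ^ 2 + N ^ 3 + N ^ 3) by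
      push_cast; noncomm_ring, h2, this]; simp
  · have := h3 5 h0
    rw [show (N + 1) ^ 5 = N ^ 5 + 1 + ((5 : ℕ) : End F V) * (N + N ^ 2 + N ^ 2 + N ^ 3 + N ^ 3 + N ^ 4) by
      push_cast; noncomm_ring, h2, this]; simp

theorem id_trick (hq : 4 ≤ Nat.card F) {s : Prop} {x : End F V} (hx : ¬ Sc x)
    (hd : LinearMap.det x = 1) (hn : finrank F V = 3 ∨ finrank F V = 4 ∨ finrank F V = 5)
    (hs : s → Odd (finrank F V)) : In s x (finrank F V) 1 := by
  by_cases h0 : ((finrank F V : ℕ) : F) = 0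
  · obtain ⟨j, j1, j2⟩ := H3.Lev.lev (big hq) _ V rfl x hd (.inl fun c hc => hx ⟨c, hc⟩)
    have h1 := H3.Lev.det_of_nil j1.1
    refine idt_in (h1.trans_ne one_ne_zero) (fun _ => h1) (idt_uni j1 h0 hn) ?_
    have h2 := mul_pow_mul j x (finrank F V)
    rw [idt_uni j2 h0 hn, mul_one] at h2
    exact ((isUnit_iff_isUnit_det j).2 (h1 ▸ isUnit_one)).mul_right_cancel (by rw [h2, one_mul])
  · obtain ⟨m, hm⟩ : ∃ m, finrank F V = m + 1 := ⟨finrank F V - 1, by omega⟩
    obtain ⟨b, b1, b2, b3⟩ := exists_comp (V := Fin m → F)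
      (∑ i ∈ Finset.range (m + 1), (Polynomial.X : Polynomial F) ^ i)
      (Polynomial.monic_geom_sum_X (by omega)) (by
        rw [Finset.sum_range_succ, Polynomial.natDegree_add_eq_right_of_degree_lt,
          Polynomial.natDegree_X_pow]
        · simp
        · refine (Polynomial.degree_sum_le _ _).trans_lt ((Finset.sup_lt_iff ?_).2 fun i hi => ?_)
          · rw [Polynomial.degree_X_pow]; exact WithBot.bot_lt_coe _
          · rw [Polynomial.degree_X_pow, Polynomial.degree_X_pow]
            exact_mod_cast Finset.mem_range.1 hi)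
    simp only [map_sum, map_pow, Polynomial.aeval_X] at b2
    have b4 : Av b 1 := fun v hv => by
      have h1 : ∀ i : ℕ, (b ^ i) v = v := fun i => by
        induction i with
        | zero => rfl
        | succ i ih => rw [pow_succ', End.mul_apply, ih, hv, one_smul]
      have := congr($b2 v)
      simp only [LinearMap.sum_apply, h1, Finset.sum_const, Finset.card_range,
        LinearMap.zero_apply] at this
      rw [← Nat.cast_smul_eq_nsmul F, ← hm] at this
      exact (smul_eq_zero.1 this).resolve_left h0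
    have b5 : b ^ (m + 1) = 1 := by
      have := mul_geom_sum b (m + 1)
      rw [b2, mul_zero] at this
      exact (sub_eq_zero.1 this.symm)
    have c1 := b1.nice b4
    have c2 : (b.prodMap ((1 : F) • 1 : End F F)) ^ (m + 1) = 1 := by
      have : ∀ k : ℕ, (b.prodMap ((1 : F) • 1 : End F F)) ^ k = (b ^ k).prodMap 1 := fun k => by
        induction k with
        | zero => rfl
        | succ k ih => rw [pow_succ, ih, pow_succ, one_smul]; rfl
      rw [this, b5]; rfl
    have c3 : LinearMap.det (b.prodMap ((1 : F) • 1 : End F F)) = (-1) ^ m := by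
      rw [det_prodMap, b3, one_smul, map_one, mul_one, Finset.sum_range_succ']
      simp [Polynomial.coeff_X_pow]
    have c4 : finrank F ((Fin m → F) × F) = finrank F V := by simp [hm]
    set c := b.prodMap ((1 : F) • 1 : End F F)
    have e := sim_conj (LinearEquiv.ofFinrankEq _ _ c4) c
    set a := (LinearEquiv.ofFinrankEq _ _ c4).conj c
    have a1 : LinearMap.det a ≠ 0 := by rw [← e.det_eq, c3]; simp
    obtain ⟨P, -, hP⟩ := l2 (c1.1.sim e) a1 hx (hd.trans_ne one_ne_zero) c1 c4
      (by rw [hd, mul_one, e.det_eq]) one_ne_zero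
    have e' := e.trans (sim_conj P a)
    refine idt_in (a := P.conj a) (by rw [← e'.det_eq, c3]; simp) (fun h => ?_) ?_ ?_
    · have := hs h
      rw [hm, Nat.odd_add_one, Nat.not_odd_iff_even] at this
      rw [← e'.det_eq, c3, this.neg_one_pow]
    · rw [hm]; exact (e'.pow _).eq_one_iff.1 c2
    · rw [hm]; exact (hP.pow _).eq_one_iff.1 c2

end Cfsg.Agent.COV
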