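import Cfsg.Agent.COV.Defs

/-! Krylov bases of cyclic maps. -/

set_option autoImplicit false

namespace Cfsg.Agent.COV

open Module LinearMap H67

universe u

variable {F : Type u} [Field F] {V W : Type u} [AddCommGroup V] [Module F V] [AddCommGroup W]
  [Module F W] [FiniteDimensional F V] [FiniteDimensional F W]

theorem obs_zero {x : End F V} {φ : Dual F V}
    (h : ∀ X : Submodule F V, X ≤ ker φ → (∀ v ∈ X, x v ∈ X) → X = ⊥) {v : V}
    (hv : ∀ i < finrank F V, φ ((x ^ i) v) = 0) : v = 0 := by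
  rcases subsingleton_or_nontrivial V with h0 | h0
  · exact Subsingleton.elim _ _
  refine (h (⨅ k : ℕ, ker (φ ∘ₗ x ^ k)) ((iInf_le _ 0).trans (by simp [End.one_eq_id]))
    fun w hw => ?_).le ((Submodule.mem_iInf _).2 fun k => ?_)
  · simp only [Submodule.mem_iInf, mem_ker, comp_apply] at hw ⊢
    exact fun k => by simpa [pow_succ] using hw (k + 1)
  · have h1 : x.charpoly ≠ 1 := fun e => (finrank_pos (R := F) (M := V)).ne' (by
      rw [← x.charpoly_natDegree, e, Polynomial.natDegree_one])
    rw [x.pow_eq_aeval_mod_charpoly, Polynomial.aeval_eq_sum_range'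
      (Polynomial.natDegree_modByMonic_lt _ x.charpoly_monic h1), x.charpoly_natDegree]
    simp only [mem_ker, comp_apply, LinearMap.sum_apply, map_sum, LinearMap.smul_apply, map_smul]
    exact Finset.sum_eq_zero fun i hi => by rw [hv i (Finset.mem_range.1 hi), smul_zero]

theorem exists_dual {n : ℕ} (hn : finrank F V = n) (ε : ℕ → Dual F V)
    (h : ∀ v, (∀ j < n, ε j v = 0) → v = 0) (c : ℕ → F) : ∃ v, ∀ j < n, ε j v = c j := by
  have h1 : Function.Injective (LinearMap.pi fun j : Fin n => ε j) :=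
    (injective_iff_map_eq_zero _).2 fun v hv => h v fun j hj => congrFun hv ⟨j, hj⟩
  obtain ⟨v, hv⟩ := (injective_iff_surjective_of_finrank_eq_finrank (by simp [hn])).1 h1 fun j => c j
  exact ⟨v, fun j hj => congrFun hv ⟨j, hj⟩⟩

theorem Cyc.krylov {x : End F V} (h : Cyc x) {n : ℕ} (hn : finrank F V = n) :
    ∃ (b : Basis (Fin n) F V) (v : V), ∀ i, b i = (x ^ i.1) v := by
  classical
  obtain ⟨φ, hφ⟩ := h
  obtain ⟨v, hv⟩ := exists_dual hn (fun j => φ ∘ₗ x ^ j) (fun v hv => obs_zero hφ (hn ▸ hv))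
    fun j => if j + 1 = n then 1 else 0
  have h1 : LinearIndependent F fun i : Fin n => (x ^ i.1) v := by
    refine Fintype.linearIndependent_iff.2 fun c hc => by_contra fun h2 => ?_
    obtain ⟨i, hi, h3⟩ := Finset.exists_max_image (Finset.univ.filter fun i => c i ≠ 0) (fun i => i)
      (by simpa [Finset.Nonempty] using h2)
    have h4 := congrArg (φ ∘ₗ x ^ (n - 1 - i)) hc
    rw [map_sum, map_zero, Finset.sum_eq_single i] at h4
    · have := hv (n - 1 - i + i) (by omega)
      rw [if_pos (by omega), pow_add] at this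
      rw [map_smul, show (φ ∘ₗ x ^ (n - 1 - i)) ((x ^ i.1) v) = 1 from this] at h4
      simp at hi h4
      exact hi h4
    · intro j _ hj
      by_cases h5 : c j = 0
      · simp [h5]
      have h6 : j ≤ i := h3 j (by simpa using h5)
      have h7 : j.1 < i.1 := lt_of_le_of_ne h6 fun e => hj (Fin.ext e)
      have := hv (n - 1 - i + j) (by omega)
      rw [if_neg (by omega), pow_add] at this
      rw [map_smul, show (φ ∘ₗ x ^ (n - 1 - i)) ((x ^ j.1) v) = 0 from this, smul_zero]
    · simp
  exact ⟨Basis.mk h1 (h1.span_eq_top_of_card_eq_finrank' (by simp [hn])).ge, v,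
    fun i => Basis.mk_apply _ _ i⟩

end Cfsg.Agent.COV
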