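import Cfsg.Agent.COV.Dec
import Cfsg.Agent.COV.Flag

/-! Products of a cyclic class and a non-scalar map. -/

set_option autoImplicit false

namespace Cfsg.Agent.COV

open Module LinearMap H67

universe u

variable {F : Type u} [Field F] {V W : Type u} [AddCommGroup V] [Module F V] [AddCommGroup W]
  [Module F W]

theorem TI.two {x : End F V} (h : TI V x) : 2 ≤ finrank F V := by
  induction h with
  | base V x h h2 => exact h2
  | step V x W x₁ Q x₂ h h₁ h₂ h2 ih =>
    haveI := Module.finite_of_finrank_pos (R := F) (M := W) (by omega)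
    haveI := Module.finite_of_finrank_pos (R := F) (M := Q) (by omega)
    rw [h.finrank_eq, finrank_prod]
    omega

theorem TI.fd {x : End F V} (h : TI V x) : FiniteDimensional F V :=
  Module.finite_of_finrank_pos (by have := h.two; omega)

theorem TI.hf {x : End F V} (h : TI V x) :
    HF x (finrank F V) fun i => i ≠ 1 ∧ i + 1 ≠ finrank F V := by
  induction h with
  | base V x h h2 =>
    haveI := Module.finite_of_finrank_pos (R := F) (M := V) (by omega)
    exact (h.hf rfl).mono fun _ _ _ => False.elim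
  | step V x W x₁ Q x₂ h h₁ h₂ h2 ih =>
    haveI := h₁.fd
    haveI := Module.finite_of_finrank_pos (R := F) (M := Q) (by omega)
    have := h₁.two
    rw [h.finrank_eq, finrank_prod]
    exact ((ih.prod (h₂.hf rfl)).sim h.symm).mono fun i _ _ h => by
      simp only [and_false, or_false] at h
      omega

variable [FiniteDimensional F V] [FiniteDimensional F W]

theorem hf_top {g : End F V} (h : ¬ Sc g) : HF g (finrank F V) fun i => i + 1 ≠ finrank F V := by
  obtain ⟨U, _, _, _, x₀, t, c, h1, h2⟩ := dec g h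
  have := h1.two
  rw [h2.finrank_eq, finrank_prod, add_comm]
  exact (((hf_scalar c rfl).prod h1.hf).sim (h2.trans (sim_swap _ _)).symm).mono fun i _ _ h => by
    omega

theorem hi_top {y : End F V} (h : ¬ Sc y) (h0 : LinearMap.det y ≠ 0) :
    HI y (finrank F V) fun i => i + 1 ≠ finrank F V := by
  obtain ⟨g, hg⟩ := exists_inv h0
  refine ⟨g, hg, hf_top ?_⟩
  rintro ⟨c, rfl⟩
  rw [mul_smul_comm, mul_one] at hg
  rcases eq_or_ne c 0 with rfl | hc
  · exact h ⟨0, by rw [← mul_one y, ← hg]; simp⟩
  · exact h ⟨c⁻¹, by rw [← hg, smul_smul, inv_mul_cancel₀ hc, one_smul]⟩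

theorem two_le_of_not_sc {y : End F V} (h : ¬ Sc y) : 2 ≤ finrank F V := by
  obtain ⟨U, _, _, _, x₀, t, c, h1, h2⟩ := dec y h
  have := h1.two
  rw [h2.finrank_eq, finrank_prod]
  omega

theorem l2 {a y : End F V} {b : End F W} (ha : Cyc a) (ha0 : LinearMap.det a ≠ 0) (hy : ¬ Sc y)
    (hy0 : LinearMap.det y ≠ 0) (hb : Nice b) (hn : finrank F W = finrank F V)
    (hd : LinearMap.det b = LinearMap.det a * LinearMap.det y) {t : F} (ht : t ≠ 0) :
    ∃ P : V ≃ₗ[F] V, (3 ≤ finrank F V → LinearMap.det (P : End F V) = t) ∧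
      Sim b (P.conj a * y) := by
  have := two_le_of_not_sc hy
  exact l2plus (ha.hf rfl) (hi_top hy hy0) ha0 (fun _ _ _ => False.elim) (fun h => h)
    (by omega) this hb hn hd ht

end Cfsg.Agent.COV
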