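import Cfsg.Agent.COV.Co

/-! The product of two classes in Hessenberg position contains every nice class. -/

set_option autoImplicit false

namespace Cfsg.Agent.COV

open Module LinearMap H67

universe u

variable {F : Type u} [Field F] {V W : Type u} [AddCommGroup V] [Module F V] [AddCommGroup W]
  [Module F W]

/-- no non-zero invariant subspace in the kernel -/
def Obs (f : End F V) (φ : Dual F V) : Prop :=
  ∀ X : Submodule F V, X ≤ ker φ → (∀ v ∈ X, f v ∈ X) → X = ⊥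

theorem Obs.eig {f : End F V} {φ : Dual F V} (h : Obs f φ) {w : V} {μ : F} (h1 : f w = μ • w)
    (h2 : φ w = 0) : w = 0 :=
  (h (F ∙ w) ((Submodule.span_singleton_le_iff_mem _ _).2 h2) fun v hv => by
    obtain ⟨s, rfl⟩ := Submodule.mem_span_singleton.1 hv
    rw [map_smul, h1]
    exact Submodule.smul_mem _ _ (Submodule.smul_mem _ _ (Submodule.mem_span_singleton_self w))).le
    (Submodule.mem_span_singleton_self w)

theorem Obs.eig2 {f : End F V} {χ φ : Dual F V} (h : Obs f χ) {β : F} {e : V} (h1 : f e = β • e)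
    (h3 : φ e = 1) (v : V) (h4 : φ v = 0) (h5 : f v = β • v) : v = 0 := by
  have h6 : χ e ≠ 0 := fun h0 => by simp [h.eig h1 h0] at h3
  have h7 := h.eig (w := χ e • v - χ v • e) (μ := β) (by simp [h1, h5, smul_sub, smul_comm β])
    (by simp [mul_comm])
  have h8 : χ v = 0 := by simpa [h3, h4] using congrArg φ h7
  simpa [h8, h6] using h7

variable [FiniteDimensional F V] [FiniteDimensional F W]

theorem inj_of_det {f : End F V} (h : LinearMap.det f ≠ 0) (v : V) (hv : f v = 0) : v = 0 := by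
  obtain ⟨P, rfl⟩ := exists_equiv h
  exact P.map_eq_zero_iff.1 hv

theorem Obs.exists_co {f : End F V} {φ : Dual F V} (h : Obs f φ) {n : ℕ} (hn : finrank F V = n) :
    ∃ c : Co F V n, Hess c f ∧ (∀ i, i + 1 < n → lk c f i = 1) ∧ c.ε (n - 1) = φ := by
  obtain ⟨c, hc⟩ := COV.exists_co hn (fun j => φ ∘ₗ f ^ (n - 1 - j)) fun v hv =>
    obs_zero h fun i hi => by simpa [show n - 1 - (n - 1 - i) = i by omega] using hv (n - 1 - i) (by omega)
  have h1 : ∀ j v, j + 1 < n → c.ε (j + 1) (f v) = c.ε j v := fun j v hj => by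
    simp only [hc, comp_apply, show n - 1 - j = n - 1 - (j + 1) + 1 by omega, pow_succ, End.mul_apply]
  refine ⟨c, fun i v hv => Co.mem_fl.2 fun j h2 h3 => ?_, fun i hi => ?_, by simp [hc, End.one_eq_id]⟩
  · obtain ⟨j, rfl⟩ : ∃ k, j = k + 1 := ⟨j - 1, by omega⟩
    rw [h1 j v h3, Co.eps hv (by omega) (by omega)]
  · rw [lk, h1 _ _ hi, c.eps_e (by omega)]

theorem Obs.ext {f : End F V} {φ : Dual F V} {g : End F W} {ψ : Dual F W} (h : Obs f φ)
    (h' : Obs g ψ) {n : ℕ} (hV : finrank F V = n + 1) (hW : finrank F W = n + 1) :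
    ∃ Q : V ≃ₗ[F] W, (∀ v, ψ (Q v) = φ v) ∧ ∀ v, φ v = 0 → Q (f v) = g (Q v) := by
  obtain ⟨c, c1, c2, c3⟩ := h.exists_co hV
  obtain ⟨d, d1, d2, d3⟩ := h'.exists_co hW
  have key : ∀ k ≤ n, ∃ P : V →ₗ[F] W, Tri c d (k + 1) P (fun _ => 1) ∧
      ∀ v ∈ c.fl k, P (f v) = g (P v) := fun k hk => by
    induction k with
    | zero =>
      obtain ⟨P, h, -⟩ := Tri.step (c := c) (d := d) (P := 0) (δ := fun _ => 1) (k := 0)
        (fun i hi => by omega) n.succ_pos (c.e_mem n.succ_pos) (by simp [c.eps_e n.succ_pos])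
        (d.e_mem n.succ_pos) (by simp [c.eps_e n.succ_pos, d.eps_e n.succ_pos])
      exact ⟨P, h, fun v hv => by simp [Co.fl_zero hv]⟩
    | succ k ih =>
      obtain ⟨P, h1, h2⟩ := ih (by omega)
      have hk' : k < n + 1 := by omega
      have h3 := h1 k k.lt_succ_self _ (c.e_mem hk')
      have h4 : c.ε (k + 1) (f (c.e k)) = 1 := c2 k (by omega)
      obtain ⟨Q, h5, h6, h7⟩ := h1.step (by omega) (c1 _ _ (c.e_mem hk')) (by simp [h4])
        (d1 _ _ h3.1) (by rw [d1.eps (by omega) h3.1, h3.2, h4, d2 k (by omega), c.eps_e hk']; simp)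
      refine ⟨Q, h5, fun v hv => ?_⟩
      have h8 := Co.sub_mem hv (c.e_mem hk') (by simp [c.eps_e hk'])
      have h9 := h2 _ h8
      rw [← h7 _ (c1 _ _ h8)] at h9
      simp only [map_sub, map_smul, h6, sub_left_inj] at h9
      rw [h9, h7 v hv]
  obtain ⟨P, h1, h2⟩ := key n le_rfl
  obtain ⟨Q, rfl⟩ := h1.equiv (fun _ => one_ne_zero) (hV.trans hW.symm)
  refine ⟨Q, fun v => ?_, fun v hv => h2 v (Co.fl_of_succ (Co.fl_top le_rfl) (c3 ▸ hv))⟩
  simpa [← c3, ← d3] using (h1 n n.lt_succ_self v (Co.fl_top le_rfl)).2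

theorem nice_ext {b b' : End F V} {β : F} {e : V} {φ : Dual F V}
    (h2 : ∀ v, φ (b v) = β * φ v) (h3 : φ e = 1) (hi : ∀ v, φ v = 0 → b v = β • v → v = 0)
    (h0 : LinearMap.det b ≠ 0) (h4 : ∀ v, φ v = 0 → b' v = b v)
    (h5 : LinearMap.det b' = LinearMap.det b) : Sim b b' ∧ ∀ v, φ (b' v) = β * φ v := by
  obtain ⟨B, rfl⟩ := exists_equiv h0
  have h6 : ∀ v, b' v = B v + φ v • (b' e - B e) := fun v => by
    have := h4 (v - φ v • e) (by simp [h3])
    simp only [map_sub, map_smul, LinearEquiv.coe_coe] at this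
    linear_combination (norm := module) this
  generalize b' e - B e = w at h6
  have h7 : b' = B ∘ₗ LinearMap.transvection φ (B.symm w) :=
    LinearMap.ext fun v => by simp [h6, LinearMap.transvection.apply]
  have h8 : φ w = 0 := by
    rw [h7, det_comp, LinearMap.transvection.det, mul_eq_left₀ h0, add_eq_left] at h5
    simpa [h5] using h2 (B.symm w)
  have h9 : ∀ v, φ ((β • 1 - (B : End F V) + φ.smulRight e) v) = φ v := fun v => by
    simpa [h3] using sub_eq_zero.2 (h2 v).symm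
  obtain ⟨k, hk⟩ := injective_iff_surjective.1 ((injective_iff_map_eq_zero
    (β • 1 - (B : End F V) + φ.smulRight e)).2 fun v hv => by
      have h10 : φ v = 0 := by rw [← h9, hv, map_zero]
      exact hi v h10 (sub_eq_zero.1 (by simpa [h10] using hv)).symm) w
  have h10 : φ k = 0 := by rw [← h9, hk, h8]
  obtain ⟨P, hP⟩ := exists_equiv (x := LinearMap.transvection φ k) (by simp [h10])
  refine ⟨⟨P, fun v => ?_⟩, fun v => by simpa [h6, h8] using h2 v⟩
  rw [← LinearEquiv.coe_coe P, hP, h6, ← hk, LinearMap.transvection.apply, h2]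
  simp only [LinearMap.transvection.apply, map_add, map_smul, h10, LinearMap.add_apply,
    LinearMap.sub_apply, LinearMap.smul_apply, End.one_apply, smulRight_apply, LinearEquiv.coe_coe]
  module

theorem l2core {m : ℕ} {a g y : End F V} {c d : Co F V (m + 2)} (hn : finrank F V = m + 2)
    (ha : Hess c a) (hg : Hess d g) (ha0 : LinearMap.det a ≠ 0) (hy : y * g = 1)
    (hl : ∀ i < m, lk c a i ≠ 0 ∨ lk d g i ≠ 0) (h1 : lk c a m ≠ 0) (h2 : lk d g m ≠ 0)
    {b : End F W} {β : F} {e : W} {φ χb : Dual F W} (b0 : Obs b χb) (b1 : b e = β • e)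
    (b2 : ∀ v, φ (b v) = β * φ v) (b3 : φ e = 1) (hW : finrank F W = m + 2)
    (hd : LinearMap.det b = LinearMap.det a * LinearMap.det y) {δ : ℕ → F} (hδ : ∀ i, δ i ≠ 0) :
    ∃ (P : V ≃ₗ[F] V) (r : F), Tri c d (m + 2) P (Function.update δ (m + 1) r) ∧
      r * lk c a m = β * (lk d g m * δ m) ∧ Sim b (P.conj a * y) := by
  have hy1 : ∀ v, y (g v) = v := LinearMap.congr_fun hy
  have hy2 : ∀ v, g (y v) = v := LinearMap.congr_fun (mul_eq_one_comm.1 hy)
  have hb0 : LinearMap.det b ≠ 0 := hd ▸ mul_ne_zero ha0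
    (left_ne_zero_of_mul_eq_one (by rw [← map_mul, hy, map_one]))
  have hβ : β ≠ 0 := fun h => by simp [inj_of_det hb0 e (by rw [b1, h, zero_smul])] at b3
  have hm : m + 1 < m + 2 := by omega
  have hm' : m < m + 2 := by omega
  obtain ⟨P, p1, p2⟩ := splus ha hg (inj_of_det ha0) hδ hm' hl
  obtain ⟨Q₀, q1, -, q2⟩ := p1.step hm (c.e_mem hm) (by simp [c.eps_e hm])
    (Submodule.smul_mem _ (δ (m + 1)) (d.e_mem hm)) (by simp [c.eps_e hm, d.eps_e hm])
  obtain ⟨Q₀, rfl⟩ := q1.equiv hδ rfl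
  simp only [LinearEquiv.coe_coe] at q2
  set θ := d.ε (m + 1) with hθ
  have hD : ∀ h, θ h = 0 → θ (y h) = 0 → Q₀.symm (y h) ∈ c.fl m := fun h h3 h4 => by
    have h5 := Co.fl_of_succ (Co.fl_top le_rfl) h4
    have h6 := hg.eps hm h5
    rw [hy2, ← hθ, h3, eq_comm, mul_eq_zero] at h6
    exact q1.mem_inv hδ le_rfl (Co.fl_top le_rfl) (by simpa using Co.fl_of_succ h5 (h6.resolve_left h2))
  let f : End F V := Q₀.conj a * y + (θ ∘ₗ y - θ ∘ₗ (Q₀.conj a * y)).smulRight (d.e (m + 1))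
  have f1 : ∀ v, θ (f v) = θ (y v) := fun v => by simp [f, hθ, d.eps_e hm]
  have f2 : ∀ h, θ h = 0 → θ (y h) = 0 → f h = Q₀ (a (Q₀.symm (y h))) := fun h h3 h4 => by
    have := Co.eps (q1.mem (by omega) (ha _ _ (hD h h3 h4))) le_rfl hm
    simp only [LinearEquiv.coe_coe, ← hθ] at this
    simp [f, h4, this]
  have f3 : Obs f θ := fun X h3 h4 => by
    have h5 : ∀ h ∈ X, θ (y h) = 0 := fun h hh => (f1 h).symm.trans (h3 (h4 h hh))
    have h6 := p2 (X.map (Q₀.symm.toLinearMap ∘ₗ y)) (by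
      rintro _ ⟨h, hh, rfl⟩; exact hD h (h3 hh) (h5 h hh)) (by
      rintro _ ⟨h, hh, rfl⟩
      refine ⟨_, ⟨_, h4 h hh, rfl⟩, ?_⟩
      have h7 := h4 h hh
      simp only [comp_apply, LinearEquiv.coe_coe]
      rw [← q2 _ (ha _ _ (hD h (h3 hh) (h5 h hh))), ← q2 _ (Co.fl_mono (hD _ (h3 h7) (h5 _ h7))
        m.le_succ), Q₀.apply_symm_apply, hy2, f2 h (h3 hh) (h5 h hh)])
    refine eq_bot_iff.2 fun h hh => ?_
    have h7 : y h = 0 := by simpa using h6.le ⟨h, hh, rfl⟩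
    rw [← hy2 h, h7, map_zero]
    exact zero_mem _
  have f4 : Obs (b + χb.smulRight e) φ := fun X h3 h4 => by
    have h5 : ∀ v ∈ X, χb v = 0 := fun v hv => by
      simpa [b2, b3, show φ v = 0 from h3 hv] using h3 (h4 v hv)
    exact b0 X h5 fun v hv => by simpa [h5 v hv] using h4 v hv
  obtain ⟨Q, k1, k2⟩ := f4.ext f3 hW hn
  have k3 : ∀ h, θ h = 0 → θ (y h) = 0 → Q.conj b h = Q₀ (a (Q₀.symm (y h))) := fun h h3 h4 => by
    obtain ⟨v, rfl⟩ := Q.surjective h
    have h5 := k2 v ((k1 v).symm.trans h3)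
    have h6 : χb v = 0 := by
      simpa [k1, b2, b3, f1, h4, (k1 v).symm.trans h3] using congrArg θ h5
    rw [← f2 _ h3 h4, ← h5]
    simp [h6]
  have k4 : ∀ v, θ (Q.conj b v) = β * θ v := fun v => by simp [k1, b2, ← k1 (Q.symm v)]
  have k5 : LinearMap.det (Q.conj b) = LinearMap.det b := (sim_conj Q b).det_eq.symm
  obtain ⟨B, hB⟩ := exists_equiv (k5.trans_ne hb0)
  obtain ⟨u, u1, u2⟩ : ∃ u, c.ε (m + 1) u = 1 ∧ c.ε (m + 1) (a u) = 0 :=
    ⟨c.e (m + 1) - (c.ε (m + 1) (a (c.e (m + 1))) / lk c a m) • c.e m,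
      by simp [c.eps_e hm, c.dual m hm' _ hm], by
        rw [map_sub, map_sub, map_smul, map_smul, ← lk, smul_eq_mul, div_mul_cancel₀ _ h1, sub_self]⟩
  replace u2 := Co.fl_of_succ (Co.fl_top le_rfl) u2
  obtain ⟨h₀, hh⟩ : ∃ h₀, Q.conj b h₀ = Q₀ (a u) := hB ▸ B.surjective _
  have u3 : θ h₀ = 0 := (mul_eq_zero.1 ((k4 h₀).symm.trans
    (hh ▸ Co.eps (q1.mem (by omega) u2) le_rfl hm))).resolve_left hβ
  have u4 : θ (y h₀) ≠ 0 := fun h => by
    have h3 := Q₀.injective (hh.symm.trans (k3 h₀ u3 h))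
    rw [← sub_eq_zero, ← map_sub] at h3
    rw [sub_eq_zero.1 (inj_of_det ha0 _ h3), Co.eps (hD h₀ u3 h) m.le_succ hm] at u1
    exact zero_ne_one u1
  have hδ' : ∀ i, Function.update δ (m + 1) (θ (y h₀)) i ≠ 0 := fun i => by
    rw [Function.update_apply]; split_ifs; exacts [u4, hδ i]
  obtain ⟨P₁, r1, r2, r3⟩ := Tri.step (δ := Function.update δ (m + 1) (θ (y h₀))) (P := P)
    (fun i hi v hv => by rw [Function.update_of_ne hi.ne]; exact p1 i hi v hv) hm
    (Co.fl_top le_rfl) (u1.trans_ne one_ne_zero) (w := y h₀) (Co.fl_top le_rfl) (by simp [u1, hθ])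
  obtain ⟨P₁, rfl⟩ := r1.equiv hδ' rfl
  simp only [LinearEquiv.coe_coe] at r2 r3
  obtain ⟨s1, s2⟩ := nice_ext (b' := P₁.conj a * y) (e := Q e) k4 ((k1 e).trans b3)
    (fun v h3 h4 => by
      obtain ⟨v, rfl⟩ := Q.surjective v
      rw [b0.eig2 b1 b3 v ((k1 v).symm.trans h3) (Q.injective (by simpa using h4)), map_zero])
    (k5.trans_ne hb0) (fun h h3 => by
      have h4 : θ (h - (θ (y h) / θ (y h₀)) • h₀) = 0 := by simp [h3, u3]
      have h5 : θ (y (h - (θ (y h) / θ (y h₀)) • h₀)) = 0 := by simp [u4]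
      have h6 := hD _ h4 h5
      have h7 : (P₁.conj a * y) (h - (θ (y h) / θ (y h₀)) • h₀) =
          Q.conj b (h - (θ (y h) / θ (y h₀)) • h₀) := by
        rw [k3 _ h4 h5, q2 _ (ha _ _ h6), ← r3 _ (ha _ _ h6), End.mul_apply, LinearEquiv.conj_apply_apply,
          P₁.symm_apply_eq.2 (by rw [r3 _ (Co.fl_mono h6 m.le_succ), ← q2 _ (Co.fl_mono h6 m.le_succ),
            Q₀.apply_symm_apply])]
      have h8 : (P₁.conj a * y) h₀ = Q.conj b h₀ := by
        rw [hh, End.mul_apply, ← r2, LinearEquiv.conj_apply_apply, P₁.symm_apply_apply, r3 _ u2, q2 _ u2]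
      rwa [map_sub, map_sub, map_smul, map_smul, h8, sub_left_inj] at h7)
    (by rw [k5, hd, map_mul, ← (sim_conj P₁ a).det_eq])
  refine ⟨P₁, _, r1, ?_, (sim_conj Q b).trans s1⟩
  have h3 := s2 (g (P₁ (c.e m)))
  have h4 := r1 m hm' _ (c.e_mem hm')
  have h5 := (r1 (m + 1) hm _ (ha _ _ (c.e_mem hm'))).2
  simp only [LinearEquiv.coe_coe, Function.update_self, ← hθ, ← lk.eq_1,
    Function.update_of_ne m.lt_succ_self.ne, c.eps_e hm', mul_one] at h4 h5
  rwa [End.mul_apply, hy1, LinearEquiv.conj_apply_apply, P₁.symm_apply_apply, h5, hθ, hg.eps hm h4.1,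
    h4.2] at h3

end Cfsg.Agent.COV
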