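import Cfsg.Agent.COV.Defs

/-! Scalar multiples of simple maps (see notes/COV.md). -/

set_option autoImplicit false

namespace Cfsg.Agent.COV

open Module LinearMap H67

universe u

variable {F : Type u} [Field F] {V W : Type u} [AddCommGroup V] [Module F V] [AddCommGroup W]
  [Module F W] [FiniteDimensional F V] [FiniteDimensional F W]

namespace Rank1

omit [FiniteDimensional F V] in
theorem two {f g : Dual F V} (hf : f ≠ 0) (hg : g ≠ 0) : ∃ v, f v = 1 ∧ g v ≠ 0 := by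
  obtain ⟨a, ha⟩ := DFunLike.ne_iff.1 hf
  obtain ⟨b, hb⟩ := DFunLike.ne_iff.1 hg
  replace ha : f a ≠ 0 := ha
  replace hb : g b ≠ 0 := hb
  by_cases h : g a = 0
  · exact ⟨b + ((1 - f b) * (f a)⁻¹) • a, by simp [ha], by simpa [h] using hb⟩
  · exact ⟨(f a)⁻¹ • a, by simp [ha], by simp [h, ha]⟩

theorem sim1 {φ φ' : Dual F V} {e : V} (h1 : φ ≠ 0) (h2 : φ' ≠ 0) (h : φ e = φ' e) :
    Sim (transvection φ e) (transvection φ' e) := by
  obtain ⟨v, h3, h4⟩ := two h2 h1
  obtain ⟨P, hP⟩ := exists_equiv (x := transvection (φ - φ') v) (by simpa [h3] using h4)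
  refine ⟨P, fun w => ?_⟩
  rw [← LinearEquiv.coe_coe, hP]
  simp [transvection.apply, h, h3]
  module

theorem sim2 {φ φ' : Dual F V} {e e' : V} (h1 : φ ≠ 0) (h2 : φ' ≠ 0) (h3 : e ≠ 0) (h4 : e' ≠ 0)
    (h : φ e = φ' e') : Sim (transvection φ e) (transvection φ' e') := by
  obtain ⟨χ, h5, h6⟩ := two ((map_ne_zero_iff _ (eval_apply_injective F)).2 h3)
    ((map_ne_zero_iff _ (eval_apply_injective F)).2 h4)
  rw [Dual.eval_apply] at h5 h6
  obtain ⟨P, hP⟩ := exists_equiv (x := transvection χ (e' - e)) (by simpa [h5] using h6)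
  have h7 : P e = e' := by rw [← LinearEquiv.coe_coe, hP]; simp [transvection.apply, h5]
  refine Sim.trans (S := transvection (φ ∘ₗ P.symm.toLinearMap) e') ⟨P, fun w => ?_⟩
    (sim1 (fun h0 => h1 (LinearMap.ext fun w => ?_)) h2 ?_)
  · simp [transvection.apply, h7]
  · simpa using LinearMap.congr_fun h0 (P w)
  · rw [← h, ← h7]; simp

theorem rk1 {U : Submodule F V} {g : End F V} (hU : finrank F U = 1) (h : ∀ v, g v - v ∈ U) :
    ∃ φ e, e ≠ 0 ∧ g = transvection φ e := by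
  obtain ⟨e, he, h'⟩ := finrank_eq_one_iff'.1 hU
  have he' : (e : V) ≠ 0 := fun h => he (Subtype.ext h)
  obtain ⟨χ, hχ⟩ := Projective.exists_dual_eq_one F he'
  refine ⟨χ ∘ₗ (g - 1), e, he', LinearMap.ext fun v => ?_⟩
  obtain ⟨a, ha⟩ := h' ⟨_, h v⟩
  have ha : a • (e : V) = g v - v := congrArg Subtype.val ha
  rw [transvection.apply, LinearMap.comp_apply, LinearMap.sub_apply, End.one_apply, ← ha, map_smul, hχ,
    smul_eq_mul, mul_one, ha, add_sub_cancel]

theorem hyp {U : Submodule F V} {ψ : Dual F V} {e : V} (he : e ∈ U) (h : ψ e ≠ 0) :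
    finrank F ↥(U ⊓ ker ψ) + 1 = finrank F U := by
  rw [← Dual.finrank_ker_add_one_of_ne_zero (f := ψ ∘ₗ U.subtype)
    (fun h0 => h (LinearMap.congr_fun h0 ⟨e, he⟩)), ker_comp, ← Submodule.map_comap_subtype,
    Submodule.finrank_map_subtype_eq]

/-- a product of `k` conjugates of `r`, or the identity in the case of transvections -/
def Q (r : End F V) (α : F) (k : ℕ) (g : End F V) : Prop := In False r k g ∨ (α = 1 ∧ g = 1)

variable {r g : End F V} {α : F} {k : ℕ}

omit [FiniteDimensional F V] in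
theorem pad (h2 : In False r 2 r) (h : In False r (k + 1) g) (m : ℕ) : In False r (k + m + 1) g := by
  induction m with
  | zero => exact h
  | succ m ih =>
    obtain ⟨a, b, h1, h3, rfl⟩ := ih
    exact (h2.sc h1).mul h3

omit [FiniteDimensional F V] in
theorem Q.step (hs : ∀ (φ : Dual F V) e, φ ≠ 0 → e ≠ 0 → φ e = α - 1 → Sim r (transvection φ e))
    (h2 : α = 1 → In False r 2 r) (hQ : Q r α k g) {φ : Dual F V} {e : V} (he : e ≠ 0)
    (hφ : φ e = α - 1) : Q r α (k + 1) (g * transvection φ e) := by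
  by_cases h0 : φ = 0
  · subst h0
    have ha : α = 1 := (sub_eq_zero.1 hφ.symm)
    rw [transvection.of_left_eq_zero, ← End.one_eq_id, mul_one]
    rcases hQ with h | h
    · cases k with
      | zero => exact Or.inr ⟨ha, h⟩
      | succ k => exact Or.inl (pad (h2 ha) h 1)
    · exact Or.inr h
  have h1 : In False r 1 (transvection φ e) := In.one (sc_false.2 (hs φ e h0 he hφ))
  rcases hQ with h | ⟨ha, rfl⟩
  · exact Or.inl (add_comm 1 k ▸ h.mul h1)
  · exact Or.inl (by simpa using pad (h2 ha) h1 k)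

theorem ind (hα : α ≠ 0) (hs : ∀ (φ : Dual F V) e, φ ≠ 0 → e ≠ 0 → φ e = α - 1 → Sim r (transvection φ e))
    (h2 : α = 1 → In False r 2 r) (d : ℕ) (U : Submodule F V) (g : End F V) (hU : finrank F U = d)
    (hg : ∀ v, g v - v ∈ U) (hd : LinearMap.det g = α ^ d)
    (h : (∃ u ∈ U, ∀ c : F, g u ≠ c • u) ∨ (∀ u ∈ U, g u = α • u) ∨ d ≤ 1) : Q r α d g := by
  induction d generalizing U g with
  | zero =>
    rw [Submodule.finrank_eq_zero.1 hU] at hg
    exact Or.inl (LinearMap.ext fun v => sub_eq_zero.1 (hg v))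
  | succ d ih =>
  have gU : ∀ u ∈ U, g u ∈ U := fun u hu => by simpa using U.add_mem (hg u) hu
  have key : ∀ (ψ : Dual F V) (e : V), e ∈ U → ψ e = 1 → ψ (g e) = α →
      ((∃ u ∈ U ⊓ ker ψ, ∀ c : F, g u - (α⁻¹ * ψ (g u)) • g e ≠ c • u) ∨
        (∀ u ∈ U ⊓ ker ψ, g u - (α⁻¹ * ψ (g u)) • g e = α • u) ∨ d ≤ 1) → Q r α (d + 1) g := by
    intro ψ e he h3 h4 h5
    obtain ⟨g', hg'⟩ : ∃ g' : End F V, ∀ v, g' v = g v - (α⁻¹ * (ψ (g v) - ψ v)) • g e :=
      ⟨g - (α⁻¹ • (ψ ∘ₗ g - ψ)).smulRight (g e), fun v => rfl⟩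
    have e1 : (ψ ∘ₗ g - ψ) e = α - 1 := by simp [h3, h4]
    have e2 : g = g' * transvection (ψ ∘ₗ g - ψ) e := LinearMap.ext fun v => by
      rw [End.mul_apply, transvection.apply, map_add, map_smul, hg', hg', h3, h4]
      simp only [LinearMap.sub_apply, LinearMap.comp_apply]
      match_scalars <;> field_simp <;> ring
    have e3 : ∀ u ∈ U ⊓ ker ψ, g' u = g u - (α⁻¹ * ψ (g u)) • g e := fun u hu => by
      rw [hg', show ψ u = 0 from hu.2, sub_zero]
    rw [e2]
    refine (ih (U ⊓ ker ψ) g' (by have := hyp he (h3.trans_ne one_ne_zero); omega) (fun v => ⟨?_, ?_⟩) ?_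
      (h5.imp (fun ⟨u, hu, h⟩ => ⟨u, hu, by rwa [e3 u hu]⟩) (Or.imp_left fun h u hu => by
        rw [e3 u hu, h u hu]))).step hs h2 (fun h => by simp [h] at h3) e1
    · rw [hg', sub_right_comm]; exact U.sub_mem (hg v) (U.smul_mem _ (gU e he))
    · show ψ (g' v - v) = 0
      rw [hg', map_sub, map_sub, map_smul, h4, smul_eq_mul]; field_simp; ring
    · rw [e2, map_mul, transvection.det, e1, add_sub_cancel, pow_succ] at hd
      exact mul_right_cancel₀ hα hd
  rcases h with ⟨u, hu, h⟩ | h | h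
  · obtain ⟨χ, h3, h4⟩ := (Submodule.span F {u}).exists_dual_map_eq_bot_of_notMem (x := g u)
      (fun h' => by obtain ⟨c, hc⟩ := Submodule.mem_span_singleton.1 h'; exact h c hc.symm) inferInstance
    have h5 : χ u = 0 := h4.le (Submodule.mem_map_of_mem (Submodule.mem_span_singleton_self u))
    obtain ⟨ψ, h6, h7⟩ : ∃ ψ : Dual F V, ψ u = 0 ∧ ψ (g u) = 1 :=
      ⟨(χ (g u))⁻¹ • χ, by simp [h5], by simp [h3]⟩
    obtain ⟨e, he, e1, e2⟩ : ∃ e ∈ U, ψ e = 1 ∧ ψ (g e) = α :=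
      ⟨g u + (α - ψ (g (g u))) • u, U.add_mem (gU u hu) (U.smul_mem _ hu), by simp [h6, h7], by simp [h7]⟩
    by_cases n : d ≤ 1
    · exact key ψ e he e1 e2 (Or.inr (Or.inr n))
    by_cases m : ∃ u ∈ U ⊓ ker ψ, ∀ c : F, g u - (α⁻¹ * ψ (g u)) • g e ≠ c • u
    · exact key ψ e he e1 e2 (Or.inl m)
    push Not at m
    have f1 := hyp he (e1.trans_ne one_ne_zero)
    have f2 := hyp (U := U ⊓ ker ψ) (ψ := ψ ∘ₗ g) ⟨hu, h6⟩ (h7.trans_ne one_ne_zero)
    obtain ⟨w, hw, w0⟩ := Submodule.exists_mem_ne_zero_of_ne_bot (p := (U ⊓ ker ψ) ⊓ ker (ψ ∘ₗ g))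
      fun h0 => by rw [h0, finrank_bot] at f2; omega
    have w1 : ψ w = 0 := hw.1.2
    have w2 : ψ (g w) = 0 := hw.2
    refine key ψ (e + w) (U.add_mem he hw.1.1) (by simp [e1, w1]) (by simp [e2, w2])
      (Or.inl ⟨u, ⟨hu, h6⟩, fun c hc => ?_⟩)
    obtain ⟨a, ha⟩ := m u ⟨hu, h6⟩
    obtain ⟨b, hb⟩ := m w hw.1
    rw [w2, mul_zero, zero_smul, sub_zero] at hb
    rw [h7, mul_one] at ha hc
    have inj := ker_eq_bot.1 ((isUnit_iff_ker_eq_bot g).1 ((isUnit_iff_isUnit_det g).2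
      (hd.trans_ne (pow_ne_zero _ hα)).isUnit))
    have h8 : (α⁻¹ * b) • w = (a - c) • u := by
      rw [map_add, hb] at hc
      linear_combination (norm := module) ha - hc
    have h9 := congrArg (fun v => ψ (g v)) h8
    simp only [map_smul, w2, h7, smul_eq_mul, mul_zero, mul_one] at h9
    rw [← h9, zero_smul, smul_eq_zero, mul_eq_zero, inv_eq_zero] at h8
    rw [((h8.resolve_right w0).resolve_left hα), zero_smul] at hb
    exact w0 (inj (hb.trans (map_zero g).symm))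
  · obtain ⟨e, he, e0⟩ := Submodule.exists_mem_ne_zero_of_ne_bot (p := U)
      fun h0 => by rw [h0, finrank_bot] at hU; omega
    obtain ⟨ψ, hψ⟩ := Projective.exists_dual_eq_one F e0
    exact key ψ e he hψ (by simp [h e he, hψ]) (Or.inr (Or.inl fun u hu => by
      simp [h u hu.1, show ψ u = 0 from hu.2]))
  · obtain rfl : d = 0 := by omega
    obtain ⟨φ, e, he, rfl⟩ := rk1 hU hg
    rw [transvection.det, zero_add, pow_one] at hd
    exact one_mul (transvection φ e) ▸ Q.step (k := 0) hs h2 (Or.inl rfl) he (eq_sub_of_add_eq' hd)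

end Rank1

open Rank1

theorem cov_rank1 (hq : 4 ≤ Nat.card F) {x : End F V} {c : F} (hc : c ≠ 0)
    (hd : LinearMap.det x ≠ 0) (hr : finrank F (range (x - c • 1)) = 1) (hn : 2 ≤ finrank F V) :
    Cov False x := by
  obtain ⟨φ, e, he, h⟩ := rk1 (g := c⁻¹ • x) hr fun v => ⟨c⁻¹ • v, by simp [smul_sub, smul_smul, hc]⟩
  have hx : x = c • transvection φ e := by rw [← h, smul_inv_smul₀ hc]
  have h0 : φ ≠ 0 := fun h0 => by
    rw [hx, h0, transvection.of_left_eq_zero, ← End.one_eq_id, sub_self, range_zero, finrank_bot] at hr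
    exact zero_ne_one hr
  have e1 : LinearMap.det x = c ^ finrank F V * (1 + φ e) := by rw [hx, det_smul, transvection.det]
  have hα : 1 + φ e ≠ 0 := right_ne_zero_of_mul (e1 ▸ hd)
  have hs : ∀ (φ' : Dual F V) e', φ' ≠ 0 → e' ≠ 0 → φ' e' = 1 + φ e - 1 →
      Sim (transvection φ e) (transvection φ' e') :=
    fun φ' e' h1 h2 h3 => sim2 h0 h1 he h2 (by rw [h3, add_sub_cancel_left])
  have h1 : 1 + φ e = 1 → ∀ s t : F, s ≠ 0 → t ≠ 0 →
      In False (transvection φ e) 2 (transvection ((s + t) • φ) e) := fun h s t h1 h2 => by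
    have h3 : φ e = 0 := by simpa using h
    rw [add_smul, ← transvection.comp_of_right_eq (by simp [h3])]
    exact In.cons (sc_false.2 (hs _ _ (smul_ne_zero h1 h0) he (by simp [h3])))
      (In.one (sc_false.2 (hs _ _ (smul_ne_zero h2 h0) he (by simp [h3]))))
  have h2 : 1 + φ e = 1 → In False (transvection φ e) 2 (transvection φ e) := fun h => by
    obtain ⟨s, s0, s1, -⟩ := big hq 0 1 1
    simpa using h1 h s (1 - s) s0 (sub_ne_zero.2 s1.symm)
  have h3 : ∀ g, Q (transvection φ e) (1 + φ e) (finrank F V) g →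
      In False x (finrank F V) (c ^ finrank F V • g) := fun g hg => by
    refine hx ▸ In.smul (hg.elim id fun ⟨h, hg⟩ => ?_) c
    have := pad (h2 h) (h1 h 1 (-1) one_ne_zero (by simp)) (finrank F V - 2)
    rwa [add_neg_cancel, zero_smul, transvection.of_left_eq_zero, ← End.one_eq_id, ← hg,
      show 1 + (finrank F V - 2) + 1 = finrank F V by omega] at this
  have cn := pow_ne_zero (finrank F V) hc
  refine ⟨fun g hg hd => ?_, c ^ finrank F V * (1 + φ e), ?_⟩
  · rw [← smul_inv_smul₀ cn g]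
    refine h3 _ (ind hα hs h2 _ ⊤ _ (finrank_top F V) (fun _ => trivial) ?_ (Or.inl ?_))
    · rw [det_smul, hd, e1, mul_pow, ← mul_assoc, ← mul_pow, inv_mul_cancel₀ cn, one_pow, one_mul]
    · by_contra! n
      refine hg (g.exists_eq_smul_id_of_forall_notLinearIndependent fun v hv => ?_)
      obtain ⟨a, ha⟩ := n v trivial
      exact inv_ne_zero cn (LinearIndependent.pair_iff.1 hv (-a) _ (by rw [neg_smul, ← ha]; simp)).2
  · rw [mul_smul]
    exact h3 _ (ind hα hs h2 _ ⊤ _ (finrank_top F V) (fun _ => trivial) (by simp)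
      (Or.inr (Or.inl fun _ _ => rfl)))

end Cfsg.Agent.COV
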