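import Cfsg.Agent.COV.Core
import Cfsg.Agent.COV.Idt
import Cfsg.Agent.COV.B4
import Cfsg.Agent.COV.Rank1

/-! The covering property for all non-scalar maps of determinant 1. -/

set_option autoImplicit false

namespace Cfsg.Agent.COV

open Module LinearMap H67

universe u

variable {F : Type u} [Field F] {V W U : Type u} [AddCommGroup V] [Module F V] [AddCommGroup W]
  [Module F W] [AddCommGroup U] [Module F U] {s : Prop} {x : End F V} {c : F} {t m : ℕ}

/-- the direct sum with a scalar map -/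
abbrev xt (x : End F V) (c : F) (t : ℕ) : End F (V × (Fin t → F)) := x.prodMap (c • 1)

theorem TI.cases (h : TI V x) : Cyc x ∨ ∃ (W : Type u) (_ : AddCommGroup W) (_ : Module F W)
    (x₁ : End F W) (Q : Type u) (_ : AddCommGroup Q) (_ : Module F Q) (x₂ : End F Q),
      Sim x (x₁.prodMap x₂) ∧ TI W x₁ ∧ Cyc x₂ ∧ 2 ≤ finrank F Q := by
  induction h with
  | base V x h h2 => exact .inl h
  | step V x W x₁ Q x₂ h h₁ h₂ h2 ih => exact .inr ⟨W, _, _, x₁, Q, _, _, x₂, h, h₁, h₂, h2⟩

theorem TI.cyc (h : TI V x) (h3 : finrank F V ≤ 3) : Cyc x := h.cases.resolve_right <| by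
  rintro ⟨W, _, _, x₁, Q, _, _, x₂, h4, h₁, -, h2⟩
  haveI := h₁.fd
  haveI := Module.finite_of_finrank_pos (R := F) (M := Q) (by omega)
  have := h₁.two
  rw [h4.finrank_eq, finrank_prod] at h3
  omega

theorem Sc.left {y : End F W} (h : Sc (x.prodMap y)) : Sc x :=
  h.imp fun _ h => LinearMap.ext fun v => congrArg Prod.fst (LinearMap.congr_fun h (v, 0))

theorem TI.not_sc (h : TI V x) : ¬ Sc x := fun h0 => by
  haveI := h.fd
  rcases h.cases with h1 | ⟨W, _, _, x₁, Q, _, _, x₂, h4, -, h₂, h2⟩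
  · exact h1.not_sc h.two h0
  · haveI := Module.finite_of_finrank_pos (R := F) (M := Q) (by omega)
    exact h₂.not_sc h2 (h0.sim (h4.trans (sim_swap _ _))).left

theorem sim_zero (x : End F V) (c : F) : Sim (xt x c 0) x :=
  ⟨LinearEquiv.prodUnique, fun _ => rfl⟩

theorem sim_cons (x : End F V) (c : F) (t : ℕ) :
    Sim (x.prodMap ((c • 1 : End F F).prodMap (c • 1 : End F (Fin t → F)))) (xt x c (t + 1)) :=
  sim_prod (Sim.refl x) ⟨LinearEquiv.ofFinrankEq _ _ (by simp [add_comm]), fun v => map_smul _ c v⟩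

theorem sim_merge (x : End F V) (c : F) (t : ℕ) :
    Sim (xt (x.prodMap (c • 1 : End F F)) c t) (xt x c (t + 1)) :=
  (sim_assoc x (c • 1 : End F F) (c • 1 : End F (Fin t → F))).trans (sim_cons x c t)

theorem sim_succ (x : End F V) (c : F) (t : ℕ) :
    Sim ((xt x c t).prodMap (c • 1 : End F F)) (xt x c (t + 1)) :=
  ((sim_assoc x (c • 1 : End F (Fin t → F)) (c • 1 : End F F)).trans
    (sim_prod (Sim.refl x) (sim_swap _ _))).trans (sim_cons x c t)

variable [FiniteDimensional F V] [FiniteDimensional F W] [FiniteDimensional F U]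

theorem finrank_xt : finrank F (V × (Fin t → F)) = finrank F V + t := by simp

theorem det_xt (h : LinearMap.det x ≠ 0) (hc : c ≠ 0) (t : ℕ) : LinearMap.det (xt x c t) ≠ 0 := by
  rw [det_prod]
  exact mul_ne_zero h (by simp [hc])

theorem det_xt' (h : LinearMap.det (xt x c (t + 1)) = 1) : LinearMap.det x ≠ 0 ∧ c ≠ 0 := by
  rw [det_prod] at h
  exact ⟨left_ne_zero_of_mul_eq_one h, fun e => by simp [e] at h⟩

theorem ns_xt (x : End F V) (c : F) (t : ℕ) : NS (xt x c (t + 1)) :=
  ns_of_eig (β := c) (e := (0, fun _ => 1)) (φ := proj 0 ∘ₗ snd F V _) (by simp) (by simp) rfl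

theorem pos_step {x₁ : End F W} {x₂ : End F U} (h : Sim x (x₁.prodMap x₂)) (h₁ : TI W x₁)
    (h₂ : Cyc x₂) (h2 : 2 ≤ finrank F U) (c : F) (t : ℕ) : HF (xt x c t) (finrank F (V × (Fin t → F)))
      fun i => i ≠ 1 ∧ i + 1 ≠ finrank F (V × (Fin t → F)) := by
  have h3 := ((h₁.hf.prod (hf_scalar (V := Fin t → F) c (n := t) (by simp))).prod (h₂.hf rfl)).sim
    (((sim_assoc x₁ (c • 1 : End F (Fin t → F)) x₂).trans (sim_prod (Sim.refl x₁) (sim_swap _ _))).trans
      ((sim_assoc x₁ x₂ (c • 1 : End F (Fin t → F))).symm.trans (sim_prod h.symm (Sim.refl _))))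
  have := h₁.two
  rw [h3.finrank]
  exact h3.mono fun i _ _ h => by
    simp only [and_false, or_false, and_true] at h
    omega

theorem TI.pos (h : TI V x) (h3 : 3 ≤ finrank F V) (c : F) (t : ℕ) : Pos (xt x c t) := by
  rcases h.cases with h1 | ⟨W, _, _, x₁, Q, _, _, x₂, h4, h₁, h₂, h2⟩
  · have h4 := ((hf_scalar (V := Fin t → F) c (n := t) (by simp)).prod (h1.hf rfl)).sim (sim_swap _ _)
    refine .inl ?_
    rw [h4.finrank]
    exact h4.mono fun i _ _ h => by
      simp only [and_false, or_false, and_true] at h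
      omega
  · haveI := h₁.fd
    haveI := Module.finite_of_finrank_pos (R := F) (M := Q) (by omega)
    exact .inr (pos_step h4 h₁ h₂ h2 c t)

theorem ind (hq : 4 ≤ Nat.card F) (h : TI V x) (h3 : 3 ≤ finrank F V) (h0 : LinearMap.det x ≠ 0)
    (hc : c ≠ 0) (k : ℕ) : ∀ t m b, In False (xt x c t) m b → Nice b → Av b (c ^ m) →
      2 * m ≤ finrank F V + t → Cov False (xt x c (t + 1 + k)) := by
  have h4 : ∀ t, ¬ Sc (xt x c t) := fun t e => h.not_sc e.left
  have h5 : ∀ t m b, In False (xt x c t) m b → Nice b → Av b (c ^ m) →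
      All False (xt x c (t + 1 + 1)) (m + 1) := fun t m b h5 h6 h7 =>
    step_two ((sim_prod (sim_succ x c t) (Sim.refl _)).trans (sim_succ x c (t + 1))) h5 h6 h7
      (det_xt h0 hc _) (h.pos h3 c _) (by rw [finrank_xt]; omega)
  induction k using Nat.twoStepInduction with
  | zero =>
    intro t m b h6 h7 h8 h9
    obtain ⟨z, k1, k2⟩ := (h6.prod (In.scalar c m)).sim (sim_succ x c t)
    have k3 := (h7.1.nice h8).sim k2
    have k4 : 3 ≤ finrank F (V × (Fin (t + 1) → F)) := by rw [finrank_xt]; omega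
    exact cov_nice hq k1 k3 (k1.all k3.1 (h4 _) (det_xt h0 hc _) k4) (h4 _) (det_xt h0 hc _) k4
      (by rw [finrank_xt]; omega)
  | one =>
    intro t m b h6 h7 h8 h9
    exact (h5 t m b h6 h7 h8).cov hq (h4 _) (det_xt h0 hc _) (by rw [finrank_xt]; omega)
      (by rw [finrank_xt]; omega)
  | more k ih _ =>
    intro t m b h6 h7 h8 h9
    obtain ⟨z, k1, k2, k3⟩ := (h5 t m b h6 h7 h8).exists hq (by rw [finrank_xt]; omega)
      (pow_ne_zero (m + 1) hc)
    rw [show t + 1 + (k + 2) = t + 1 + 1 + 1 + k by omega]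
    exact ih _ _ z k1 k2 k3 (by omega)

theorem covA (hq : 4 ≤ Nat.card F) (h : TI V x) (h3 : 3 ≤ finrank F V) (h1 : ∀ s, All s x m)
    (hm : 2 * m ≤ finrank F V) (hd : LinearMap.det (xt x c t) = 1) : Cov True (xt x c t) := by
  cases t with
  | zero =>
    exact ((h1 True).cov hq h.not_sc ((sim_zero x c).det_eq ▸ hd ▸ one_ne_zero) h3 hm).sim
      (sim_zero x c).symm
  | succ t =>
    obtain ⟨b, h4, h5, h6⟩ := (h1 False).exists hq h3 (pow_ne_zero m (det_xt' hd).2)
    obtain ⟨z, k1, k2⟩ := h4.sim (sim_zero x c).symm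
    have := ind hq h h3 (det_xt' hd).1 (det_xt' hd).2 t 0 m z k1 (h5.sim k2) (h6.sim k2) hm
    rw [show 0 + 1 + t = t + 1 by omega] at this
    exact this.of_ns (ns_xt x c t)

theorem cov_cyc (hq : 4 ≤ Nat.card F) (t : ℕ) : ∀ {V : Type u} [AddCommGroup V] [Module F V]
    [FiniteDimensional F V] {x : End F V}, Cyc x → 2 ≤ finrank F V → 3 ≤ finrank F V + t →
      LinearMap.det (xt x c t) = 1 → Cov True (xt x c t) := by
  induction t with
  | zero =>
    intro V _ _ _ x h h2 h3 hd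
    have h0 : LinearMap.det x = 1 := (sim_zero x c).det_eq ▸ hd
    have h1 := h0.trans_ne one_ne_zero
    rcases h3.eq_or_lt with h4 | h4
    · obtain ⟨b, h5, h6, -⟩ := (h.all (s := True) h1 h3).exists hq h3 one_ne_zero
      exact Cov.sim ⟨cov_ns (In.one (SC.refl x)) h h5 h6 h1 h3 h4, 1, by
        rw [one_smul]
        exact id_trick hq (h.not_sc h2) h0 (.inl h4.symm) fun _ => ⟨1, h4.symm⟩⟩ (sim_zero x c).symm
    · exact covA hq (.base V x h h2) h3 (fun _ => h.all h1 h3) h4 hd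
  | succ t ih =>
    intro V _ _ _ x h h2 h3 hd
    obtain ⟨h0, hc⟩ := det_xt' hd
    by_cases h4 : 4 ≤ finrank F V
    · exact covA hq (.base V x h h2) (by omega) (fun _ => h.all h0 (by omega)) h4 hd
    by_cases h5 : Av x c
    · exact (ih (h.prod_one h5) (by simp; omega) (by simp; omega)
        ((sim_merge x c t).det_eq.trans hd)).sim (sim_merge x c t)
    refine Cov.of_ns ?_ (ns_xt x c t)
    rcases h2.eq_or_lt with h6 | h6
    · refine cov_rank1 hq hc (det_xt h0 hc _) ?_ (by rw [finrank_xt]; omega)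
      rw [show xt x c (t + 1) - c • 1 = inl F V _ ∘ₗ (x - c • 1) ∘ₗ fst F V _ from
        LinearMap.ext fun v => Prod.ext rfl (sub_self _), range_comp, range_comp, range_eq_top.2
          fst_surjective, Submodule.map_top,
        ← (Submodule.equivMapOfInjective _ inl_injective _).finrank_eq]
      have h7 := (x - c • 1).finrank_range_add_finrank_ker
      have h8 := Submodule.one_le_finrank_iff.2 fun e : ker (x - c • 1) = ⊥ =>
        h5 fun v hv => e.le (mem_ker.2 (sub_eq_zero.2 hv))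
      have h9 := Submodule.one_le_finrank_iff.2 fun e : range (x - c • 1) = ⊥ =>
        h.not_sc h2 ⟨c, sub_eq_zero.1 (range_eq_bot.1 e)⟩
      omega
    obtain ⟨b, k1, k2, k3⟩ := b4a hq (by omega) h h0 h5
    obtain ⟨z, k4, k5⟩ := k1.sim ((sim_zero _ c).symm.trans (sim_merge x c 0))
    cases t with
    | zero =>
      have k6 : finrank F (V × (Fin (0 + 1) → F)) = 2 + 2 := by rw [finrank_xt]; omega
      exact ⟨cov_ns k4 (k2.sim k5).1 k4 (k2.sim k5) (det_xt h0 hc _) (by omega) k6.symm, 1, by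
        rw [one_smul]
        exact id_trick hq (fun e => h.not_sc h2 e.left) hd (.inr (.inl k6)) False.elim⟩
    | succ t =>
      have := ind hq (.base V x h h2) h6 h0 hc t _ 2 z k4 (k2.sim k5) (k3.sim k5) (by omega)
      rwa [show 0 + 1 + 1 + t = t + 1 + 1 by omega] at this

theorem covC (hq : 4 ≤ Nat.card F) {x₁ : End F W} {x₂ : End F U} (h : Sim x (x₁.prodMap x₂))
    (h₁ : Cyc x₁) (h₂ : Cyc x₂) (hW : finrank F W = 2) (hU : finrank F U = 2)
    (hd : LinearMap.det (xt x c (t + 1)) = 1) : Cov False (xt x c (t + 1)) := by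
  obtain ⟨h0, hc⟩ := det_xt' hd
  have h1 := h0
  rw [h.det_eq, det_prod] at h1
  have h2 : finrank F V = 4 := by rw [h.finrank_eq, finrank_prod, hW, hU]
  have h3 : TI V x := .step V x W x₁ U x₂ h (.base W x₁ h₁ hW.ge) h₂ hU.ge
  have h4 : ∀ t, ¬ Sc (xt x c t) := fun t e => h3.not_sc e.left
  have h5 : Sim ((x₁.prodMap x₂).prodMap (c • 1 : End F F)) (xt x c (0 + 1)) :=
    (sim_prod h.symm (Sim.refl _)).trans ((sim_zero _ c).symm.trans (sim_merge x c 0))
  obtain ⟨P, h6⟩ := cyc_mul ((((h₁.hf hW).prod (h₂.hf hU)).prod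
    ((cyc_one c).hf (finrank_self F))).sim h5) (((((cyc_one c).hi (by simpa using hc)
      (finrank_self F)).prod (h₁.hi (left_ne_zero_of_mul h1) hW)).prod
        (h₂.hi (right_ne_zero_of_mul h1) hU)).sim (((sim_assoc (c • 1 : End F F) x₁ x₂).trans
          (sim_swap _ _)).trans h5)) (det_xt h0 hc _) (fun i _ _ => by
            simp only [and_false, or_false, false_or]; omega) (by omega)
  have h7 : In False (xt x c (0 + 1)) 2 _ := (In.one (SC.refl _)).mul (In.one (SC.conj P False.elim _))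
  have h8 : All False (xt x c (0 + 1 + 1)) 3 := step_one (sim_succ x c _) h7 h6 (det_xt h0 hc _)
    (pos_step h (.base W x₁ h₁ hW.ge) h₂ hU.ge c _) (by rw [finrank_xt]; omega)
  match t with
  | 0 =>
    have k6 : finrank F (V × (Fin (0 + 1) → F)) = 3 + 2 := by rw [finrank_xt]; omega
    obtain ⟨b, k1, k2, -⟩ := (h7.all h6 (h4 _) (det_xt h0 hc _) (by omega)).exists hq (by omega) hc
    exact ⟨cov_ns h7 h6 k1 k2 (det_xt h0 hc _) (by omega) k6.symm, 1, by
      rw [one_smul]
      exact id_trick hq (h4 _) hd (.inr (.inr k6)) False.elim⟩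
  | 1 => exact h8.cov hq (h4 _) (det_xt h0 hc _) (by rw [finrank_xt]; omega) (by rw [finrank_xt]; omega)
  | t + 2 =>
    obtain ⟨b, k1, k2, k3⟩ := h8.exists hq (by rw [finrank_xt]; omega) (pow_ne_zero 3 hc)
    have := ind hq h3 (by omega) h0 hc t _ 3 b k1 k2 k3 (by omega)
    rwa [show 0 + 1 + 1 + 1 + t = t + 2 + 1 by omega] at this

theorem cov (hq : 4 ≤ Nat.card F) (hn : 3 ≤ finrank F V) (hx : ¬ Sc x) (hd : LinearMap.det x = 1) :
    Cov True x := by
  obtain ⟨U, _, _, _, y, t, c, h1, h2⟩ := dec x hx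
  rw [h2.det_eq] at hd
  rw [h2.finrank_eq, finrank_xt] at hn
  refine Cov.sim ?_ h2.symm
  have h0 : LinearMap.det y ≠ 0 := left_ne_zero_of_mul_eq_one ((det_prod _ _).symm.trans hd)
  rcases h1.cases with h3 | ⟨W, _, _, x₁, Q, _, _, x₂, h3, h₁, h₂, h4⟩
  · exact cov_cyc hq t h3 h1.two hn hd
  haveI := h₁.fd
  haveI := Module.finite_of_finrank_pos (R := F) (M := Q) (by omega)
  have h5 := h₁.two
  have h6 : finrank F U = finrank F W + finrank F Q := by rw [h3.finrank_eq, finrank_prod]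
  by_cases h7 : 6 ≤ finrank F U
  · exact covA hq h1 (by omega) (fun _ => all_three hq h3 h₁ h₂ h4 h0) h7 hd
  have h8 := h₁.cyc (by omega)
  by_cases h9 : finrank F U = 5
  · exact covA hq h1 (by omega) (fun _ => all_two h3 h8 h₂ h5 h4 (by omega) h0) (by omega) hd
  cases t with
  | succ t => exact (covC hq h3 h8 h₂ (by omega) (by omega) hd).of_ns (ns_xt y c t)
  | zero =>
    rcases r22 (by omega) (by omega) h8 h₂ with h10 | h10 | ⟨T, _, _, C, d, k1, k2, -, k3⟩
    · refine (cov22 hq (by omega) h8 ?_).sim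
        ((sim_prod (Sim.refl _) h10).trans ((sim_zero y c).trans h3).symm)
      rw [h3.det_eq, det_prod] at h0
      exact left_ne_zero_of_mul h0
    · exact cov_cyc hq 0 (h10.sim h3.symm) h1.two hn hd
    · haveI := Module.finite_of_finrank_pos (R := F) (M := T) (by omega)
      have k4 := (((sim_zero y c).trans h3).trans k3).trans ((sim_zero _ d).symm.trans (sim_merge C d 0))
      exact (cov_cyc hq _ k2 (by omega) (by omega) (k4.det_eq ▸ hd)).sim k4.symm

end Cfsg.Agent.COV
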