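import Cfsg.Agent.COV.L2
import Cfsg.Agent.COV.Comp

/-! Inductive steps for the covering property. -/

set_option autoImplicit false

namespace Cfsg.Agent.COV

open Module LinearMap H67

universe u

variable {F : Type u} [Field F] {V W : Type u} [AddCommGroup V] [Module F V] [AddCommGroup W]
  [Module F W] {s : Prop} {x : End F V} {k l m : ℕ}

theorem Av.ne {f : End F V} {ν β : F} (h : Av f ν) {e : V} (h1 : f e = β • e) (h2 : e ≠ 0) : β ≠ ν :=
  fun h3 => h2 (h e (h3 ▸ h1))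

theorem Cyc.smul {f : End F V} (h : Cyc f) {c : F} (hc : c ≠ 0) : Cyc (c • f) :=
  h.imp fun φ hφ X h2 h3 => hφ X h2 fun v hv => by
    simpa [smul_smul, hc] using X.smul_mem c⁻¹ (h3 v hv)

theorem Nice.smul {f : End F V} (h : Nice f) {c : F} (hc : c ≠ 0) : Nice (c • f) := by
  obtain ⟨h0, β, e, φ, h1, h2, h3⟩ := h
  exact ⟨h0.smul hc, c * β, e, φ, by simp [h1, smul_smul], fun v => by simp [h2, mul_assoc], h3⟩

theorem Nice.split {b : End F V} (h : Nice b) : ∃ (H : Submodule F V) (b₀ : End F H) (β : F),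
    Cyc b₀ ∧ Av b₀ β ∧ Sim (b₀.prodMap (β • 1 : End F F)) b := by
  obtain ⟨⟨χ, h0⟩, β, e, φ, h1, h2, h3⟩ := h
  have h4 : ∀ v ∈ ker φ, b v ∈ ker φ := fun v hv => by simp [h2, show φ v = 0 from hv]
  refine ⟨ker φ, b.restrict h4, β, ⟨χ ∘ₗ (ker φ).subtype, fun X h5 h6 => eq_bot_iff.2 fun v hv =>
    Subtype.ext ((h0 (X.map (ker φ).subtype) (Submodule.map_le_iff_le_comap.2 h5) ?_).le
      ⟨v, hv, rfl⟩)⟩, fun v hv => Subtype.ext (Obs.eig2 h0 h1 h3 _ v.2 (congrArg Subtype.val hv)),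
    LinearEquiv.ofBijective ((ker φ).subtype.coprod (toSpanSingleton F V e))
      ⟨(injective_iff_map_eq_zero _).2 fun v hv => ?_, fun v =>
        ⟨(⟨v - φ v • e, by simp [h3]⟩, φ v), by simp⟩⟩, fun v => by
          change b v.1 + (β * v.2) • e = b (v.1 + v.2 • e)
          rw [map_add, map_smul, h1, smul_smul, mul_comm]⟩
  · rintro _ ⟨w, hw, rfl⟩
    exact ⟨_, h6 w hw, rfl⟩
  · have h5 : v.2 = 0 := by simpa [h3] using congrArg φ hv
    exact Prod.ext (by simpa [h5] using hv) h5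

theorem sim_ppp {U T : Type u} [AddCommGroup U] [Module F U] [AddCommGroup T] [Module F T]
    (f : End F V) (a : End F W) (b : End F U) (c : End F T) :
    Sim ((f.prodMap a).prodMap (b.prodMap c)) ((f.prodMap b).prodMap (a.prodMap c)) :=
  ⟨LinearEquiv.prodProdProdComm F V W U T, fun _ => rfl⟩

variable [FiniteDimensional F V] [FiniteDimensional F W]

theorem det_prod (f : End F V) (g : End F W) :
    LinearMap.det (f.prodMap g) = LinearMap.det f * LinearMap.det g := det_prodMap f g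

theorem Nice.inv {f a : End F V} (h : Nice f) (h4 : f * a = 1) : Nice a := by
  obtain ⟨h0, β, e, φ, h1, h2, h3⟩ := h
  have h5 : β • a e = e := by
    rw [← map_smul, ← h1, ← End.mul_apply, mul_eq_one_comm.1 h4, End.one_apply]
  have h6 : β ≠ 0 := fun h => by rw [← h5, h, zero_smul, map_zero] at h3; exact zero_ne_one h3
  refine ⟨h0.inv h4, β⁻¹, e, φ, by rw [eq_inv_smul_iff₀ h6, h5], fun v => ?_, h3⟩
  rw [eq_inv_mul_iff_mul_eq₀ h6, ← h2, ← End.mul_apply, h4, End.one_apply]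

theorem exists_nice (hq : 4 ≤ Nat.card F) (hn : 3 ≤ finrank F V) {δ ν : F} (hν : ν ≠ 0) :
    ∃ b : End F V, Nice b ∧ LinearMap.det b = δ ∧ Av b ν := by
  obtain ⟨β, h1, h2, -⟩ := big hq 0 ν ν
  obtain ⟨f, h3, h4, h5, h6⟩ := exists_av2 (V := Fin (finrank F V - 1) → F) hq (by simp; omega)
    (δ := δ / β) h1 hν
  have e := LinearEquiv.ofFinrankEq ((Fin (finrank F V - 1) → F) × F) V (R := F) (by simp; omega)
  exact ⟨_, (h3.nice h5).sim (sim_conj e _), by
    rw [← (sim_conj e _).det_eq, det_prod, h4]; simp [h1], (h6.prod (av_one h2)).sim (sim_conj e _)⟩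

theorem step_all {y : End F V} {B B' : ℕ → Prop} (h : In s x m y) (hx : HF x (finrank F V) B)
    (hy : HI y (finrank F V) B') (hx0 : LinearMap.det x ≠ 0)
    (hB : ∀ i, 0 < i → i + 1 < finrank F V → B i → ¬ B' i) (h1 : ¬ B (finrank F V - 1))
    (h2 : ¬ B' (finrank F V - 1)) (hn : 3 ≤ finrank F V) : All s x (m + 1) := fun b hb hd => by
  obtain ⟨P, h3, h4⟩ := l2plus hx hy hx0 hB h1 h2 (by omega) hb rfl (by rw [hd, h.det, pow_succ'])
    one_ne_zero
  exact (In.cons (SC.conj P (fun _ => h3 hn) x) h).sc ((hb.sim h4).ns.sc h4.symm)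

theorem In.all {y : End F V} (h : In s x m y) (hy : Cyc y) (hx : ¬ Sc x) (hx0 : LinearMap.det x ≠ 0)
    (hn : 3 ≤ finrank F V) : All s x (m + 1) :=
  step_all h (hf_top hx) (hy.hi (h.det ▸ pow_ne_zero _ hx0) rfl) hx0 (fun _ _ _ _ h => h)
    (by omega) (fun h => h) hn

theorem All.exists (hq : 4 ≤ Nat.card F) (h : All s x m) (hn : 3 ≤ finrank F V) {ν : F} (hν : ν ≠ 0) :
    ∃ b, In s x m b ∧ Nice b ∧ Av b ν := by
  obtain ⟨b, h1, h2, h3⟩ := exists_nice hq hn (δ := LinearMap.det x ^ m) hν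
  exact ⟨b, h b h1 h2, h1, h3⟩

theorem All.le (hq : 4 ≤ Nat.card F) (h : All s x m) (hx : ¬ Sc x) (hx0 : LinearMap.det x ≠ 0)
    (hn : 3 ≤ finrank F V) (hm : m ≤ l) : All s x l := by
  induction l, hm using Nat.le_induction with
  | base => exact h
  | succ l _ ih =>
    obtain ⟨b, h1, h2, -⟩ := ih.exists hq hn one_ne_zero
    exact h1.all h2.1 hx hx0 hn

theorem cov_ns {a b : End F V} (h1 : In s x k a) (ha : Cyc a) (h2 : In s x l b) (hb : Nice b)
    (hx0 : LinearMap.det x ≠ 0) (hn : 3 ≤ finrank F V) (hkl : l + k = finrank F V) (g : End F V)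
    (hg : ¬ Sc g) (hd : LinearMap.det g = LinearMap.det x ^ finrank F V) :
    In s x (finrank F V) g := by
  obtain ⟨a', h3⟩ := exists_inv (h1.det ▸ pow_ne_zero k hx0)
  have h4 : LinearMap.det x ^ k * LinearMap.det a' = 1 := by rw [← h1.det, ← map_mul, h3, map_one]
  obtain ⟨P, h5, h6⟩ := l2 (ha.inv h3) (right_ne_zero_of_mul_eq_one h4) hg (hd ▸ pow_ne_zero _ hx0)
    hb rfl (by rw [h2.det, hd, ← hkl, pow_add]; linear_combination (-LinearMap.det x ^ l) * h4)
    one_ne_zero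
  have h7 := (h1.sc (SC.conj P (fun _ => h5 hn) a)).mul (h2.sc (hb.ns.sc h6))
  have h8 : P.conj a * P.conj a' = 1 := (P.conj_comp a' a).symm.trans (by
    rw [show a ∘ₗ a' = LinearMap.id from h3, P.conj_id]; rfl)
  rwa [← mul_assoc, h8, one_mul, hkl] at h7

theorem cov_nice (hq : 4 ≤ Nat.card F) {a : End F V} (h1 : In s x k a) (ha : Nice a) (h2 : All s x l)
    (hx : ¬ Sc x) (hx0 : LinearMap.det x ≠ 0) (hn : 3 ≤ finrank F V) (hkl : l + k ≤ finrank F V) :
    Cov s x := by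
  replace h2 := h2.le hq hx hx0 hn (l := finrank F V - k) (by omega)
  obtain ⟨b, h3, h4, -⟩ := h2.exists hq hn one_ne_zero
  refine ⟨cov_ns h1 ha.1 h3 h4 hx0 hn (by omega), LinearMap.det x, ?_⟩
  obtain ⟨a', h5⟩ := exists_inv (h1.det ▸ pow_ne_zero k hx0)
  have h6 : LinearMap.det x ^ k * LinearMap.det a' = 1 := by rw [← h1.det, ← map_mul, h5, map_one]
  have h7 := h1.mul (h2 _ ((ha.inv h5).smul hx0) (by
    rw [det_smul, show LinearMap.det x ^ finrank F V = _ * _ from
      (pow_mul_pow_sub _ (show k ≤ _ by omega)).symm]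
    linear_combination LinearMap.det x ^ (finrank F V - k) * h6))
  rwa [mul_smul_comm, h5, Nat.sub_add_cancel (by omega)] at h7

theorem All.cov (hq : 4 ≤ Nat.card F) (h : All s x m) (hx : ¬ Sc x) (hx0 : LinearMap.det x ≠ 0)
    (hn : 3 ≤ finrank F V) (hm : 2 * m ≤ finrank F V) : Cov s x := by
  obtain ⟨b, h1, h2, -⟩ := h.exists hq hn one_ne_zero
  exact cov_nice hq h1 h2 h hx hx0 hn (by omega)

/-- the two possible positions of the blocks -/
def Pos (x : End F V) : Prop := (HF x (finrank F V) fun i => i + 3 ≤ finrank F V) ∨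
  HF x (finrank F V) fun i => i ≠ 1 ∧ i + 1 ≠ finrank F V

theorem step_one {y a : End F W} {c : F} (hs : Sim (y.prodMap (c • 1 : End F F)) x)
    (h : In False y m a) (ha : Cyc a) (hx0 : LinearMap.det x ≠ 0)
    (hx : HF x (finrank F V) fun i => i ≠ 1 ∧ i + 1 ≠ finrank F V) (hn : 3 ≤ finrank F V) :
    All False x (m + 1) := by
  obtain ⟨z, h1, h2⟩ := (h.prod (In.scalar c m)).sim hs
  have h3 := h2.det_eq.trans_ne (h1.det ▸ pow_ne_zero m hx0)
  rw [det_prod] at h3
  have h4 := ((cyc_one (c ^ m)).hi (right_ne_zero_of_mul h3) (finrank_self F)).prod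
    (ha.hi (left_ne_zero_of_mul h3) rfl)
  rw [show 1 + finrank F W = finrank F V by rw [← hs.finrank_eq]; simp [add_comm]] at h4
  exact step_all h1 hx (h4.sim ((sim_swap _ _).trans h2)) hx0 (fun i _ _ _ => by simp; omega)
    (by omega) (by simp; omega) hn

theorem step_two {y b : End F W} {c : F}
    (hs : Sim ((y.prodMap (c • 1 : End F F)).prodMap (c • 1 : End F F)) x)
    (h : In False y m b) (hb : Nice b) (hc : Av b (c ^ m)) (hx0 : LinearMap.det x ≠ 0) (hx : Pos x)
    (hn : 3 ≤ finrank F V) : All False x (m + 1) := by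
  rcases hx with hx | hx
  swap
  · exact step_one hs (h.prod (In.scalar c m)) (hb.1.prod_one hc) hx0 hx hn
  obtain ⟨z, h1, h2⟩ := ((h.prod (In.scalar c m)).prod (In.scalar c m)).sim hs
  obtain ⟨H, b₀, β, h3, h4, h5⟩ := hb.split
  have h6 := hc.sim h5.symm
  have h7 : Sim ((b₀.prodMap (c ^ m • 1 : End F F)).prodMap
      ((β • 1 : End F F).prodMap (c ^ m • 1 : End F F))) z :=
    ((sim_ppp b₀ (c ^ m • 1 : End F F) (β • 1 : End F F) (c ^ m • 1 : End F F)).trans
      ((sim_prod h5 (Sim.refl _)).trans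
        (sim_assoc b (c ^ m • 1 : End F F) (c ^ m • 1 : End F F)).symm)).trans h2
  have h8 := h7.det_eq.trans_ne (h1.det ▸ pow_ne_zero m hx0)
  rw [det_prod] at h8
  have h9 := ((h3.prod_one fun v hv => congrArg Prod.fst (h6 (v, 0) (by simp [hv]))).hi
    (left_ne_zero_of_mul h8) rfl).prod (((cyc_one β).prod_one
      (av_one (h6.ne (e := (0, 1)) (by simp) (by simp)))).hi (right_ne_zero_of_mul h8) rfl)
  have h10 : finrank F (H × F) + 2 = finrank F V := by rw [← h7.finrank_eq]; simp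
  rw [show finrank F (F × F) = 2 by simp, h10] at h9
  exact step_all h1 hx (h9.sim h7) hx0 (fun i _ _ _ => by simp only [and_false, or_false, false_or]; omega)
    (by omega) (by simp only [and_false, or_false, false_or]; omega) hn

end Cfsg.Agent.COV
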